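import Cfsg.Agent.Uni.AsmB
import Mathlib.FieldTheory.Finite.Extension

/-!
# Assembly of S4793 from the pieces
-/

set_option autoImplicit false

namespace Cfsg.Uni

open Matrix Module

universe u v

variable {F : Type u} [Field F] [StarRing F] [Fintype F] (q : ℕ) [UF F q]

variable (F) in
/-- the statement in the unitary group -/
def Core (ι : Type) [Fintype ι] [DecidableEq ι] (D : ℕ) : Prop :=
  ∃ ζ : IrrCharacter (Γ F ι), ZT ζ ∧ charDegree ζ.1 = D ∧ ¬ Occ ζ.1 ∧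
    ∀ χ, ZT χ → χ ≠ ζ → Occ χ.1 ∧ charDegree χ.1 ≠ D

variable {ι : Type} [Fintype ι] [DecidableEq ι]

include q in
theorem exists_ext [Nonempty ι] : ∃ (K : Type u) (_ : Field K) (_ : Algebra F K) (_ : Finite K)
    (_ : Basis ι F K), Nat.card K = q ^ (2 * Fintype.card ι) := by
  obtain ⟨p, hp⟩ := CharP.exists F
  have := Fact.mk (CharP.char_is_prime F p)
  have : NeZero (Fintype.card ι) := ⟨Fintype.card_ne_zero⟩
  refine ⟨ULift.{u} (FiniteField.Extension F p (Fintype.card ι)), inferInstance, inferInstance,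
    inferInstance, (finBasisOfFinrankEq F _ ?_).reindex (Fintype.equivFin ι).symm, ?_⟩
  · rw [finrank_ulift, FiniteField.finrank_extension]
  · rw [Nat.card_ulift, FiniteField.natCard_extension, Nat.card_eq_fintype_card, UF.card (F := F),
      ← pow_mul]

omit [Fintype F] in
theorem occ_of_sing [Finite F] {K : Type u} [Field K] [Algebra F K] [Finite K] (b : Basis ι F K)
    (hC : ∀ g : Γ F ι, (∀ β, Commute g (lh (sing b β))) → ∃ β z, g = lh (sing b β) * (mh F ι).sc z)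
    (χ : IrrCharacter (Γ F ι)) (hz : ZT χ) (h : ∑ᶠ β : Kˣ, χ.1 (lh (sing b β)) ≠ 0) : Occ χ.1 := by
  obtain ⟨β₀, h0⟩ := IsCyclic.exists_generator (α := Kˣ)
  refine ⟨lh (sing b β₀), finsum_ne_zero_of χ.isCharacter (lh.comp (sing b)) (Subgroup.subtype _)
    (fun g => ?_) h⟩
  obtain ⟨β, z, e⟩ := hC g fun β => by
    obtain ⟨k, rfl⟩ := h0 β
    simp only [map_zpow]
    exact Commute.zpow_right (Subgroup.mem_centralizer_singleton_iff.1 g.2) k
  exact ⟨β, _, hz z, e⟩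

theorem arith {q m D : ℕ} (hq : 2 ≤ q) (hm : 1 ≤ m) (h3 : m = 1 → 3 ≤ q)
    (hD : (q + 1) * D + q = q ^ (2 * m + 1)) : 1 < D ∧ D + 1 < q ^ (2 * m) - 1 ∧ 4 < q ^ (2 * m) := by
  have h1 : q + 3 ≤ q ^ (2 * m) ∧ 4 < q ^ (2 * m) := by
    rcases hm.eq_or_lt with rfl | h
    · have := h3 rfl
      rw [mul_one]
      constructor <;> nlinarith
    · have : q ^ 4 ≤ q ^ (2 * m) := Nat.pow_le_pow_right (by omega) (by omega)
      have : 4 * q ≤ q ^ 4 := by
        have : 2 ^ 3 ≤ q ^ 3 := Nat.pow_le_pow_left hq 3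
        nlinarith
      omega
  rw [pow_succ] at hD
  obtain ⟨h1, h2⟩ := h1
  generalize q ^ (2 * m) = N at *
  refine ⟨by nlinarith, ?_, h2⟩
  have : D + 2 < N := by nlinarith
  omega

theorem core [Nonempty ι] (hW : StWeil F q) (hZ : StZero F q) (hO : StOrb F) (hC : StCent F)
    (hT : StTor F) {ε : Γ F ι →* unitary F} (hε : ∀ z, ε ((mh F ι).sc z) = z)
    (hd : Function.Surjective fun z => ε (dh ι z)) (h3 : Fintype.card ι = 1 → 3 ≤ q) {D : ℕ}
    (hD : (q + 1) * D + q = q ^ (2 * Fintype.card ι + 1)) {ψ : AddChar F ℂ} (hψ : Psi ψ)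
    (hS : Nat.card {χ : IrrCharacter (Γ F ι) // Small ψ χ} ≤ q + 1 ∨
      ∀ χ ζ : IrrCharacter (Γ F ι), Small ψ χ → Small ψ ζ → charDegree ζ.1 = D →
        χ = ζ ∨ (D < charDegree χ.1 ∧ Occ χ.1)) : Core F ι D := by
  classical
  have := Fintype.ofFinite (Γ F ι)
  obtain ⟨K, _, _, _, b, hK⟩ := exists_ext q (F := F) (ι := ι)
  obtain ⟨a1, a2, a3⟩ := arith (two_le_q F q) Fintype.card_pos h3 hD
  have hc := hC ι K b (hK ▸ a3)
  have hw := hW _ (mh F ι)
  have hdeg : ∀ γ, charDegree (zt q ε γ) = if γ = 1 then D else D + 1 := fun γ => by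
    refine charDegree_eq_of_one_eq (mul_left_cancel₀ (q_add_ne q) ?_)
    have : ((q : ℂ) + 1) * D + q = q ^ (2 * Fintype.card ι + 1) := by exact_mod_cast hD
    rw [zt_one, ← this]
    split_ifs <;> push_cast <;> ring
  obtain ⟨m, hm, hn⟩ := norm_zt q hε hd hO
  obtain ⟨hirr, hinj⟩ := irr_of_norm_le (zt q ε) (zt_char q ε hw) (fun γ e => by
    have := hdeg γ
    rw [e, (IsCharacter.charDegree_eq_zero_iff IsCharacter.zero).2 rfl] at this
    split_ifs at this; omega) hn (by rwa [card_hom, card_unitary F q])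
  let ζ : (unitary F →* ℂˣ) → IrrCharacter (Γ F ι) := fun γ => ⟨_, hirr γ⟩
  have tri : ∀ χ : IrrCharacter (Γ F ι), ZT χ →
      (Occ χ.1 ∧ D + 1 < charDegree χ.1) ∨ χ = .triv _ ∨ Small ψ χ := fun χ hz => by
    obtain ⟨n, ρ, h⟩ := χ.isCharacter
    rcases hT ι K b ψ hψ n ρ with ⟨h1, h2⟩ | h1
    · refine .inl ⟨occ_of_sing b hc χ hz (h ▸ h1), ?_⟩
      rw [← h, charDegree_character, Module.finrank_fin_fun]
      omega
    · exact .inr (or_iff_not_imp_left.2 fun h0 => ⟨h0, hz, n, ρ, h, h1⟩)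
  have hsm : ∀ γ, Small ψ (ζ γ) := fun γ => by
    have h1 : charDegree (ζ γ).1 = _ := hdeg γ
    rcases tri (ζ γ) (zt_sc q hε γ) with h | h | h
    · split_ifs at h1 <;> omega
    · rw [h, IrrCharacter.charDegree_triv] at h1
      split_ifs at h1 <;> omega
    · exact h
  refine ⟨ζ 1, zt_sc q hε 1, (hdeg 1).trans (if_pos rfl), not_occ_zt q hw hZ, fun χ hz hne => ?_⟩
  rcases tri χ hz with h | rfl | h
  · exact ⟨h.1, by omega⟩
  · exact ⟨occ_triv, by rw [IrrCharacter.charDegree_triv]; omega⟩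
  rcases hS with hS | hS
  · obtain ⟨γ, e⟩ := (Function.Injective.bijective_of_nat_card_le
      (f := fun γ => (⟨ζ γ, hsm γ⟩ : {χ // Small ψ χ}))
      (fun γ γ' e => hinj (congrArg (·.1.1) e))
      (by rwa [Nat.card_eq_fintype_card (α := _ →* _), card_hom, card_unitary F q])).2 ⟨χ, h⟩
    obtain rfl : ζ γ = χ := congrArg (·.1) e
    have hγ : γ ≠ 1 := fun e => hne (by rw [e])
    exact ⟨occ_of_sing b hc _ hz (sum_sing_zt b q hε hd hγ), by
      rw [show charDegree (ζ γ).1 = _ from hdeg γ, if_neg hγ]; omega⟩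
  · obtain ⟨h1, h2⟩ := (hS χ (ζ 1) h (hsm 1) ((hdeg 1).trans (if_pos rfl))).resolve_left hne
    exact ⟨h2, h1.ne'⟩

omit [Fintype F] in
theorem transfer [Finite F] {G : Type v} [Group G] [Fintype G] {D : ℕ} (h : Core F ι D)
    (π : Γ F ι →* G) (hπ : Function.Surjective π) (hk : π.ker = (mh F ι).sc.range)
    {ε : Γ F ι →* unitary F} (hε : ∀ z, ε ((mh F ι).sc z) = z) :
    Nat.card {χ : IrrCharacter G // charDegree χ.1 = D} = 1 ∧ ∀ χ : IrrCharacter G,
      classInner χ.1 (fun g : G => (Nat.card (Subgroup.centralizer ({g} : Set G)) : ℂ)) ≠ 0 ↔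
        charDegree χ.1 ≠ D := by
  obtain ⟨ζ, h1, h2, h3, h4⟩ := h
  obtain ⟨ζ, rfl⟩ := ζ.exists_comap_eq π hπ (by
    rw [hk]; rintro _ ⟨z, rfl⟩; exact ζ.mem_charKer.2 (h1 z))
  rw [IrrCharacter.charDegree_comap] at h2
  have ho : ∀ χ : IrrCharacter G, Occ (χ.comap π hπ).1 ↔ Occ χ.1 := fun χ =>
    occ_comp χ.isCharacter π hπ fun a c e => by
      have : a * c * (c * a)⁻¹ ∈ π.ker := by
        rw [MonoidHom.mem_ker, map_mul, map_inv, map_mul, map_mul, e, mul_inv_cancel]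
      obtain ⟨z, hz⟩ := hk ▸ this
      have h5 := congrArg ε hz
      rw [hε, map_mul, map_inv, map_mul, map_mul, mul_comm (ε a), mul_inv_cancel] at h5
      rw [h5, map_one] at hz
      exact mul_inv_eq_one.1 hz.symm
  have key : ∀ χ : IrrCharacter G, χ ≠ ζ → Occ χ.1 ∧ charDegree χ.1 ≠ D := fun χ hne => by
    have := h4 (χ.comap π hπ) (fun z => by
      have : (mh F ι).sc z ∈ π.ker := hk ▸ ⟨z, rfl⟩
      rw [IrrCharacter.comap_apply, this, IrrCharacter.comap_apply, map_one])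
      fun e => hne (IrrCharacter.comap_injective π hπ e)
    rwa [ho, IrrCharacter.charDegree_comap] at this
  refine ⟨Nat.card_eq_one_iff_exists.2 ⟨⟨ζ, h2⟩, fun χ => Subtype.ext
    (by_contra fun e => (key _ e).2 χ.2)⟩, fun χ => ?_⟩
  rw [occ_iff χ.isCharacter]
  by_cases e : χ = ζ
  · subst e; simpa [h2, ← ho] using h3
  · simp [key χ e]

/-- the involution `x ↦ x ^ q` -/
@[reducible] def starOf (F : Type u) [Field F] [Fintype F] (q : ℕ) (hF : Fintype.card F = q ^ 2) :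
    StarRing F where
  star x := x ^ q
  star_involutive x := by simp only [← pow_mul, ← pow_two, ← hF, FiniteField.pow_card]
  star_mul x y := by rw [mul_comm, mul_pow]
  star_add x y := by
    obtain ⟨p, hp, k, hp', hk⟩ := FiniteField.card' F
    have := Fact.mk hp'
    obtain ⟨j, -, rfl⟩ := (Nat.dvd_prime_pow hp').1 (hk ▸ hF ▸ dvd_pow_self q two_ne_zero)
    exact add_pow_char_pow ..

/-- all the pieces -/
def AllPieces : Prop := ∀ (F : Type u) [Field F] [Fintype F] [StarRing F] (q : ℕ) [UF F q],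
  StWeil F q ∧ StZero F q ∧ StOrb F ∧ StIso F q ∧ StCent F ∧ StTor F ∧ StCount F q ∧ StThree F q ∧
    StThreeB F q

theorem final (h : AllPieces.{u}) {G : Type v} [Group G] [Fintype G] (n q : ℕ) (F : Type u) [Field F]
    [Fintype F] (hF : Fintype.card F = q ^ 2) (hn : 3 ≤ n) (hcop : Nat.Coprime n (2 * (q + 1)))
    (hG : Nonempty (G ≃* PSU n F q)) :
    Nat.card {χ : IrrCharacter G // charDegree χ.1 = (q ^ n - q) / (q + 1)} = 1 ∧
      ∀ χ : IrrCharacter G,
      classInner χ.1 (fun g : G => (Nat.card (Subgroup.centralizer ({g} : Set G)) : ℂ)) ≠ 0 ↔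
        charDegree χ.1 ≠ (q ^ n - q) / (q + 1) := by
  letI := starOf F q hF
  haveI : UF F q := ⟨hF, fun _ => rfl⟩
  obtain ⟨hW, hZ, hO, hI, hC, hT, hN, h3, h3'⟩ := h F q
  obtain ⟨e⟩ := hG
  obtain ⟨m, rfl⟩ : Odd n := Nat.coprime_two_right.1 (hcop.coprime_dvd_right (dvd_mul_right _ _))
  have hc : (2 * m + 1).Coprime (q + 1) := hcop.coprime_dvd_right (dvd_mul_left _ _)
  have hq := two_le_q F q
  obtain ⟨ψ, hψ⟩ := exists_psi F q
  obtain ⟨D, hD⟩ : ∃ D, (q + 1) * D + q = q ^ (2 * m + 1) := by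
    obtain ⟨c, hc⟩ := Odd.nat_add_dvd_pow_add_pow q 1 (odd_two_mul_add_one m)
    obtain ⟨c, rfl⟩ : ∃ d, c = d + 1 := Nat.exists_eq_succ_of_ne_zero fun e => by simp [e] at hc
    exact ⟨c, by rw [one_pow] at hc; nlinarith⟩
  rw [show (q ^ (2 * m + 1) - q) / (q + 1) = D by
    rw [← hD, Nat.add_sub_cancel, Nat.mul_div_cancel_left _ q.succ_pos]]
  suffices fin : ∀ (ι : Type) [Fintype ι] [DecidableEq ι] [Nonempty ι], Fintype.card ι = m →
      (Nat.card {χ : IrrCharacter (Γ F ι) // Small ψ χ} ≤ q + 1 ∨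
      ∀ χ ζ : IrrCharacter (Γ F ι), Small ψ χ → Small ψ ζ → charDegree ζ.1 = D →
        χ = ζ ∨ (D < charDegree χ.1 ∧ Occ χ.1)) → _ by
    by_cases hm : m = 1
    · subst hm
      have hD' : D = q * (q - 1) := by
        obtain ⟨r, rfl⟩ : ∃ r, q = r + 1 := ⟨q - 1, by omega⟩
        refine Nat.eq_of_mul_eq_mul_left (r + 1).succ_pos ?_
        simp only [Nat.add_sub_cancel, Nat.succ_eq_add_one]
        norm_num at hD
        nlinarith
      refine fin Unit rfl (.inr fun χ ζ h1 h2 h4 => ?_)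
      rcases h3' hc ψ hψ χ h1 with h5 | h5
      · exact .inl (h3 hc χ ζ h1.2.1 h2.2.1 h5 ((h3' hc ψ hψ ζ h2).resolve_right fun h => by omega))
      · exact .inr (hD' ▸ h5)
    · have : Nonempty (Fin (m - 1)) := ⟨⟨0, by omega⟩⟩
      have h6 : Fintype.card (Fin (m - 1) ⊕ Unit) = m := by simp; omega
      exact fin _ h6 (.inl (hN _ ψ hψ (h6.symm ▸ hc)))
  intro ι _ _ _ hι hS
  obtain ⟨π, ε, h1, h2, h4, h5⟩ := hI ι _ (by rw [hι]) hc
  exact transfer (core q hW hZ hO hC hT h4 h5 (fun e => by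
    rw [hι] at e; subst e
    by_contra hq3
    obtain rfl : q = 2 := by omega
    norm_num at hc) (hι ▸ hD) hψ hS) (e.symm.toMonoidHom.comp π) (e.symm.surjective.comp h1)
    (by rw [← h2]; ext; simp) h4

end Cfsg.Uni
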