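import Cfsg.Agent.Uni.Defs

/-!
# S4793: the stabiliser of `U`, generation and orbits in the model group
-/

set_option autoImplicit false

namespace Cfsg.Uni.D

open Matrix Module

universe u

variable {F : Type u} [Field F] [StarRing F] {ι : Type} [Fintype ι] [DecidableEq ι]

theorem eq_of_dot {a b : ι → F} (h : ∀ u : ι → F, a ⬝ᵥ star u = b ⬝ᵥ star u) : a = b :=
  funext fun i => by simpa using h (Pi.single i 1)

theorem mul_star_eq_zero {c : F} (h : c * star c = 0) : c = 0 := by simpa using h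

/-- an element fixing `U` pointwise and `ℓ` modulo `U` lies in `Q` -/
theorem mem_Q (g : Γ F ι) (hU : ∀ u, g.1 (u, 0, 0) = (u, 0, 0)) (hl : (g.1 (0, 1, 0)).2.1 = 1) :
    ∃ p : HQ F ι, g = qh p := by
  have h3 : ∀ x, (g.1 x).2.2 = x.2.2 := fun x => eq_of_dot fun u => by
    have := (mh F ι).iso g x (u, 0, 0)
    rw [hU] at this
    simpa [mh_h] using this
  set y := (g.1 (0, 1, 0)).1 with hy
  have hl' : g.1 (0, 1, 0) = (y, 1, 0) := Prod.ext rfl (Prod.ext hl (h3 _))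
  let T : (ι → F) →ₗ[F] (ι → F) := LinearMap.fst F _ _ ∘ₗ g.1.toLinearMap ∘ₗ
    LinearMap.inr F _ _ ∘ₗ LinearMap.inr F _ _
  have hw : ∀ w, g.1 (0, 0, w) = (LinearMap.toMatrix' T *ᵥ w, -(w ⬝ᵥ star y), w) := fun w => by
    refine Prod.ext (by rw [LinearMap.toMatrix'_mulVec]; rfl) (Prod.ext ?_ (h3 _))
    have := (mh F ι).iso g (0, 0, w) (0, 1, 0)
    rw [hl', mh_h, h3] at this
    simp [mh_h] at this
    linear_combination this
  refine ⟨⟨y, LinearMap.toMatrix' T, ?_⟩, HS.ext fun x => ?_⟩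
  · ext i j
    have := (mh F ι).iso g (0, 0, Pi.single j 1) (0, 0, Pi.single i 1)
    rw [hw, hw] at this
    simp [mh_h] at this
    simp [vecMulVec_apply]
    linear_combination this
  · have : x = (x.1, 0, 0) + x.2.1 • ((0, 1, 0) : MV F ι) + (0, 0, x.2.2) := by simp
    conv_lhs => rw [this, map_add, map_add, map_smul, hU, hl', hw]
    simp [qh_apply, sub_eq_add_neg]

theorem par' (g : Γ F ι) (A : GL ι F) (z : unitary F) (hA : ∀ u, g.1 (u, 0, 0) = (A.1 *ᵥ u, 0, 0))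
    (hz : (g.1 (0, 1, 0)).2.1 = z) : ∃ p : HQ F ι, g = qh p * lh A * dh ι z := by
  obtain ⟨p, hp⟩ := mem_Q (g * dh ι z⁻¹ * lh A⁻¹) (fun u => by
    simp only [HS.mul_apply, lh_apply, dh_apply, hA, mulVec_zero, mul_zero, mulVec_mulVec,
      Units.mul_inv, one_mulVec]) (by
      have : ((0, ((z⁻¹ : unitary F) : F), 0) : MV F ι) =
        ((z⁻¹ : unitary F) : F) • ((0, 1, 0) : MV F ι) := by simp
      simp only [HS.mul_apply, lh_apply, dh_apply, mulVec_zero, mul_one, this, map_smul,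
        Prod.smul_snd, Prod.smul_fst, hz, smul_eq_mul]
      rw [← Submonoid.coe_mul, inv_mul_cancel]; rfl)
  exact ⟨p, by rw [← hp]; simp [mul_assoc]⟩

theorem par (g : Γ F ι) (h : ∀ u, (g.1 (u, 0, 0)).2 = 0) :
    ∃ (p : HQ F ι) (A : GL ι F) (z : unitary F), g = qh p * lh A * dh ι z := by
  let T : (ι → F) →ₗ[F] (ι → F) := LinearMap.fst F _ _ ∘ₗ g.1.toLinearMap ∘ₗ LinearMap.inl F _ _
  have hT : ∀ u, g.1 (u, 0, 0) = (T u, 0, 0) := fun u => Prod.ext rfl (h u)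
  have hi : Function.Injective T := fun a b e => by
    have : g.1 (a, 0, 0) = g.1 (b, 0, 0) := by rw [hT, hT, e]
    simpa using g.1.injective this
  have hu : IsUnit (LinearMap.toMatrix' T) := by
    rw [← mulVec_injective_iff_isUnit]
    intro a b e
    exact hi (by simpa only [LinearMap.toMatrix'_mulVec] using e)
  have h3 : (g.1 (0, 1, 0)).2.2 = 0 := eq_of_dot fun u => by
    obtain ⟨v, rfl⟩ := LinearMap.injective_iff_surjective.1 hi u
    have := (mh F ι).iso g (0, 1, 0) (v, 0, 0)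
    rw [hT] at this
    simpa [mh_h] using this
  have hz : (g.1 (0, 1, 0)).2.1 * star (g.1 (0, 1, 0)).2.1 = 1 := by
    have := (mh F ι).iso g (0, 1, 0) (0, 1, 0)
    rw [mh_h, h3] at this
    simpa [mh_h] using this
  obtain ⟨p, hp⟩ := par' g hu.unit ⟨_, by rw [mul_comm, hz], hz⟩
    (fun u => by rw [hT, IsUnit.unit_spec, LinearMap.toMatrix'_mulVec]) rfl
  exact ⟨p, _, _, hp⟩

/-- `Q` is transitive on the vectors of given norm and given non-zero `U'`-component -/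
theorem q_move (x : MV F ι) (f : ι → F) (hf : f ⬝ᵥ x.2.2 = 1) (a : F)
    (ha : a + star a = (mh F ι).h x x) :
    ∃ p : HQ F ι, (qh p).1 (a • star f, 0, x.2.2) = x := by
  have hf' : x.2.2 ⬝ᵥ f = 1 := by rw [dotProduct_comm, hf]
  have hs : star (star x.1 ⬝ᵥ x.2.2) = x.1 ⬝ᵥ star x.2.2 := by
    rw [← star_dotProduct_star, star_star, dotProduct_comm]
  refine ⟨⟨-star x.2.1 • star f, vecMulVec x.1 f - vecMulVec (star f) (star x.1) +
    (star x.1 ⬝ᵥ x.2.2 - a) • vecMulVec (star f) f, ?_⟩, ?_⟩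
  · ext i j
    simp [vecMulVec_apply, hs]
    rw [mh_h, dotProduct_comm x.2.2] at ha
    linear_combination (-(star (f i) * f j)) * ha
  · rw [qh_apply]
    refine Prod.ext ?_ (Prod.ext ?_ rfl)
    · simp [add_mulVec, sub_mulVec, smul_mulVec, vecMulVec_mulVec, hf]
      module
    · simp [hf']

theorem exists_dual {v : ι → F} (hv : v ≠ 0) : ∃ f : ι → F, f ⬝ᵥ v = 1 := by
  obtain ⟨j, hj⟩ := Function.ne_iff.1 hv
  exact ⟨Pi.single j (v j)⁻¹, by simpa using inv_mul_cancel₀ hj⟩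

omit [StarRing F] in
theorem gl_trans {v : ι → F} (hv : v ≠ 0) (i : ι) : ∃ B : GL ι F, B.1 *ᵥ v = Pi.single i 1 := by
  obtain ⟨f, hf, hi⟩ : ∃ f : ι → F, f ⬝ᵥ v = 1 ∧ f i ≠ 0 := by
    by_cases h : v i = 0
    · obtain ⟨j, hj⟩ := Function.ne_iff.1 hv
      have hij : i ≠ j := fun e => hj (e ▸ h)
      exact ⟨Pi.single j (v j)⁻¹ + Pi.single i 1, by simpa [h] using inv_mul_cancel₀ hj,
        by simp [hij]⟩
    · exact ⟨Pi.single i (v i)⁻¹, by simpa using inv_mul_cancel₀ h, by simpa using h⟩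
  have hu : IsUnit (1 + vecMulVec (Pi.single i 1 - v) f) := by
    rw [isUnit_iff_isUnit_det, vecMulVec_eq Unit, det_one_add_replicateCol_mul_replicateRow,
      isUnit_iff_ne_zero]
    simpa [dotProduct_sub, hf] using hi
  exact ⟨hu.unit, by simp [add_mulVec, vecMulVec_mulVec, hf]⟩

theorem l_move {v : ι → F} (hv : v ≠ 0) (i : ι) :
    ∃ A : GL ι F, (A⁻¹).1ᴴ *ᵥ v = Pi.single i 1 := by
  obtain ⟨B, hB⟩ := gl_trans hv i
  exact ⟨(star B)⁻¹, by simpa [star_eq_conjTranspose] using hB⟩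

theorem gen_step (i : ι) (N : Subgroup (Γ F ι)) (hq : ∀ p, qh p ∈ N) (hl : ∀ A, lh A ∈ N)
    (hw : wv F i ∈ N) (g : Γ F ι) (u : ι → F) (hu : (g.1 (u, 0, 0)).2.2 ≠ 0) :
    ∃ n ∈ N, ((n * g).1 (u, 0, 0)).2.2 = 0 ∧
      ∀ v, (g.1 (v, 0, 0)).2.2 = 0 → ((n * g).1 (v, 0, 0)).2.2 = 0 := by
  obtain ⟨f, hf⟩ := exists_dual hu
  obtain ⟨p, hp⟩ := q_move _ f hf 0 (by rw [HS.iso]; simp [mh_h])
  obtain ⟨A, hA⟩ := l_move hu i
  have h1 : (qh p⁻¹).1 (g.1 (u, 0, 0)) = (0, 0, (g.1 (u, 0, 0)).2.2) := by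
    conv_lhs => rw [← hp, map_inv, HS.inv_apply_apply, zero_smul]
  have h2 : (lh A * qh p⁻¹ * g).1 (u, 0, 0) = (0, 0, Pi.single i 1) := by
    rw [HS.mul_apply, HS.mul_apply, h1, lh_apply, hA, mulVec_zero]
  refine ⟨wv F i * (lh A * qh p⁻¹), mul_mem hw (mul_mem (hl _) (hq _)), ?_, fun v hv => ?_⟩
  · rw [mul_assoc, HS.mul_apply, h2, wv_apply]
    ext j
    by_cases h : j = i
    · simp [h]
    · simp [h]
  · have h3 : ((lh A * qh p⁻¹ * g).1 (v, 0, 0)).2.2 = 0 := by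
      simp only [HS.mul_apply, lh_apply, qh_apply, hv, mulVec_zero]
    have h4 := (mh F ι).iso (lh A * qh p⁻¹ * g) (v, 0, 0) (u, 0, 0)
    rw [h2, mh_h, h3] at h4
    rw [mul_assoc, HS.mul_apply, wv_apply, h3]
    simp [mh_h] at h4
    simpa using h4

theorem gen (i : ι) (N : Subgroup (Γ F ι)) [Finite F] (hq : ∀ p, qh p ∈ N) (hl : ∀ A, lh A ∈ N)
    (hd : ∀ z, dh ι z ∈ N) (hw : wv F i ∈ N) : N = ⊤ := by
  suffices ∀ (W : Set (ι → F)) (g : Γ F ι), W = {v | (g.1 (v, 0, 0)).2.2 = 0} → g ∈ N from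
    eq_top_iff.2 fun g _ => this _ g rfl
  intro W
  induction W using WellFoundedGT.induction with
  | ind W ih =>
  intro g hW
  by_cases h : ∀ u, (g.1 (u, 0, 0)).2.2 = 0
  · obtain ⟨p, A, z, rfl⟩ := par g fun u => Prod.ext (mul_star_eq_zero (by
      have := (mh F ι).iso g (u, 0, 0) (u, 0, 0)
      rw [mh_h, h] at this
      simpa [mh_h] using this)) (h u)
    exact mul_mem (mul_mem (hq _) (hl _)) (hd _)
  · push Not at h
    obtain ⟨u, hu⟩ := h
    obtain ⟨n, hn, h1, h2⟩ := gen_step i N hq hl hw g u hu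
    have := ih _ (show W < {v | ((n * g).1 (v, 0, 0)).2.2 = 0} from
      hW ▸ lt_of_le_not_ge h2 fun h => hu (h h1)) _ rfl
    exact (N.mul_mem_cancel_left hn).1 this

end Cfsg.Uni.D

namespace Cfsg.Uni

universe u

variable (F : Type u) [Field F] [StarRing F] [Fintype F]

theorem stPar : StPar F := fun _ _ _ => D.par

theorem stGen : StGen F := fun _ _ _ i N => D.gen i N

end Cfsg.Uni
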