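import Cfsg.Agent.Uni.AsmB
import Cfsg.Agent.Uni.Par

/-!
# The centralizer of the Singer cycle
-/

set_option autoImplicit false

namespace Cfsg.Uni

open Matrix Module Polynomial

universe u

variable {F : Type u} [Field F] [StarRing F] {ι : Type} [Fintype ι] [DecidableEq ι]
  {K : Type u} [Field K] [Algebra F K] (b : Basis ι F K)

theorem exists_bad (h : 4 < Nat.card K) :
    ∃ β : K, β ≠ 0 ∧ β + 1 ≠ 0 ∧ (β + 1)⁻¹ - β⁻¹ - 1 ≠ 0 := by
  have : Finite K := Nat.finite_of_card_ne_zero (by omega)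
  have := Fintype.ofFinite K
  letI : StarRing K := starRingOfComm
  by_contra! H
  have hd : (X * (X + 1) * (X ^ 2 + X + 1) : K[X]).natDegree = 4 := by compute_degree!
  have := card_roots_le K (X * (X + 1) * (X ^ 2 + X + 1)) (fun e => by simp [e] at hd) (fun _ => True)
    fun x _ => by
      by_cases h0 : x = 0
      · simp [h0]
      by_cases h1 : x + 1 = 0
      · simp [h1]
      have := H x h0 h1
      field_simp at this
      simp only [eval_mul, eval_add, eval_pow, eval_X, eval_one]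
      linear_combination (-x * (x + 1)) * this
  rw [Nat.card_congr (Equiv.subtypeUnivEquiv fun _ => trivial)] at this
  omega

theorem sing_inv_val (β : Kˣ) : ((sing b β)⁻¹).1 = Algebra.leftMulMatrix b (β.1⁻¹) := by
  rw [← map_inv, sing_val, Units.val_inv_eq_inv_val]

theorem exists_bad' (h : 4 < Nat.card K) : ∃ β β' : Kˣ, (sing b β').1 = (sing b β).1 + 1 ∧
    IsUnit (((sing b β')⁻¹).1ᴴ - ((sing b β)⁻¹).1ᴴ - 1) := by
  obtain ⟨β, h0, h1, h2⟩ := exists_bad h
  refine ⟨Units.mk0 β h0, Units.mk0 _ h1, by simp [sing_val], ?_⟩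
  have := (isUnit_conjTranspose _).2 (h2.isUnit.map (Algebra.leftMulMatrix b))
  simpa only [sing_inv_val, map_sub, map_one, conjTranspose_sub, conjTranspose_one,
    Units.val_mk0] using this

theorem exists_sing_eq (A : GL ι F) (h : ∀ β, A.1 * (sing b β).1 = (sing b β).1 * A.1) :
    ∃ β, A = sing b β := by
  let φ := toLin b b A.1
  have h1 : ∀ x : K, φ x = φ 1 * x := fun x => by
    by_cases h0 : x = 0
    · simp [h0]
    have := LinearMap.congr_fun (congrArg (toLin b b) (h (Units.mk0 x h0))) 1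
    simp only [toLin_mul b b b, sing_val, Algebra.leftMulMatrix_apply, toLin_toMatrix] at this
    simpa [mul_comm] using this
  have h2 : A.1 = Algebra.leftMulMatrix b (φ 1) := by
    rw [Algebra.leftMulMatrix_apply, ← LinearMap.toMatrix_toLin b b A.1]
    exact congrArg _ (LinearMap.ext h1)
  have := b.index_nonempty
  exact ⟨Units.mk0 (φ 1) fun e => A.ne_zero (by rw [h2, e, map_zero]), Units.ext h2⟩

theorem cent (h : 4 < Nat.card K) (g : Γ F ι) (hg : ∀ β, Commute g (lh (sing b β))) :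
    ∃ β z, g = lh (sing b β) * (mh F ι).sc z := by
  obtain ⟨β, β', h1, h2⟩ := exists_bad' b h
  have h4 := isUnit_sing_sub b (Units.mk0 _ (exists_bad h).choose_spec.2.1) 1 fun e =>
    (exists_bad h).choose_spec.1 (by simpa using e)
  generalize Units.mk0 _ (exists_bad h).choose_spec.2.1 = β₂ at h4
  have e1 : ∀ β u, g.1 ((sing b β).1 *ᵥ u, 0, 0) = (lh (sing b β)).1 (g.1 (u, 0, 0)) := fun β u => by
    rw [← HS.mul_apply, ← (hg β).eq, HS.mul_apply, lh_apply, mulVec_zero]
  obtain ⟨p, A, z, rfl⟩ := D.par g fun u => by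
    refine Prod.ext ?_ (eq_zero_of_isUnit h2 ?_)
    · obtain ⟨B, hB⟩ := h4
      have h5 : u = (sing b β₂).1 *ᵥ (B⁻¹).1 *ᵥ u - (B⁻¹).1 *ᵥ u := by
        rw [one_smul] at hB
        conv_lhs => rw [← one_mulVec u, ← B.mul_inv, ← mulVec_mulVec, hB, sub_mulVec, one_mulVec]
      have h6 := congrArg (·.2.1) (e1 β₂ ((B⁻¹).1 *ᵥ u))
      rw [h5, show ∀ a c : ι → F, ((a - c, 0, 0) : MV F ι) = (a, 0, 0) - (c, 0, 0) by simp, map_sub]
      exact sub_eq_zero.2 h6
    · have h5 := congrArg (·.2.2) (e1 β' u)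
      have h6 := congrArg (·.2.2) (e1 β u)
      rw [h1, add_mulVec, one_mulVec,
        show ∀ a c : ι → F, ((a + c, 0, 0) : MV F ι) = (a, 0, 0) + (c, 0, 0) by simp, map_add] at h5
      simp only [lh_apply, Prod.snd_add] at h5 h6
      rw [sub_mulVec, sub_mulVec, one_mulVec, ← h5, ← h6]; abel
  have e2 : ∀ β, A.1 * (sing b β).1 = (sing b β).1 * A.1 := fun β =>
    toLin'.injective (LinearMap.ext fun u => by
      simpa [qh_apply, lh_apply, dh_apply] using congrArg (·.1) (e1 β u))
  obtain ⟨β₃, rfl⟩ := exists_sing_eq b A e2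
  have e3 : ∀ β, Commute (qh p) (lh (sing b β)) := fun β => by
    have : Commute (lh (sing b β₃) * dh ι z)⁻¹ (lh (sing b β)) :=
      (((Commute.all β₃ β).map _).map lh |>.mul_left (dh_lh z _)).inv_left
    simpa [mul_assoc] using (hg β).mul_left this
  have hy : p.y = 0 := eq_zero_of_isUnit h4 (by
    have := congrArg (fun g : Γ F ι => (g.1 (0, 1, 0)).1) (e3 β₂).eq
    simp [qh_apply, lh_apply] at this
    rw [sub_mulVec, ← this]; simp)
  have hS : ∀ β, p.S * ((sing b β)⁻¹).1ᴴ = (sing b β).1 * p.S := fun β =>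
    toLin'.injective (LinearMap.ext fun u => by
      simpa [qh_apply, lh_apply] using congrArg (fun g : Γ F ι => (g.1 (0, 0, u)).1) (e3 β).eq)
  have hS' : p.S = 0 := h2.mul_left_eq_zero.1 (by
    rw [mul_sub, mul_sub, hS, hS, h1, add_mul, mul_one, one_mul]; abel)
  refine ⟨β₃ * Units.map (algebraMap F K).toMonoidHom (Unitary.toUnits z⁻¹), z, ?_⟩
  rw [show p = 1 from HQ.ext hy hS', map_one, one_mul, map_mul, map_mul, sing_map, sc_eq, mul_assoc,
    ← mul_assoc (lh (dgG _)), ← map_mul, ← sing_map b, ← sing_map b, ← map_mul, ← map_mul, ← map_mul,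
    inv_mul_cancel, map_one, map_one, map_one, map_one, one_mul]

variable (F) in
theorem stCent [Fintype F] : StCent F := fun _ _ _ _ _ _ b => cent b

end Cfsg.Uni
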