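import Cfsg.Agent.Uni.Uniq
import Cfsg.Agent.CT.Induction

/-!
# At most `q + 1` small characters
-/

set_option autoImplicit false

namespace Cfsg.Uni

open Matrix
open scoped ComplexConjugate

universe u

theorem over_of_const {G : Type u} [Group G] [Fintype G] {χ : G → ℂ} (ξ : IrrCharacter G)
    (h0 : classInner χ ξ.1 ≠ 0) {z : G} (hz : z ∈ Subgroup.center G) {c : ℂ} (hc : ‖c‖ = 1)
    (hχ : ∀ g, χ (z * g) = c * χ g) (g : G) : ξ.1 (z * g) = c * ξ.1 g := by
  obtain ⟨d, hd⟩ := mem_charCenter_def.1 (ξ.center_le_charCenter hz)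
  have h1 : classInner χ ξ.1 = c * conj (d : ℂ) * classInner χ ξ.1 := by
    simp only [classInner_def]
    conv_lhs => rw [← Equiv.sum_comp (Equiv.mulLeft z)]
    simp only [Equiv.coe_mulLeft, hχ, hd, map_mul, Finset.mul_sum]
    exact Finset.sum_congr rfl fun _ _ => by ring
  have h2 := congrArg conj ((mul_eq_right₀ h0).1 h1.symm)
  have h3 := Complex.mul_conj' c
  simp only [map_mul, Complex.conj_conj, map_one, hc, Complex.ofReal_one, one_pow] at h2 h3
  rw [hd, show (d : ℂ) = c by linear_combination c * h2 - d * h3]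

theorem char_eq_of_bij {G : Type u} [Group G] {V W : Type} [AddCommGroup V] [Module ℂ V]
    [FiniteDimensional ℂ V] [AddCommGroup W] [Module ℂ W] [FiniteDimensional ℂ W]
    (τ : Representation ℂ G V) (ρ : Representation ℂ G W) (f : V →ₗ[ℂ] W) (hf : Function.Bijective f)
    (h : ∀ g v, f (τ g v) = ρ g (f v)) : τ.character = ρ.character :=
  Representation.char_iso ⟨⟨f, fun g => LinearMap.ext (h g)⟩, (LinearEquiv.ofBijective f hf).symm,
    (LinearEquiv.ofBijective f hf).left_inv, (LinearEquiv.ofBijective f hf).right_inv⟩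

theorem graph_iso {G : Type u} [Group G] {M M' : Type} [AddCommGroup M] [Module ℂ M]
    [FiniteDimensional ℂ M] [AddCommGroup M'] [Module ℂ M'] [FiniteDimensional ℂ M']
    {ρ : Representation ℂ G M} {ρ' : Representation ℂ G M'} (h : ρ.IsIrreducible)
    (h' : ρ'.IsIrreducible) {A : Submodule ℂ M} {A' : Submodule ℂ M'} (f : A →ₗ[ℂ] A') {m₀ : A}
    (hm₀ : f m₀ ≠ 0) {W : Submodule ℂ (M × M')} (hW : ∀ g, ∀ m ∈ W, ρ.prod ρ' g m ∈ W)
    (hWY : W ⊓ A.prod A' = LinearMap.range (A.subtype.prod (A'.subtype ∘ₗ f))) :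
    ρ.character = ρ'.character := by
  let τ : Subrepresentation (ρ.prod ρ') := ⟨W, fun g m => hW g m⟩
  have hm : (m₀.1, (f m₀).1) ∈ W := (hWY.ge ⟨m₀, rfl⟩).1
  have k1 : W.comap (LinearMap.inr ℂ _ _) = ⊥ :=
    (((rep_isIrreducible_iff _).1 h').2 _ fun g v hv => by
      simpa [Representation.prod] using hW g _ hv).resolve_right fun e => by
      obtain ⟨m, hm⟩ := hWY.le (⟨e.ge trivial, A.zero_mem, (f m₀).2⟩ : (0, (f m₀).1) ∈ W ⊓ A.prod A')
      obtain rfl : m = 0 := Subtype.ext (congrArg Prod.fst hm)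
      exact hm₀ (Subtype.ext (by simpa using (congrArg Prod.snd hm).symm))
  have k2 : W.comap (LinearMap.inl ℂ _ _) = ⊥ :=
    (((rep_isIrreducible_iff _).1 h).2 _ fun g v hv => by
      simpa [Representation.prod] using hW g _ hv).resolve_right fun e => by
      obtain ⟨m, hm⟩ := hWY.le (⟨e.ge trivial, m₀.2, A'.zero_mem⟩ : (m₀.1, 0) ∈ W ⊓ A.prod A')
      obtain rfl : m = m₀ := Subtype.ext (congrArg Prod.fst hm)
      exact hm₀ (Subtype.ext (congrArg Prod.snd hm))
  have k3 : W.map (LinearMap.fst ℂ _ _) = ⊤ :=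
    (((rep_isIrreducible_iff _).1 h).2 _ (by
      rintro g _ ⟨v, hv, rfl⟩; exact ⟨_, hW g v hv, rfl⟩)).resolve_left fun e =>
      hm₀ (by rw [show m₀ = 0 from Subtype.ext (e.le ⟨_, hm, rfl⟩), map_zero])
  have k4 : W.map (LinearMap.snd ℂ _ _) = ⊤ :=
    (((rep_isIrreducible_iff _).1 h').2 _ (by
      rintro g _ ⟨v, hv, rfl⟩; exact ⟨_, hW g v hv, rfl⟩)).resolve_left fun e =>
      hm₀ (Subtype.ext (e.le ⟨_, hm, rfl⟩))
  rw [← char_eq_of_bij τ.toRepresentation ρ (LinearMap.fst ℂ _ _ ∘ₗ W.subtype)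
    ⟨(injective_iff_map_eq_zero _).2 ?_, fun m => ?_⟩ fun _ _ => rfl,
    char_eq_of_bij τ.toRepresentation ρ' (LinearMap.snd ℂ _ _ ∘ₗ W.subtype)
    ⟨(injective_iff_map_eq_zero _).2 ?_, fun m => ?_⟩ fun _ _ => rfl]
  · rintro ⟨⟨a, b⟩, h⟩ (rfl : b = 0)
    exact Subtype.ext (Prod.ext (k2.le h) rfl)
  · obtain ⟨v, hv, rfl⟩ := k4.ge (Submodule.mem_top (x := m)); exact ⟨⟨v, hv⟩, rfl⟩
  · rintro ⟨⟨a, b⟩, h⟩ (rfl : a = 0)
    exact Subtype.ext (Prod.ext rfl (k1.le h))
  · obtain ⟨v, hv, rfl⟩ := k3.ge (Submodule.mem_top (x := m)); exact ⟨⟨v, hv⟩, rfl⟩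

variable {F : Type u} [Field F] [StarRing F]

section
variable {V : Type u} [AddCommGroup V] [Module F V] {H : HS F V} {e : V}

/-- product of Siegel parameters -/
def HS.SP.mul (p r : H.SP e) : H.SP e :=
  ⟨p.v + r.v, p.a + r.a - H.h r.v p.v, p.ee, by rw [H.add_left, p.ve, r.ve, add_zero], by
    simp only [star_sub, star_add, H.star_h, H.add_left, H.add_right]
    linear_combination p.rel + r.rel⟩

theorem HS.SP.toGU_mul (p r : H.SP e) : p.toGU * r.toGU = (p.mul r).toGU := HS.ext fun x => by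
  have h1 : H.h e p.v = 0 := H.eq_zero_comm.1 p.ve
  simp only [HS.mul_apply, HS.SP.toGU_apply, HS.SP.mul, H.add_left, H.smul_left, H.add_right, p.ee,
    r.ve, h1]
  module

/-- the group of Siegel transformations -/
def rd (he : H.h e e = 0) : Subgroup H.GU where
  carrier := Set.range fun p : H.SP e => p.toGU
  one_mem' := ⟨⟨0, 0, he, by simp, by simp⟩, HS.ext fun x => by simp [HS.SP.toGU_apply]⟩
  mul_mem' := by rintro _ _ ⟨p, rfl⟩ ⟨r, rfl⟩; exact ⟨_, (p.toGU_mul r).symm⟩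
  inv_mem' := by rintro _ ⟨p, rfl⟩; exact ⟨p.inv, HS.ext fun _ => rfl⟩

/-- the transvection group -/
def tvh (he : H.h e e = 0) : Multiplicative (sk F) →* H.GU where
  toFun a := HS.tv he a.toAdd.2
  map_one' := HS.ext fun x => (HS.tv_apply _ _ _).trans (by simp)
  map_mul' a b := HS.ext fun x => by
    rw [HS.mul_apply, HS.tv_apply he a.toAdd.2, HS.tv_apply he b.toAdd.2, HS.tv_apply he (a * b).toAdd.2]
    simp only [H.add_left, H.smul_left, he, toAdd_mul, AddSubgroup.coe_add]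
    module

theorem tvh_apply (he : H.h e e = 0) (a : Multiplicative (sk F)) (x : V) :
    (tvh he a).1 x = x + (H.h x e * a.toAdd.1) • e := HS.tv_apply he a.toAdd.2 x

theorem tv_comm (he : H.h e e = 0) {a : F} (ha : a + star a = 0) {s : H.GU} (hs : s.1 e = e) :
    s * HS.tv he ha = HS.tv he ha * s := HS.ext fun x => by
  have : H.h (s.1 x) e = H.h x e := by conv_lhs => rw [← hs, HS.iso]
  simp [HS.tv_apply, hs, this]

theorem HS.SP.fix (p : H.SP e) : p.toGU.1 e = e := by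
  simp [HS.SP.toGU_apply, p.ee, H.eq_zero_comm.1 p.ve]

section
variable (ψ : AddChar F ℂ) (he : H.h e e = 0) {K : Subgroup H.GU} (hK : ∀ g ∈ K, g.1 e = e)
  {M M' : Type} [AddCommGroup M] [Module ℂ M] [AddCommGroup M'] [Module ℂ M']
  (ρ : Representation ℂ H.GU M) (ρ' : Representation ℂ H.GU M')

/-- `plus` as a module for a subgroup of the stabiliser of `e` -/
def psub : Subrepresentation (ρ.comp K.subtype) :=
  ⟨HS.plus ψ ρ he, fun g m hm a ha => by
    change ρ _ (ρ g m) = ψ a • ρ g m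
    rw [← Module.End.mul_apply, ← map_mul, ← tv_comm he ha (hK _ g.2), map_mul, Module.End.mul_apply,
      hm a ha, map_smul]⟩

theorem plus_prod : HS.plus ψ (ρ.prod ρ') he = (HS.plus ψ ρ he).prod (HS.plus ψ ρ' he) := by
  ext x
  exact ⟨fun h => ⟨fun a ha => congrArg Prod.fst (h a ha), fun a ha => congrArg Prod.snd (h a ha)⟩,
    fun h a ha => Prod.ext (h.1 a ha) (h.2 a ha)⟩

variable [FiniteDimensional ℂ M] [FiniteDimensional ℂ M'] [Fintype K]

theorem psub_over [Finite F] (ξ : IrrCharacter K)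
    (h : classInner (psub ψ he hK ρ).toRepresentation.character ξ.1 ≠ 0) (a : F) (ha : a + star a = 0)
    (hm : HS.tv he ha ∈ K) (g : K) : ξ.1 (⟨HS.tv he ha, hm⟩ * g) = ψ a * ξ.1 g :=
  over_of_const ξ h (Subgroup.mem_center_iff.2 fun g => Subtype.ext (tv_comm he ha (hK _ g.2)))
    (ψ.norm_apply a) (fun g => by
      rw [Representation.character, map_mul, show (psub ψ he hK ρ).toRepresentation ⟨_, hm⟩ = ψ a • 1
        from LinearMap.ext fun m => Subtype.ext (m.2 a ha), smul_mul_assoc, one_mul, map_smul]; rfl) g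

theorem psub_hom (ξ : IrrCharacter K)
    (h : classInner (psub ψ he hK ρ).toRepresentation.character ξ.1 ≠ 0)
    (h' : classInner (psub ψ he hK ρ').toRepresentation.character ξ.1 ≠ 0) :
    ∃ (f : HS.plus ψ ρ he →ₗ[ℂ] HS.plus ψ ρ' he) (m₀ : HS.plus ψ ρ he), f m₀ ≠ 0 ∧ ∀ g ∈ K,
      ∀ m ∈ LinearMap.range ((HS.plus ψ ρ he).subtype.prod ((HS.plus ψ ρ' he).subtype ∘ₗ f)),
      ρ.prod ρ' g m ∈
        LinearMap.range ((HS.plus ψ ρ he).subtype.prod ((HS.plus ψ ρ' he).subtype ∘ₗ f)) := by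
  have h1 := (isCharacter_of_rep _).classInner_comp_ne_zero (MonoidHom.id K) ξ
    (isCharacter_of_rep (psub ψ he hK ρ).toRepresentation) h' (by
      rw [← conj_classInner, map_ne_zero]; exact h)
  have := (classInner_rep_eq_finrank (psub ψ he hK ρ).toRepresentation
    (psub ψ he hK ρ').toRepresentation).symm.trans_ne h1
  have := Module.nontrivial_of_finrank_pos (Nat.pos_of_ne_zero (Nat.cast_ne_zero.1 this))
  obtain ⟨f, hf⟩ := exists_ne (0 : (psub ψ he hK ρ).toRepresentation.IntertwiningMap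
    (psub ψ he hK ρ').toRepresentation)
  obtain ⟨m₀, hm₀⟩ : ∃ m, f m ≠ 0 := by
    by_contra! h
    exact hf (DFunLike.ext _ _ h)
  refine ⟨f.toLinearMap, m₀, hm₀, ?_⟩
  rintro g hg _ ⟨m, rfl⟩
  exact ⟨(psub ψ he hK ρ).toRepresentation ⟨g, hg⟩ m,
    Prod.ext rfl (congrArg Subtype.val (f.isIntertwining _ _ ⟨g, hg⟩ m))⟩

end

variable [Fintype F] (q : ℕ) [UF F q] {ψ : AddChar F ℂ} (hψ : Psi ψ)
include q hψ

theorem vanish (he : H.h e e = 0) {f : V} (hf : H.h f e = 1) {χ : rd he → ℂ}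
    (hχ : IsClassFunction _ χ)
    (h : ∀ a ha hm g, χ (⟨HS.tv he (a := a) ha, hm⟩ * g) = ψ a * χ g) (g : rd he)
    (hg : g.1 ∉ (tvh he).range) : χ g = 0 := by
  obtain ⟨_, p, rfl⟩ := g
  by_cases h1 : ∀ w, H.h w e = 0 → H.h p.v w = 0
  · have h2 : p.v = H.h p.v f • e := H.ext_left fun x => by
      have := h1 (x - H.h x e • f) (by rw [H.sub_left, H.smul_left, hf, mul_one, sub_self])
      rw [H.sub_right, H.smul_right, H.star_h, sub_eq_zero] at this
      rw [this, H.smul_left, mul_comm]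
    have h3 := p.rel
    generalize H.h p.v f = s at h2
    rw [h2, H.smul_left, H.smul_right, he] at h3
    refine (hg ⟨.ofAdd ⟨p.a + s - star s, ?_⟩, HS.ext fun x => ?_⟩).elim
    · change _ + star _ = 0
      simp only [star_sub, star_add, star_star]; linear_combination h3
    · simp only [tvh_apply, HS.SP.toGU_apply, h2, H.smul_right, toAdd_ofAdd]
      module
  push Not at h1
  obtain ⟨w, hw, h1⟩ := h1
  obtain ⟨c, hc⟩ := hψ.exists_sub q h1
  obtain ⟨a, ha⟩ := exists_trace q (s := -H.h (star c • w) (star c • w)) (by rw [star_neg, H.star_h])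
  let r : H.SP e := ⟨star c • w, a, he, by rw [H.smul_left, hw, mul_zero], by rw [ha, neg_add_cancel]⟩
  have := hχ ⟨_, p, rfl⟩ ⟨_, r, rfl⟩
  have hb : -(c * H.h p.v w - star c * star (H.h p.v w)) +
    star (-(c * H.h p.v w - star c * star (H.h p.v w))) = 0 := by simp
  have hm : HS.tv he hb ∈ rd he := ⟨_, rfl⟩
  rw [show (⟨_, r, rfl⟩ * ⟨_, p, rfl⟩ * ⟨_, r, rfl⟩⁻¹ : rd he) =
    ⟨HS.tv he hb, hm⟩ * ⟨_, p, rfl⟩ by
      rw [mul_inv_eq_iff_eq_mul]
      refine Subtype.ext ?_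
      simp only [Subgroup.coe_mul, HS.tv, HS.SP.toGU_mul]
      congr 1
      simp [HS.SP.mul, r, add_comm, H.smul_left, H.smul_right, H.star_h]; ring, h] at this
  by_contra h0
  rw [mul_eq_right₀ h0, AddChar.map_neg_eq_inv, inv_eq_one] at this
  exact hc this

theorem card_over [Finite V] (he : H.h e e = 0) {f : V} (hf : H.h f e = 1) (K : Subgroup H.GU)
    (hK : rd he ≤ K) (hc : Nat.card K ≤ Nat.card (rd he) * (q + 1)) :
    Nat.card {ξ : IrrCharacter K // ∀ a ha hm g,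
      ξ.1 (⟨HS.tv he (a := a) ha, hm⟩ * g) = ψ a * ξ.1 g} ≤ q + 1 := by
  classical
  have := Fintype.ofFinite K
  have := Fintype.ofFinite (rd he)
  have hq := two_le_q F q
  have hX : (tvh he).range ≤ rd he := by rintro _ ⟨a, rfl⟩; exact ⟨_, rfl⟩
  have hi : Function.Injective (tvh he) := (injective_iff_map_eq_one _).2 fun a ha => by
    have h1 := congrArg (fun g : H.GU => H.h f (g.1 f - f)) ha
    have h2 : H.h e f = 1 := by rw [H.symm, hf, star_one]
    simpa [tvh_apply, H.smul_right, hf] using h1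
  have hcX : Nat.card (Multiplicative (sk F)) = q := card_skew F q
  let t : Multiplicative (sk F) →* K := (tvh he).codRestrict _ fun a => hK (hX ⟨a, rfl⟩)
  let l : Multiplicative (sk F) →* ℂ := (ψ.compAddMonoidHom (sk F).subtype).toMonoidHom
  choose n hn using fun ξ : IrrCharacter K =>
    (ξ.isCharacter.comp t).exists_classInner_eq_nat (isIrrCharacter_monoidHom l).isCharacter
  have h1 : q * ∑ ξ : IrrCharacter K, charDegree ξ.1 * n ξ = Nat.card K := by
    have hq' : (q : ℂ) ≠ 0 := by exact_mod_cast (by omega : q ≠ 0)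
    rw [← Nat.cast_inj (R := ℂ)]
    push_cast
    simp only [← hn, ← IrrCharacter.one_eq_charDegree, classInner_def, hcX, Finset.mul_sum]
    rw [Finset.sum_comm, Finset.sum_eq_single 1 (fun a _ ha => ?_) (by simp)]
    · simpa [hq', mul_left_comm _ (q : ℂ)⁻¹] using sum_irr_one_mul (1 : K)
    · have := sum_irr_one_mul (t a)
      rw [if_neg fun e => ha (hi ((congrArg Subtype.val e).trans (map_one _).symm))] at this
      simp only [mul_left_comm _ (q : ℂ)⁻¹, inv_mul_cancel_left₀ hq']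
      simp only [← mul_assoc, ← Finset.sum_mul, this, zero_mul]
  have h2 : ∀ ξ : IrrCharacter K, (∀ a ha hm g, ξ.1 (⟨HS.tv he (a := a) ha, hm⟩ * g) = ψ a * ξ.1 g) →
      Nat.card (rd he) ≤ q * (charDegree ξ.1 * n ξ) := fun ξ hξ => by
    have h3 : n ξ = charDegree ξ.1 := by
      rw [← Nat.cast_inj (R := ℂ), ← hn, show (fun a => ξ.1 (t a)) = fun a => ξ.1 1 * l a from
        funext fun a => by rw [mul_comm, ← mul_one (t a)]; exact hξ _ a.toAdd.2 _ 1, classInner_const_mul_left,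
        (isIrrCharacter_monoidHom l).isCharacter.isIrr_iff.1 (isIrrCharacter_monoidHom l), mul_one,
        ξ.one_eq_charDegree]
    have h4 := ξ.isCharacter.comp (Subgroup.inclusion hK)
    have h5 := (classInner_res_eq_index_mul_iff _ ((tvh he).range.subgroupOf (rd he))).2
      (vanish q hψ he hf h4.isClassFunction fun a ha hm g => hξ a ha (hK hm) ⟨g, hK g.2⟩)
    rw [h4.classInner_res_of_le_charCenter (by
      rintro ⟨_, hm⟩ ⟨a, rfl⟩
      exact mem_charCenter_def.2 ⟨(AddChar.val_isUnit ψ _).unit, fun g =>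
        hξ _ a.toAdd.2 (hK hm) ⟨g, hK g.2⟩⟩),
      charDegree_comp_hom] at h5
    obtain ⟨k, hk⟩ := h4.exists_classInner_eq_nat h4
    have h6 : k ≠ 0 := fun e => ξ.one_ne_zero (by
      rw [e, Nat.cast_zero, classInner_self_eq_zero] at hk
      simpa using congrFun hk 1)
    rw [hk, ← Nat.cast_mul, Nat.cast_inj] at h5
    rw [h3, ← pow_two, h5, ← ((tvh he).range.subgroupOf (rd he)).card_mul_index,
      Nat.card_congr (Subgroup.subgroupOfEquivOfLe hX).toEquiv,
      ← Nat.card_congr (MonoidHom.ofInjective hi).toEquiv, hcX]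
    exact Nat.mul_le_mul_left _ (Nat.le_mul_of_pos_right _ (Nat.pos_of_ne_zero h6))
  refine Nat.le_of_mul_le_mul_left (le_trans ?_ hc) Nat.card_pos
  rw [← h1, Finset.mul_sum, mul_comm, Nat.card_eq_fintype_card, Fintype.card_subtype]
  exact (Finset.card_nsmul_le_sum _ _ _ fun ξ hξ => h2 ξ (Finset.mem_filter.1 hξ).2).trans
    (Finset.sum_le_sum_of_subset (Finset.filter_subset _ _))

end

variable {ι : Type} [Fintype ι] [DecidableEq ι] {ψ : AddChar F ℂ}

theorem RankOne.prod {M M' : Type} [AddCommGroup M] [Module ℂ M] [AddCommGroup M'] [Module ℂ M']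
    {ρ : Representation ℂ (Γ F ι) M} {ρ' : Representation ℂ (Γ F ι) M'} (h : RankOne ψ ρ)
    (h' : RankOne ψ ρ') : RankOne ψ (ρ.prod ρ') := by
  refine eq_top_iff.2 fun x _ => ?_
  rw [← Prod.fst_add_snd x]
  have h1 : (⨆ φ, wt ψ ρ φ) ≤ (⨆ φ, wt ψ (ρ.prod ρ') φ).comap (LinearMap.inl ℂ M M') :=
    iSup_le fun φ m hm => Submodule.mem_iSup_of_mem φ fun p hp => by simp [Representation.prod, hm p hp]
  have h2 : (⨆ φ, wt ψ ρ' φ) ≤ (⨆ φ, wt ψ (ρ.prod ρ') φ).comap (LinearMap.inr ℂ M M') :=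
    iSup_le fun φ m hm => Submodule.mem_iSup_of_mem φ fun p hp => by simp [Representation.prod, hm p hp]
  exact add_mem (h1 (h.ge trivial)) (h2 (h'.ge trivial))

variable [Fintype F] (q : ℕ) [UF F q]

theorem plus_ne_bot [Nonempty ι] (hP : StPerf F q) (hc : (2 * Fintype.card ι + 1).Coprime (q + 1))
    {M : Type} [AddCommGroup M] [Module ℂ M] {ρ : Representation ℂ (Γ F ι) M} (h : RankOne ψ ρ)
    (hz : ∀ z, ρ ((mh F ι).sc z) = 1) (h1 : ρ.ker ≠ ⊤) (o : ι) : HS.plus ψ ρ (ev_iso F o) ≠ ⊥ :=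
  fun e => h1 (hP ι hc _ inferInstance (fun p => LinearMap.ext fun m => sup_fix _ (fun φ _ m hm => by
    by_cases h0 : φ = 0
    · exact wt_zero (h0 ▸ hm) p
    obtain ⟨A, hA⟩ := D.l_move (star_ne_zero.2 h0) o
    have h2 := wt_lh A hm
    rw [← star_star (_ ᵥ* _), star_vecMul, hA] at h2
    have h3 : ρ (lh A) m = 0 := e.le fun a ha => by rw [wt_tv o ha h2]; simp
    have h4 := congrArg (ρ (lh A)⁻¹) h3
    rw [rho_mul, inv_mul_cancel, map_one, map_zero] at h4
    rw [show m = 0 from h4, map_zero]) (h.mem m)) hz)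

variable (F) in
theorem stCount (hU : StUniq F) (hP : StPerf F q) : StCount F q := fun κ _ _ _ ψ hψ hc => by
  classical
  have he := ev_iso F (.inr () : κ ⊕ Unit)
  let K := rd he ⊔ (dh (κ ⊕ Unit)).range
  have := Fintype.ofFinite K
  have := Fintype.ofFinite (Γ F (κ ⊕ Unit))
  have hd : ∀ z : unitary F, (dh (κ ⊕ Unit) z).1 (ev F (.inr ())) = ev F (.inr ()) := fun z => by
    simp [dh_apply, ev]
  have hK : ∀ g ∈ K, g.1 (ev F (.inr ())) = ev F (.inr ()) := fun g hg =>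
    (sup_le (by rintro _ ⟨p, rfl⟩; exact p.fix) (by rintro _ ⟨z, rfl⟩; exact hd z) :
      K ≤ MulAction.stabilizer _ (ev F (.inr () : κ ⊕ Unit))) hg
  refine le_trans ?_ (card_over q hψ he (f := (0, 0, Pi.single (.inr ()) 1)) (by simp [mh_h, ev]) K
    le_sup_left ?_)
  swap
  · rw [← SetLike.coe_sort_coe, Subgroup.coe_mul_of_right_le_normalizer_left, ← card_unitary F q]
    · exact Set.natCard_mul_le.trans (Nat.mul_le_mul_left _
        (Nat.card_le_card_of_surjective _ (dh _).rangeRestrict_surjective))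
    rintro _ ⟨z, rfl⟩
    refine Subgroup.mem_normalizer_fintype ?_
    rintro _ ⟨p, rfl⟩
    have h1 : ∀ x, (mh F _).h ((dh (κ ⊕ Unit) z).1 x) (ev F (.inr ())) = (mh F _).h x (ev F (.inr ())) :=
      fun x => by conv_lhs => rw [← hd z, HS.iso]
    refine ⟨⟨(dh _ z).1 p.v, p.a, p.ee, by rw [h1, p.ve], by rw [HS.iso, p.rel]⟩, ?_⟩
    rw [eq_mul_inv_iff_mul_eq]
    exact HS.ext fun x => by simp [HS.SP.toGU_apply, h1, hd, HS.iso]
  choose n ρ hρ hR using fun χ : {χ : IrrCharacter (Γ F (κ ⊕ Unit)) // Small ψ χ} => χ.2.2.2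
  have hz : ∀ χ z, ρ χ ((mh F _).sc z) = 1 := fun χ z =>
    (character_eq_one_iff _).1 (by rw [hρ]; exact χ.2.2.1 z)
  have hirr : ∀ χ, (ρ χ).IsIrreducible := fun χ =>
    rep_isIrreducible_of_classInner_self _ (by rw [hρ]; exact χ.1.classInner_self)
  have hσ : ∀ χ, (psub ψ he hK (ρ χ)).toRepresentation.character ≠ 0 := fun χ e => by
    have := congrFun e 1
    rw [Representation.char_one, Pi.zero_apply, Nat.cast_eq_zero, Submodule.finrank_eq_zero] at this
    refine plus_ne_bot q hP hc (hR χ) (hz χ) (fun e => χ.2.1 ?_) _ this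
    rw [← IrrCharacter.charKer_eq_top_iff, ← hρ, charKer_character, e]
  choose ξ hξ using fun χ => (isCharacter_of_rep _).exists_irr_constituent (hσ χ)
  refine Nat.card_le_card_of_injective (fun χ => ⟨ξ χ, psub_over ψ he hK _ _ (hξ χ)⟩) fun χ χ' e => ?_
  obtain ⟨f, m₀, hm₀, hY⟩ := psub_hom ψ he hK _ _ _ (hξ χ)
    ((show ξ χ = ξ χ' from congrArg Subtype.val e).symm ▸ hξ χ')
  obtain ⟨W, hW, hWY⟩ := hU κ ψ hψ _ _ ((hR χ).prod (hR χ'))
    (fun z => by simp [Representation.prod, hz]) _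
    (by rintro _ ⟨m, rfl⟩ a ha; exact Prod.ext (m.2 a ha) ((f m).2 a ha))
    (fun p => hY _ (Subgroup.mem_sup_left ⟨p, rfl⟩)) fun z => hY _ (Subgroup.mem_sup_right ⟨z, rfl⟩)
  refine Subtype.ext (Subtype.ext ?_)
  rw [← hρ, ← hρ, graph_iso (hirr χ) (hirr χ') f hm₀ hW (by rw [← plus_prod]; exact hWY)]

end Cfsg.Uni
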