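import Cfsg.Agent.Uni.AsmB

/-!
# `PSU = GU / Z`
-/

set_option autoImplicit false

namespace Cfsg.Uni

open Matrix Module

universe u

variable {F : Type u} [Field F] [StarRing F] {ι : Type} [Fintype ι] [DecidableEq ι]

theorem central_sc {w : unitary F} (hw : w ≠ 1) (hr : ∀ y : F, ∃ a, a + star a + y * star y = 0)
    (g : Γ F ι) (hg : ∀ k, g * k = k * g) : ∃ z, g = (mh F ι).sc z := by
  have hw' : w.1 - 1 ≠ 0 := fun e => hw (Subtype.ext (sub_eq_zero.1 e))
  have h1 : g.1 (0, 1, 0) = (g.1 (0, 1, 0)).2.1 • (0, 1, 0) := by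
    have := congrArg (fun k : Γ F ι => k.1 (0, 1, 0)) (hg (dh ι w))
    simp only [HS.mul_apply, dh_apply] at this
    rw [show (((0 : ι → F), w.1 * 1, (0 : ι → F)) : MV F ι) = w.1 • (0, 1, 0) by simp, map_smul] at this
    have h1 := congrArg (·.1) this
    have h2 := congrArg (·.2.2) this
    simp only [Prod.smul_fst, Prod.smul_snd] at h1 h2
    rw [← sub_eq_zero, ← one_smul F (Prod.fst _), smul_smul, mul_one, ← sub_smul,
      smul_eq_zero_iff_right hw'] at h1
    rw [← sub_eq_zero, ← one_smul F (Prod.snd _), smul_smul, mul_one, ← sub_smul,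
      smul_eq_zero_iff_right hw'] at h2
    exact Prod.ext (by simpa using h1) (Prod.ext (by simp) (by simpa using h2))
  generalize (g.1 (0, 1, 0)).2.1 = c at h1
  have hc : c * star c = 1 := by
    have := (mh F ι).iso g (0, 1, 0) (0, 1, 0)
    simpa [h1, mh_h] using this
  let W := LinearMap.eqLocus g.1.toLinearMap (c • LinearMap.id)
  have hW : ∀ (k : Γ F ι) x, x ∈ W → k.1 x ∈ W := fun k x (hx : g.1 x = c • x) =>
    show g.1 (k.1 x) = c • k.1 x by rw [← HS.mul_apply, hg, HS.mul_apply, hx, map_smul]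
  have h2 : ((0, 1, 0) : MV F ι) ∈ W := h1
  have h3 : ∀ i y, ((Pi.single i y, 0, 0) : MV F ι) ∈ W := fun i y => by
    obtain ⟨a, ha⟩ := hr y
    simpa [qh_apply, HQ.rt, Prod.mk_zero_zero] using W.sub_mem (hW (qh (HQ.rt i y a ha)) _ h2) h2
  have h4 : ∀ i y, ((0, 0, Pi.single i y) : MV F ι) ∈ W := fun i y => by
    simpa [wv_apply, Pi.single] using hW (wv F i) _ (h3 i y)
  refine ⟨⟨c, by rw [mul_comm, hc], hc⟩, HS.ext fun x => show x ∈ W from ?_⟩
  have : x = ∑ i, (Pi.single i (x.1 i), 0, 0) + x.2.1 • (0, 1, 0) + ∑ i, (0, 0, Pi.single i (x.2.2 i)) := by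
    simp [Prod.ext_iff, Prod.fst_sum, Prod.snd_sum, Finset.univ_sum_single]
  rw [this]
  exact W.add_mem (W.add_mem (W.sum_mem fun i _ => h3 i _) (W.smul_mem _ h2)) (W.sum_mem fun i _ => h4 i _)

variable [Fintype F] (q : ℕ) [UF F q]

theorem exists_isom {n : ℕ} (hn : n = 2 * Fintype.card ι + 1) : ∃ e : MV F ι ≃ₗ[F] (Fin n → F),
    ∀ x y, hermForm n F q (e x) (e y) = (mh F ι).h x y := by
  obtain ⟨a, ha⟩ := exists_trace q (star_one F)
  obtain ⟨s, hs⟩ := exists_norm q (s := (-1 : F)) (by simp)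
  let σ : Fin n ≃ ι ⊕ Unit ⊕ ι := Fintype.equivOfCardEq (by simp [hn]; ring)
  let f : MV F ι →ₗ[F] (ι ⊕ Unit ⊕ ι → F) :=
    { toFun x := Sum.elim (star a • x.1 + x.2.2) (Sum.elim (fun _ => x.2.1) (s • (x.2.2 - a • x.1)))
      map_add' x y := by ext (i | i | i) <;> simp <;> ring
      map_smul' c x := by ext (i | i | i) <;> simp <;> ring }
  let f' := LinearMap.funLeft F F σ ∘ₗ f
  have h : ∀ x y, hermForm n F q (f' x) (f' y) = (mh F ι).h x y := fun x y => by
    simp only [hermForm, ← UF.star_eq (F := F) (q := q)]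
    refine (Equiv.sum_comp σ fun i => f x i * star (f y i)).trans ?_
    simp only [Fintype.sum_sum_type, mh_h, dotProduct, f, LinearMap.coe_mk, AddHom.coe_mk, Sum.elim_inl,
      Sum.elim_inr, Finset.univ_unique, Finset.sum_singleton]
    rw [add_left_comm, ← Finset.sum_add_distrib, add_right_comm, ← Finset.sum_add_distrib, add_comm]
    congr 1
    refine Finset.sum_congr rfl fun i _ => ?_
    simp
    linear_combination (x.1 i * star (y.2.2 i) + x.2.2 i * star (y.1 i)) * ha +
      (x.2.2 i - a * x.1 i) * (star (y.2.2 i) - star a * star (y.1 i)) * hs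
  have hi : Function.Injective f' := (injective_iff_map_eq_zero _).2 fun x hx =>
    (mh F ι).nd x fun y => by rw [← h, hx]; simp [hermForm]
  exact ⟨f'.linearEquivOfInjective hi (by rw [finrank_MV, finrank_fin_fun, hn]), h⟩

theorem det_unitary {n : ℕ} (A : Matrix (Fin n) (Fin n) F)
    (h : ∀ u v, hermForm n F q (A *ᵥ u) (A *ᵥ v) = hermForm n F q u v) : A.det ∈ unitary F := by
  have : Aᴴ * A = 1 := by
    ext i j
    have := h (Pi.single j 1) (Pi.single i 1)
    simp only [hermForm, ← UF.star_eq (F := F) (q := q)] at this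
    simpa [mul_apply, mul_comm, Pi.single_apply, one_apply, eq_comm, apply_ite star] using this
  have := congrArg det this
  rw [det_mul, det_conjTranspose, det_one] at this
  exact ⟨this, by rwa [mul_comm]⟩

variable (F) in
theorem stIso : StIso F q := fun ι _ _ _ n hn hc => by
  obtain ⟨e, he⟩ := exists_isom q (F := F) hn
  let M : Γ F ι →* Matrix (Fin n) (Fin n) F :=
    { toFun g := LinearMap.toMatrix' (e.conj g.1)
      map_one' := by simp
      map_mul' g h := by
        rw [← LinearMap.toMatrix'_comp, ← LinearEquiv.conj_comp]; rfl }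
  have hM : ∀ g x, M g *ᵥ e x = e (g.1 x) := fun g x => by simp [M, LinearMap.toMatrix'_mulVec]
  have hM' : ∀ g u v, hermForm n F q (M g *ᵥ u) (M g *ᵥ v) = hermForm n F q u v := fun g u v => by
    rw [← e.apply_symm_apply u, ← e.apply_symm_apply v, hM, hM, he, he, HS.iso]
  let δ : Γ F ι →* unitary F := (detMonoidHom.comp M).codRestrict _ fun g => det_unitary q _ (hM' g)
  have hδ : ∀ g, (δ g : F) = LinearMap.det g.1.toLinearMap := fun g =>
    (LinearMap.det_toMatrix' _).trans (LinearMap.det_conj _ e)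
  have hs : ∀ z, δ ((mh F ι).sc z) = z ^ n := fun z => Subtype.ext (by
    rw [hδ, show ((mh F ι).sc z).1.toLinearMap = z.1 • LinearMap.id from rfl, LinearMap.det_smul,
      finrank_MV, ← hn]; simp)
  have hd : ∀ z, δ (dh ι z) = z := fun z => Subtype.ext (by
    rw [hδ, show (dh ι z).1.toLinearMap =
      LinearMap.id.prodMap ((z.1 • LinearMap.id).prodMap LinearMap.id) from rfl]
    simp [LinearMap.det_prodMap])
  obtain ⟨k, hk⟩ : ∃ k : ℕ, ∀ z : unitary F, (z ^ n) ^ k = z := by
    obtain ⟨k, hk⟩ := Nat.exists_mul_mod_eq_one_of_coprime hc (by have := two_le_q F q; omega)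
    refine ⟨k, fun z => ?_⟩
    rw [← pow_mul, ← pow_mod_natCard, card_unitary F q, hk.2, pow_one]
  let ε : Γ F ι →* unitary F := (powMonoidHom k).comp δ
  have hε : ∀ z, ε ((mh F ι).sc z) = z := fun z => by simp [ε, hs, hk]
  let φ : Γ F ι →* Γ F ι :=
    { toFun g := (mh F ι).sc (ε g)⁻¹ * g
      map_one' := by simp
      map_mul' g h := by
        rw [map_mul, mul_inv, map_mul, mul_assoc, mul_assoc, ← mul_assoc _ g h, HS.sc_comm _ _ g,
          mul_assoc] }
  have hφ : ∀ g, φ g = (mh F ι).sc (ε g)⁻¹ * g := fun _ => rfl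
  have h1 : ∀ g, (M (φ g)).det = 1 := fun g => by
    have : δ (φ g) = 1 := by
      rw [hφ, map_mul, hs, inv_pow, inv_mul_eq_one]
      simp only [ε, MonoidHom.comp_apply, powMonoidHom_apply]
      rw [pow_right_comm, hk]
    exact congrArg Subtype.val this
  let σ : Γ F ι →* SU n F q :=
    { toFun g := ⟨⟨M (φ g), h1 g⟩, hM' _⟩
      map_one' := by ext; simp
      map_mul' g h := Subtype.ext (Subtype.ext (map_mul (M.comp φ) g h)) }
  have hσ : Function.Surjective σ := fun s => by
    let g : Γ F ι := ⟨e ≪≫ₗ SpecialLinearGroup.toLin' s.1 ≪≫ₗ e.symm, fun x y => by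
      rw [← he, ← he]
      simpa [SpecialLinearGroup.toLin'_apply] using s.2 (e x) (e y)⟩
    have h2 : M g = s.1.1 := toLin'.injective (LinearMap.ext fun u => by
      rw [← e.apply_symm_apply u, toLin'_apply, hM]
      simp [g, SpecialLinearGroup.toLin'_apply])
    have h3 : δ g = 1 := Subtype.ext (show (M g).det = 1 by rw [h2, s.1.2])
    refine ⟨g, Subtype.ext (Subtype.ext ?_)⟩
    change M (φ g) = _
    simp [hφ, ε, h3, h2]
  refine ⟨(QuotientGroup.mk' _).comp σ, ε, (QuotientGroup.mk'_surjective _).comp hσ, ?_, hε,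
    fun z => ⟨z ^ n, by simp [ε, hd, hk]⟩⟩
  ext g
  rw [MonoidHom.mem_ker, MonoidHom.comp_apply, QuotientGroup.mk'_apply, QuotientGroup.eq_one_iff]
  refine ⟨fun h => ?_, ?_⟩
  · obtain ⟨w, hw⟩ := exists_unitary_ne F q
    obtain ⟨z, hz⟩ := central_sc hw (fun y => by
      obtain ⟨a, ha⟩ := exists_trace q (s := -(y * star y)) (by simp [mul_comm])
      exact ⟨a, by rw [ha, neg_add_cancel]⟩) g fun k => by
      have h4 : M (φ (k * g)) = M (φ (g * k)) := by
        have := Subgroup.mem_center_iff.1 h (σ k)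
        rw [← map_mul, ← map_mul] at this
        exact congrArg (·.1.1) this
      have h5 : φ (k * g) = φ (g * k) := HS.ext fun x => e.injective (by rw [← hM, ← hM, h4])
      rw [hφ, hφ, map_mul, map_mul, mul_comm (ε k)] at h5
      exact (mul_left_cancel h5).symm
    exact ⟨z, hz.symm⟩
  · rintro ⟨z, rfl⟩
    have : σ ((mh F ι).sc z) = 1 := by
      rw [← map_one σ]
      refine Subtype.ext (Subtype.ext (congrArg M ?_))
      rw [hφ, hε, map_inv, inv_mul_cancel, map_one]
    rw [this]; exact one_mem _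

end Cfsg.Uni
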