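import Cfsg.Agent.Uni.Defs
import Cfsg.Agent.CT.Extension
import Cfsg.Agent.FT.Base.Sub

/-! `StLL`: the local lemma. -/

set_option autoImplicit false

namespace Cfsg.Uni

namespace LL

open Finset
open scoped Classical ComplexConjugate

universe u

variable {G : Type u} [Group G] [Fintype G] {Q : Subgroup G} [Q.Normal] {A : Type u} [CommGroup A]
  [Fintype A] {f : A →* G}

/-- the conjugacy hypothesis -/
def Cj (Q : Subgroup G) (f : A →* G) : Prop := ∀ a, a ≠ 1 → ∀ y ∈ Q, ∃ x ∈ Q, ∃ z ∈ Q,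
  (∀ w ∈ Q, w * z = z * w) ∧ f a * y = x * (f a * z) * x⁻¹

omit [Fintype A] in
theorem norm_eq_one (h : Cj Q f) {ξ : G → ℂ} (hξ : IsCharacter G ξ) {θ : IrrCharacter Q}
    (e : ∀ n : Q, ξ n = θ.1 n) {a : A} (ha : a ≠ 1) : ξ (f a) * conj (ξ (f a)) = 1 := by
  have h1 := sum_coset_mul_conj hξ (isIrr_res_of_extends e) (f a)
  rw [sum_congr rfl (g := fun _ => ξ (f a) * conj (ξ (f a))) fun y _ => by
    obtain ⟨x, -, z, hz, hc, r⟩ := h a ha y y.2
    have h2 : ‖ξ z‖ = charDegree ξ := by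
      rw [charDegree_eq_of_extends e, ← θ.mem_charCenter.1 (θ.center_le_charCenter
        (Subgroup.mem_center_iff.2 fun w => Subtype.ext (hc w w.2) : (⟨z, hz⟩ : Q) ∈ _)), ← e]
    rw [r, hξ.isClassFunction, hξ.isClassFunction.mul_comm,
      hξ.apply_mul_of_mem_charCenter (hξ.mem_charCenter.2 h2), map_mul, mul_mul_mul_comm,
      Complex.mul_conj', norm_div, h2, hξ.norm_one, div_self (by
        rw [charDegree_eq_of_extends e]; exact_mod_cast θ.charDegree_pos.ne')]
    simp, sum_const, card_univ, Nat.card_eq_fintype_card, nsmul_eq_mul] at h1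
  exact (mul_eq_left₀ (by simp)).1 h1

theorem ext_case (h : Cj Q f) {ξ : G → ℂ} (hξ : IsCharacter G ξ) {θ : IrrCharacter Q}
    (e : ∀ n : Q, ξ n = θ.1 n) : (Nat.card A ≤ charDegree θ.1 → ∑ a, ξ (f a) ≠ 0) ∧
      (1 < charDegree θ.1 → Nat.card A ≤ charDegree θ.1 + 1) := by
  have h1 : ξ (f 1) = charDegree θ.1 := by
    rw [map_one, hξ.one_eq_charDegree, charDegree_eq_of_extends e]
  have hc : (univ.erase (1 : A)).card + 1 = Nat.card A := by
    rw [card_erase_add_one (mem_univ _), card_univ, Nat.card_eq_fintype_card]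
  refine ⟨fun hN z => ?_, fun hd => ?_⟩
  · rw [← add_sum_erase _ _ (mem_univ 1), h1] at z
    have := norm_sum_le (univ.erase (1 : A)) fun a => ξ (f a)
    rw [← neg_eq_of_add_eq_zero_right z, sum_congr rfl (g := fun _ => (1 : ℝ)) fun a ha => by
      have := norm_eq_one h hξ e (ne_of_mem_erase ha)
      rw [Complex.mul_conj'] at this
      exact (pow_eq_one_iff_of_nonneg (norm_nonneg _) two_ne_zero).1 (by exact_mod_cast this)] at this
    simp only [norm_neg, Complex.norm_natCast, sum_const, nsmul_eq_mul, mul_one, Nat.cast_le] at this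
    omega
  · have := (hξ.comp f).charDegree_le_re_classInner
    rw [classInner_def, ← add_sum_erase _ _ (mem_univ 1), sum_congr rfl fun a ha =>
      norm_eq_one h hξ e (ne_of_mem_erase ha), h1, charDegree_comp_hom,
      charDegree_eq_of_extends e, ← hc] at this
    simp only [map_natCast, sum_const, nsmul_eq_mul, mul_one] at this
    generalize charDegree θ.1 = d at *
    generalize (univ.erase (1 : A)).card = m at *
    rw [show ((m + 1 : ℕ) : ℂ)⁻¹ * (d * d + m) = ((((m + 1 : ℕ) : ℝ)⁻¹ * (d * d + m) : ℝ) : ℂ) by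
      push_cast; rfl, Complex.ofReal_re, le_inv_mul_iff₀ (by positivity)] at this
    have : (m + 1) * d ≤ d * d + m := by exact_mod_cast this
    rw [← hc]
    nlinarith

theorem irr_case (h : Cj Q f) [IsCyclic A] (hs : ∀ g, ∃ a, ∃ y ∈ Q, f a * y = g)
    (ψ : IrrCharacter G) (θ : IrrCharacter Q) (ho : classInner (fun n : Q => ψ.1 n) θ.1 ≠ 0) :
    (Nat.card ((charInertia θ.1).comap f) ≤ charDegree θ.1 →
      ∑ a, ψ.1 (f a) ≠ 0 ∧ Nat.card A ≤ charDegree ψ.1) ∧
      (1 < charDegree θ.1 → Nat.card ((charInertia θ.1).comap f) ≤ charDegree θ.1 + 1) := by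
  have hI := θ.le_charInertia
  obtain ⟨ξ, h1, h2⟩ := clifford_corr_surj hI le_rfl ψ ho
  have hc : IsCyclic (G ⧸ Q) := isCyclic_of_surjective ((QuotientGroup.mk' Q).comp f) fun x => by
    obtain ⟨g, rfl⟩ := QuotientGroup.mk_surjective x
    obtain ⟨a, y, hy, rfl⟩ := hs g
    exact ⟨a, (QuotientGroup.mk_mul_of_mem _ hy).symm⟩
  have e := extends_of_over_of_isCyclic (isCyclic_quotient_subgroupOf hc _)
    (θ := θ.subgroupOf hI) (charInertia_subgroupOf_eq_top hI le_rfl) ξ
    (by rw [← classInner_res_subgroupOf hI] at h1; exact h1)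
  have hd : charDegree (θ.subgroupOf hI).1 = charDegree θ.1 := charDegree_congr rfl
  have k := ext_case (f := f.subgroupComap (charInertia θ.1)) (fun a ha y hy => by
    obtain ⟨x, hx, z, hz, c, r⟩ := h a (fun e => ha (Subtype.ext e)) y hy
    exact ⟨⟨x, hI hx⟩, hx, ⟨z, hI hz⟩, hz, fun w hw => Subtype.ext (c w hw), Subtype.ext r⟩)
    ξ.isCharacter e
  rw [hd] at k
  refine ⟨fun hN => ⟨?_, ?_⟩, k.2⟩
  · have v : ∀ a, ψ.1 (f a) = (Nat.card (charInertia θ.1) : ℂ)⁻¹ * Fintype.card G *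
        extendByZero _ (fun a => ξ.1 (f.subgroupComap (charInertia θ.1) a)) a * 1 := fun a => by
      rw [← h2, indFun_apply, sum_congr rfl (g := fun _ => extendByZero _ ξ.1 (f a)) fun x _ => by
        obtain ⟨b, y, hy, rfl⟩ := hs x
        rw [← ξ.isClassFunction.extendByZero_conj (inv_mem (hI hy)) (f a), inv_inv, mul_inv_rev,
          ← mul_assoc, mul_assoc _ (f a), ← map_mul, mul_comm a, map_mul]
        congr 1; group, sum_const, nsmul_eq_mul, mul_one, mul_assoc, extendByZero_eq_dite,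
        extendByZero_eq_dite]
      rfl
    simp only [v, mul_assoc, ← mul_sum]
    rw [sum_extendByZero_mul]
    simp only [mul_one]
    exact mul_ne_zero (by simp) (mul_ne_zero (by simp) (k.1 hN))
  · rw [← h2, ξ.isCharacter.charDegree_indFun, charDegree_eq_of_extends e, hd,
      ← ((charInertia θ.1).comap f).index_mul_card, Subgroup.index_comap]
    exact Nat.mul_le_mul ((Subgroup.relIndex_le_of_le_right le_top
      Subgroup.index_ne_zero_of_finite).trans (Subgroup.relIndex_top_right _).le) hN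

end LL

open Cfsg.FT
open scoped Classical

universe u

theorem stLL : StLL.{u} := by
  intro G _ _ Q T Z _ hT hc _ hZ hZQ h χ θ N hχ ho hN
  letI := Fintype.ofFinite G
  letI := hc.commGroup
  haveI := (normalYl hT).normal
  obtain ⟨ψ, h1, h2⟩ := IrrCharacter.exists_between (le_sup_left : Q ≤ Q ⊔ T) hχ θ ho
  have k := LL.irr_case (Q := Q.subgroupOf (Q ⊔ T)) (f := Subgroup.inclusion le_sup_right)
    (fun a ha y hy => by
      obtain ⟨x, hx, z, hz, r⟩ := h a a.2 (fun e => ha (Subtype.ext e)) y hy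
      exact ⟨⟨x, Subgroup.mem_sup_left hx⟩, hx, ⟨z, Subgroup.mem_sup_left (hZQ hz)⟩, hZQ hz,
        fun w hw => Subtype.ext (hZ hz w hw), Subtype.ext r⟩)
    (fun g => by
      obtain ⟨a, ha, y, hy, r⟩ := (mem_join_norm' hT).1 g.2
      exact ⟨⟨a, ha⟩, ⟨y, Subgroup.mem_sup_left hy⟩, hy, Subtype.ext r⟩) ψ (θ.subgroupOf le_sup_left)
    (by rw [← classInner_res_subgroupOf le_sup_left] at h2; exact h2)
  have e : N = Nat.card ((charInertia (θ.subgroupOf (le_sup_left : Q ≤ Q ⊔ T)).1).comap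
      (Subgroup.inclusion (le_sup_right : T ≤ Q ⊔ T))) :=
    hN.trans (Nat.card_congr (Equiv.subtypeEquivRight fun t => by
      rw [Subgroup.mem_comap, mem_charInertia_iff_forall]
      exact ⟨fun h y y' e => h ⟨y, y.2⟩ ⟨y', y'.2⟩ (congrArg Subtype.val e),
        fun h y y' e => h ⟨⟨y, Subgroup.mem_sup_left y.2⟩, y.2⟩ ⟨⟨y', Subgroup.mem_sup_left y'.2⟩, y'.2⟩
          (Subtype.ext e)⟩))
  rw [← e, show charDegree (θ.subgroupOf (le_sup_left : Q ≤ Q ⊔ T)).1 = charDegree θ.1 from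
    charDegree_congr rfl] at k
  refine ⟨fun hd => ⟨?_, (k.1 hd).2.trans (ψ.charDegree_le_of_over hχ h1)⟩, k.2⟩
  have := classInner_res_ne_zero_trans (le_sup_right : T ≤ Q ⊔ T) hχ ψ IsCharacter.one h1
    (by simp only [classInner_def, map_one, mul_one]; exact mul_ne_zero (by simp) (k.1 hd).1)
  rw [finsum_eq_sum_of_fintype]
  simpa [classInner_def] using this

end Cfsg.Uni
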