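import Cfsg.Agent.Uni.Par
import Cfsg.Agent.Uni.Field

/-!
# S4793: orbits of the model group on vectors; the normal closure of `Q`
-/

set_option autoImplicit false

namespace Cfsg.Uni.D

open Matrix Module

universe u

variable {F : Type u} [Field F] [StarRing F] {ι : Type} [Fintype ι] [DecidableEq ι]

/-- the root elements `q (y e_i, a E_ii)` -/
def rt (i : ι) (y a : F) (h : a + star a + y * star y = 0) : HQ F ι :=
  ⟨Pi.single i y, single i i a, by
    ext j k
    by_cases hj : j = i <;> by_cases hk : k = i <;>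
      simp [vecMulVec_apply, hj, hk, single_apply, h, eq_comm (a := i)]⟩

theorem rt_apply (i : ι) (y a : F) (h : a + star a + y * star y = 0) (x : MV F ι) :
    (qh (rt i y a h)).1 x =
      (x.1 + Pi.single i (x.2.1 * y + a * x.2.2 i), x.2.1 - x.2.2 i * star y, x.2.2) := by
  rw [qh_apply]
  refine Prod.ext (funext fun j => ?_) (Prod.ext ?_ rfl)
  · by_cases hj : j = i <;> simp [rt, hj, single_mulVec, add_assoc]
  · simp [rt]

variable [Fintype F] (q : ℕ) [UF F q]

include q in
theorem to_ne (i : ι) {x : MV F ι} (hx : x ≠ 0) : ∃ g : Γ F ι, (g.1 x).2.2 ≠ 0 := by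
  have key : ∀ y : MV F ι, y.1 ≠ 0 → ∃ g : Γ F ι, (g.1 y).2.2 ≠ 0 := fun y hy => by
    obtain ⟨j, hj⟩ := Function.ne_iff.1 hy
    exact ⟨wv F j, fun e => hj (by simpa [wv_apply] using congrFun e j)⟩
  by_cases h2 : x.2.2 = 0
  swap
  · exact ⟨1, h2⟩
  by_cases h1 : x.1 = 0
  swap
  · exact key x h1
  have h0 : x.2.1 ≠ 0 := fun e => hx (Prod.ext h1 (Prod.ext e h2))
  obtain ⟨a, ha⟩ := exists_trace q (s := (-1 : F)) (by simp)
  obtain ⟨g, hg⟩ := key ((qh (rt i 1 a (by simp [ha]))).1 x) fun e => h0 (by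
    simpa [rt_apply, h1, h2] using congrFun e i)
  exact ⟨g * _, hg⟩

include q in
theorem canon (i : ι) {x : MV F ι} (hx : x ≠ 0) (a : F) (ha : a + star a = (mh F ι).h x x) :
    ∃ g : Γ F ι, g.1 x = (Pi.single i a, 0, Pi.single i 1) := by
  obtain ⟨g, hg⟩ := to_ne q i hx
  obtain ⟨A, hA⟩ := l_move hg i
  have h1 : ((lh A * g).1 x).2.2 = Pi.single i 1 := hA
  obtain ⟨p, hp⟩ := q_move ((lh A * g).1 x) (Pi.single i 1) (by rw [h1]; simp) a (by rw [HS.iso, ha])
  refine ⟨(qh p)⁻¹ * (lh A * g), ?_⟩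
  rw [HS.mul_apply, ← hp, HS.inv_apply_apply, h1]
  simp [← Pi.single_smul']

include q in
theorem orb [Nonempty ι] :
    (∀ x y : MV F ι, x ≠ 0 → y ≠ 0 → (mh F ι).h x x = (mh F ι).h y y → ∃ g : Γ F ι, g.1 x = y) ∧
    ∀ x : MV F ι, ∃ g : Γ F ι, (g.1 x).2.1 = 0 := by
  obtain ⟨i⟩ := ‹Nonempty ι›
  refine ⟨fun x y hx hy e => ?_, fun x => ?_⟩
  · obtain ⟨a, ha⟩ := exists_trace q ((mh F ι).star_h x x)
    obtain ⟨g, hg⟩ := canon q i hx a ha
    obtain ⟨g', hg'⟩ := canon q i hy a (ha.trans e)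
    exact ⟨g'⁻¹ * g, by rw [HS.mul_apply, hg, ← hg', HS.inv_apply_apply]⟩
  · by_cases hx : x = 0
    · exact ⟨1, by simp [hx]⟩
    obtain ⟨a, ha⟩ := exists_trace q ((mh F ι).star_h x x)
    obtain ⟨g, hg⟩ := canon q i hx a ha
    exact ⟨g, by rw [hg]⟩

/-- diagonal matrices -/
def dg : (ι → Fˣ) →* GL ι F :=
  Units.map ((diagonalRingHom ι F).toMonoidHom) |>.comp (MulEquiv.piUnits (M := fun _ : ι => F)).symm

theorem dg_val (D : ι → Fˣ) : (dg D).1 = diagonal fun i => (D i : F) := rfl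

/-- `a ↦ a / ā` -/
def ph : Fˣ →* unitary F where
  toFun a := ⟨a.1 / star a.1, by
    have h1 := a.ne_zero
    have h2 : star a.1 ≠ 0 := by simpa using h1
    constructor <;> simp only [star_div₀, star_star] <;> field_simp⟩
  map_one' := by ext; simp
  map_mul' a b := by ext; simp [mul_div_mul_comm]

theorem ph_val (a : Fˣ) : (ph a : F) = a.1 / star a.1 := rfl

section

variable {H : Type*} [Group H] (π : Γ F ι →* H) (hq : ∀ p, π (qh p) = 1)
include hq

theorem pi_par (g : Γ F ι) (A : GL ι F) (z : unitary F)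
    (hA : ∀ u, g.1 (u, 0, 0) = (A.1 *ᵥ u, 0, 0)) (hz : (g.1 (0, 1, 0)).2.1 = z) :
    π g = π (lh A) * π (dh ι z) := by
  obtain ⟨p, rfl⟩ := par' g A z hA hz
  simp [hq]

theorem pi_wqw (i : ι) (p : HQ F ι) : π (wv F i * qh p * wv F i) = 1 := by
  rw [map_mul, map_mul, hq, mul_one, ← map_mul, wv_wv, map_one]

include q in
theorem pi_w (i : ι) (a : Fˣ) :
    π (wv F i) = π (lh (dg (Pi.mulSingle i a))) * π (dh ι (ph a)⁻¹) := by
  have h1 := a.ne_zero
  have h2 : star a.1 ≠ 0 := by simpa using h1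
  obtain ⟨y, hy⟩ := exists_norm q (s := -(a.1 + star a.1)) (by simp [add_comm])
  have r1 : a.1 + star a.1 + y * star y = 0 := by rw [hy]; ring
  have r2 : (star a.1)⁻¹ + star (star a.1)⁻¹ + y / star a.1 * star (y / star a.1) = 0 := by
    simp only [star_inv₀, star_div₀, star_star]
    field_simp
    linear_combination r1
  rw [← pi_par π hq (wv F i * qh (rt i _ _ r2) * (wv F i * qh (rt i _ _ r1) * wv F i))]
  · rw [map_mul, pi_wqw π hq, map_mul, hq, mul_one, mul_one]
  · intro u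
    simp only [HS.mul_apply, wv_apply, rt_apply, dg_val]
    refine Prod.ext (funext fun j => ?_) (Prod.ext ?_ (funext fun j => ?_))
    · by_cases hj : j = i <;> simp [hj, mulVec_diagonal]
    · simp
      field_simp
      ring
    · by_cases hj : j = i
      · simp [hj]
        field_simp
        linear_combination (u i) * r1
      · simp [hj]
  · simp only [HS.mul_apply, wv_apply, rt_apply, ← Unitary.star_eq_inv, Unitary.coe_star, ph_val]
    simp
    field_simp
    linear_combination -r1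

include q in
theorem pi_w_one (i : ι) : π (wv F i) = 1 := by simpa using pi_w q π hq i 1

include q in
theorem pi_dg (D : ι → Fˣ) : π (lh (dg D)) = π (dh ι (ph (∏ i, D i))) := by
  refine DFunLike.congr_fun (MonoidHom.pi_ext (f := (π.comp lh).comp dg)
    (g := ((π.comp (dh ι)).comp ph).comp
      (∏ i, Pi.evalMonoidHom (fun _ : ι => Fˣ) i)) fun i a => ?_) D |>.trans (by simp)
  have := pi_w q π hq i a
  rw [pi_w_one q π hq, map_inv, map_inv, eq_comm, mul_inv_eq_one] at this
  simpa [Finset.prod_apply] using this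

theorem pi_transvection (t : TransvectionStruct ι F) (A : GL ι F) (hA : A.1 = t.toMatrix) :
    π (lh A) = 1 := by
  obtain ⟨i, j, hij, c⟩ := t
  have := pi_par π hq (wv F j * qh ⟨0, single i j c - single j i (star c), by simp⟩ * wv F j) A 1
    (fun u => by
      simp only [HS.mul_apply, wv_apply, qh_apply, hA, TransvectionStruct.toMatrix_mk, transvection]
      refine Prod.ext (funext fun k => ?_) (Prod.ext (by simp) (funext fun k => ?_))
      · by_cases hk : k = j
        · simp [hk, add_mulVec, single_mulVec, hij.symm]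
        · simp [hk, add_mulVec, sub_mulVec, single_mulVec]
      · by_cases hk : k = j
        · simp [hk, sub_mulVec, single_mulVec, hij.symm, hij]
        · simp [hk]) (by simp [wv_apply, qh_apply])
  rw [pi_wqw π hq] at this
  simpa using this.symm

include q in
theorem pi_l (A : GL ι F) : ∃ z, π (lh A) = π (dh ι z) := by
  refine diagonal_transvection_induction_of_det_ne_zero
    (fun M => ∀ A : GL ι F, A.1 = M → ∃ z, π (lh A) = π (dh ι z)) A.1 A.det_ne_zero
    (fun D hD A hA => ?_) (fun t A hA => ⟨1, by simpa using pi_transvection π hq t A hA⟩)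
    (fun B C hB hC h1 h2 A hA => ?_) A rfl
  · rw [det_diagonal, Finset.prod_ne_zero_iff] at hD
    exact ⟨_, (congrArg (fun A => π (lh A)) (Units.ext hA)).trans
      (pi_dg q π hq fun i => Units.mk0 (D i) (hD i (Finset.mem_univ i)))⟩
  · obtain ⟨z, hz⟩ := h1 (.mkOfDetNeZero B hB) rfl
    obtain ⟨z', hz'⟩ := h2 (.mkOfDetNeZero C hC) rfl
    exact ⟨z * z', by rw [map_mul, map_mul, ← hz, ← hz', ← map_mul, ← map_mul]; congr 2; exact Units.ext hA⟩

include q in
theorem pi_sc (z : unitary F) : π ((mh F ι).sc z) = π (dh ι z) ^ (2 * Fintype.card ι + 1) := by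
  have h1 : z.1 * star z.1 = 1 := z.2.2
  have h2 : ph (Unitary.toUnits z) = z ^ 2 := Subtype.ext (by
    change z.1 / star z.1 = _
    rw [div_eq_iff (right_ne_zero_of_mul_eq_one h1)]
    simp [sq, mul_assoc, h1])
  rw [pi_par π hq _ (dg fun _ => Unitary.toUnits z) z (fun u => by
    ext j <;> simp [dg_val, mulVec_diagonal]) (by simp), pi_dg q π hq]
  simp [h2, pow_succ, pow_mul]

end

theorem perf [Nonempty ι] (hc : (2 * Fintype.card ι + 1).Coprime (q + 1)) (N : Subgroup (Γ F ι))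
    [N.Normal] (hq : ∀ p, qh p ∈ N) (hs : ∀ z, (mh F ι).sc z ∈ N) : N = ⊤ := by
  obtain ⟨i⟩ := ‹Nonempty ι›
  have e : ∀ g, QuotientGroup.mk' N g = 1 ↔ g ∈ N := QuotientGroup.eq_one_iff
  have hq' := fun p => (e _).2 (hq p)
  have hd : ∀ z, QuotientGroup.mk' N (dh ι z) = 1 := fun z => by
    refine (pow_eq_one_iff_of_coprime hc).1 ⟨?_, ?_⟩
    · rw [← pi_sc q _ hq', e]; exact hs z
    · rw [← map_pow, ← map_pow, ← card_unitary F q, pow_card_eq_one', map_one, map_one]
  refine gen i N hq (fun A => ?_) (fun z => (e _).1 (hd z)) ((e _).1 (pi_w_one q _ hq' i))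
  obtain ⟨z, hz⟩ := pi_l q _ hq' A
  rw [← e, hz, hd]

end Cfsg.Uni.D

namespace Cfsg.Uni

universe u

variable (F : Type u) [Field F] [StarRing F] [Fintype F] (q : ℕ) [UF F q]

include q in
theorem stOrb : StOrb F := fun _ _ _ _ => D.orb q

theorem stPerf : StPerf F q := fun _ _ _ _ hc N _ => D.perf q hc N

end Cfsg.Uni
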