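import Cfsg.Agent.Uni.Defs

/-!
# General character theory for the assembly of S4793
-/

set_option autoImplicit false

namespace Cfsg.Uni

open scoped ComplexConjugate

universe u v

variable {G : Type u} [Group G]

/-- `χ` has a fixed vector for some centralizer -/
def Occ (χ : G → ℂ) : Prop := ∃ x : G, ∑ᶠ g : Subgroup.centralizer ({x} : Set G), χ g ≠ 0

theorem finsum_char {P : Type v} [Group P] [Finite P] {V : Type} [AddCommGroup V] [Module ℂ V]
    [FiniteDimensional ℂ V] (ρ : Representation ℂ P V) :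
    ∑ᶠ p, ρ.character p = (Nat.card P : ℂ) * Module.finrank ℂ ρ.invariants := by
  have := Fintype.ofFinite P
  have h0 : (Nat.card P : ℂ) ≠ 0 := by exact_mod_cast Nat.card_pos.ne'
  have := invertibleOfNonzero h0
  rw [← ρ.card_inv_mul_sum_char_eq_finrank, mul_inv_cancel_left₀ h0, finsum_eq_sum_of_fintype]

theorem finsum_ne_zero_iff {P : Type v} [Group P] [Finite P] {V : Type} [AddCommGroup V] [Module ℂ V]
    [FiniteDimensional ℂ V] (ρ : Representation ℂ G V) (f : P →* G) :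
    ∑ᶠ p, ρ.character (f p) ≠ 0 ↔ ∃ v ≠ 0, ∀ p, ρ (f p) v = v := by
  have h0 : (Nat.card P : ℂ) ≠ 0 := by exact_mod_cast Nat.card_pos.ne'
  change ∑ᶠ p, Representation.character (ρ.comp f : Representation ℂ P V) p ≠ 0 ↔ _
  rw [finsum_char, mul_ne_zero_iff_left h0, Nat.cast_ne_zero, Ne, Submodule.finrank_eq_zero,
    ← Ne, Submodule.ne_bot_iff]
  exact ⟨fun ⟨v, h, h'⟩ => ⟨v, h', h⟩, fun ⟨v, h, h'⟩ => ⟨v, h', h⟩⟩

theorem finsum_nat {P : Type v} [Group P] [Finite P] {χ : G → ℂ} (h : IsCharacter G χ) (f : P →* G) :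
    ∃ m : ℕ, ∑ᶠ p, χ (f p) = m := by
  obtain ⟨n, ρ, rfl⟩ := h
  exact ⟨_, (finsum_char (ρ.comp f : Representation ℂ P _)).trans (Nat.cast_mul _ _).symm⟩

theorem finsum_ne_zero_of {P : Type v} {P' : Type*} [Group P] [Finite P] [Group P'] [Finite P']
    {χ : G → ℂ} (h : IsCharacter G χ) (f : P →* G) (f' : P' →* G)
    (hf : ∀ p', ∃ p z, χ z = χ 1 ∧ f' p' = f p * z) [Finite G] (h0 : ∑ᶠ p, χ (f p) ≠ 0) :
    ∑ᶠ p, χ (f' p) ≠ 0 := by
  obtain ⟨n, ρ, rfl⟩ := h
  rw [finsum_ne_zero_iff] at h0 ⊢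
  obtain ⟨v, hv, h⟩ := h0
  refine ⟨v, hv, fun p' => ?_⟩
  obtain ⟨p, z, hz, e⟩ := hf p'
  rw [e, map_mul, (character_eq_one_iff ρ).1 hz, mul_one, h]

theorem occ_iff [Fintype G] {χ : G → ℂ} (h : IsCharacter G χ) :
    classInner χ (fun g => (Nat.card (Subgroup.centralizer ({g} : Set G)) : ℂ)) ≠ 0 ↔ Occ χ := by
  classical
  choose m hm using fun x : G => finsum_nat h (Subgroup.centralizer ({x} : Set G)).subtype
  have h0 : (Nat.card G : ℂ) ≠ 0 := by exact_mod_cast Nat.card_pos.ne'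
  have h1 : ∑ g, χ g * conj (Nat.card (Subgroup.centralizer ({g} : Set G)) : ℂ) = ∑ x, (m x : ℂ) := by
    have h2 : ∀ x, (m x : ℂ) = ∑ g, if g * x = x * g then χ g else 0 := fun x => by
      rw [← hm, finsum_eq_sum_of_fintype, ← Finset.sum_filter]
      exact (Finset.sum_subtype _ (fun g => by simp [Subgroup.mem_centralizer_singleton_iff]) χ).symm
    rw [Finset.sum_congr rfl fun x _ => h2 x, Finset.sum_comm]
    refine Finset.sum_congr rfl fun g _ => ?_
    rw [← Finset.sum_filter, Finset.sum_const, nsmul_eq_mul, map_natCast, mul_comm,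
      Nat.card_eq_fintype_card, Fintype.card_subtype]
    simp [Subgroup.mem_centralizer_singleton_iff, eq_comm]
  rw [classInner_def, h1, mul_ne_zero_iff_left (inv_ne_zero h0), ← Nat.cast_sum, Nat.cast_ne_zero,
    Ne, Finset.sum_eq_zero_iff]
  simp only [Finset.mem_univ, forall_const, not_forall, Occ]
  exact exists_congr fun x => by rw [← Nat.cast_inj (R := ℂ), ← hm, Nat.cast_zero]; rfl

theorem occ_triv [Finite G] : Occ (IrrCharacter.triv G).1 := ⟨1, by
  have := Fintype.ofFinite (Subgroup.centralizer ({1} : Set G))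
  simp [finsum_eq_sum_of_fintype]⟩

theorem occ_comp {H : Type v} [Group H] [Finite H] [Finite G] {χ : G → ℂ} (h : IsCharacter G χ)
    (π : H →* G) (hπ : Function.Surjective π)
    (hc : ∀ a b, π a * π b = π b * π a → a * b = b * a) : Occ (fun x => χ (π x)) ↔ Occ χ := by
  obtain ⟨n, ρ, rfl⟩ := h
  have key : ∀ x : H, ∑ᶠ g : Subgroup.centralizer ({x} : Set H), ρ.character (π g) ≠ 0 ↔
      ∑ᶠ g : Subgroup.centralizer ({π x} : Set G), ρ.character g ≠ 0 := fun x => by
    refine (finsum_ne_zero_iff ρ (π.comp (Subgroup.subtype _))).trans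
      (Iff.trans ?_ (finsum_ne_zero_iff ρ (Subgroup.subtype _)).symm)
    refine exists_congr fun v => and_congr_right fun _ => ⟨fun h g => ?_, fun h g => ?_⟩
    · obtain ⟨a, ha⟩ := hπ g
      have hg := Subgroup.mem_centralizer_singleton_iff.1 g.2
      have := h ⟨a, Subgroup.mem_centralizer_singleton_iff.2 (hc _ _ (by rw [ha, hg]))⟩
      rwa [MonoidHom.comp_apply, Subgroup.coe_subtype, ha] at this
    · exact h ⟨π g, Subgroup.mem_centralizer_singleton_iff.2 (by
        rw [← map_mul, Subgroup.mem_centralizer_singleton_iff.1 g.2, map_mul])⟩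
  refine ⟨fun ⟨x, hx⟩ => ⟨π x, (key x).1 hx⟩, fun ⟨x, hx⟩ => ?_⟩
  obtain ⟨a, rfl⟩ := hπ x
  exact ⟨a, (key a).2 hx⟩

section proj

variable {μ : Type v} [CommGroup μ] [Fintype μ]

theorem sum_hom [DecidableEq (μ →* ℂˣ)] (γ : μ →* ℂˣ) :
    ∑ z, (γ z : ℂ) = if γ = 1 then (Nat.card μ : ℂ) else 0 := by
  have h0 : (Nat.card μ : ℂ) ≠ 0 := by exact_mod_cast Nat.card_pos.ne'
  have := IrrCharacter.classInner_eq (IrrCharacter.ofHom γ) (IrrCharacter.ofHom 1)
  simp only [classInner_def, IrrCharacter.ofHom_apply, MonoidHom.one_apply, Units.val_one, map_one,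
    mul_one, IrrCharacter.ofHom_injective.eq_iff] at this
  rw [← mul_inv_cancel_left₀ h0 (∑ z, _), this]
  split_ifs <;> simp

noncomputable instance : Fintype (μ →* ℂˣ) := Fintype.ofEquiv _ (IrrCharacter.equivHomOfComm μ).symm

theorem card_hom : Fintype.card (μ →* ℂˣ) = Nat.card μ := by
  rw [Fintype.card_congr (IrrCharacter.equivHomOfComm μ), ← Nat.card_eq_fintype_card, card_irr_of_comm]

theorem sum_hom' [DecidableEq μ] (z : μ) :
    ∑ γ : μ →* ℂˣ, (γ z : ℂ) = if z = 1 then (Nat.card μ : ℂ) else 0 := by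
  have := sum_irr_one_mul z
  rw [← (IrrCharacter.equivHomOfComm μ).sum_comp] at this
  simpa using this

/-- the `γ`-component of `ω` -/
noncomputable def proj (s : μ →* G) (ω : G → ℂ) (γ : μ →* ℂˣ) (g : G) : ℂ :=
  (Nat.card μ : ℂ)⁻¹ * ∑ z, (γ z⁻¹ : ℂ) * ω (s z * g)

theorem proj_isCharacter [Finite G] (s : μ →* G) (hs : ∀ z g, s z * g = g * s z) {ω : G → ℂ}
    (h : IsCharacter G ω) (γ : μ →* ℂˣ) : IsCharacter G (proj s ω γ) := by
  classical
  have h0 : (Nat.card μ : ℂ) ≠ 0 := by exact_mod_cast Nat.card_pos.ne'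
  obtain ⟨m, rfl⟩ := isCharacter_iff_exists_sum.1 h
  have hl : ∀ χ : IrrCharacter G, ∃ l : μ →* ℂˣ, ∀ z g, χ.1 (s z * g) = l z * χ.1 g := fun χ => by
    obtain ⟨l, hl, -⟩ := χ.isCharacter.exists_hom_of_le_charCenter
      (fun e => χ.one_ne_zero (congrFun e 1)) χ.center_le_charCenter
    exact ⟨l.comp (s.codRestrict _ fun z => Subgroup.mem_center_iff.2 fun g => (hs z g).symm),
      fun z g => hl ⟨s z, _⟩ g⟩
  choose l hl using hl
  refine isCharacter_iff_exists_sum.2 ⟨fun χ => if l χ / γ = 1 then m χ else 0, funext fun g => ?_⟩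
  simp only [proj, hl, Finset.mul_sum]
  rw [Finset.sum_comm]
  refine Finset.sum_congr rfl fun χ _ => ?_
  have := sum_hom (l χ / γ)
  rw [Finset.sum_congr rfl (g := fun z => (Nat.card μ : ℂ)⁻¹ * (m χ * χ.1 g) * ((l χ / γ) z : ℂˣ))
    fun z _ => by simp; ring, ← Finset.mul_sum, this]
  split_ifs <;> simp [h0]; field_simp

theorem sum_proj (s : μ →* G) (ω : G → ℂ) (u : μ) (g : G) :
    ∑ γ : μ →* ℂˣ, (γ u⁻¹ : ℂ) * proj s ω γ g = ω (s u⁻¹ * g) := by
  classical
  have h0 : (Nat.card μ : ℂ) ≠ 0 := by exact_mod_cast Nat.card_pos.ne'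
  simp only [proj, Finset.mul_sum]
  rw [Finset.sum_comm, Finset.sum_congr rfl (g := fun z => if z = u⁻¹ then ω (s z * g) else 0)]
  · simp
  intro z _
  rw [Finset.sum_congr rfl (g := fun γ => (Nat.card μ : ℂ)⁻¹ * ω (s z * g) * (γ (u⁻¹ * z⁻¹) : ℂˣ))
    fun γ _ => by simp; ring, ← Finset.mul_sum, sum_hom']
  simp only [mul_inv_eq_one, eq_comm (a := z), inv_eq_iff_eq_inv]
  split_ifs <;> simp [h0]; field_simp

end proj

theorem irr_of_norm_le [Fintype G] {ι : Type*} [Fintype ι] (ζ : ι → G → ℂ)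
    (h : ∀ i, IsCharacter G (ζ i)) (h0 : ∀ i, ζ i ≠ 0) {m : ℕ}
    (hn : classInner (∑ i, ζ i) (∑ i, ζ i) = m) (hm : m ≤ Fintype.card ι) :
    (∀ i, IsIrrCharacter G (ζ i)) ∧ Function.Injective ζ := by
  classical
  choose a ha using fun i j => (h i).exists_classInner_eq_nat (h j)
  simp only [classInner_sum_left, classInner_sum_right, ha] at hn
  have h1 : ∑ i, ∑ j, a j i = m := by exact_mod_cast hn
  have h2 : ∀ i, 1 ≤ a i i := fun i => Nat.pos_of_ne_zero fun e => h0 i (by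
    rw [← classInner_self_eq_zero, ha, e, Nat.cast_zero])
  have h3 : ∀ i, 1 ≤ ∑ j, a j i := fun i =>
    (h2 i).trans (Finset.single_le_sum (f := fun j => a j i) (fun _ _ => Nat.zero_le _) (Finset.mem_univ i))
  have h4 : ∀ i, ∑ j, a j i = 1 := fun i => by
    have := (Finset.sum_eq_sum_iff_of_le (s := Finset.univ) fun i _ => h3 i).1 (le_antisymm
      (Finset.sum_le_sum fun i _ => h3 i) (by simpa [h1] using hm)) i (Finset.mem_univ i)
    exact this.symm
  have h5 : ∀ i, a i i + ∑ j ∈ Finset.univ.erase i, a j i = 1 := fun i => by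
    rw [← h4 i, Finset.add_sum_erase _ (fun j => a j i) (Finset.mem_univ i)]
  refine ⟨fun i => (h i).isIrr_iff.2 ?_, fun i j e => by_contra fun hne => ?_⟩
  · have := h5 i
    have := h2 i
    rw [ha, show a i i = 1 by omega, Nat.cast_one]
  · have h6 := Finset.single_le_sum (f := fun k => a k j) (fun _ _ => Nat.zero_le _)
      (Finset.mem_erase.2 ⟨hne, Finset.mem_univ i⟩)
    have h7 : a i j = a j j := Nat.cast_injective (R := ℂ) (by rw [← ha, ← ha, e])
    have := h5 j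
    have := h2 j
    omega

end Cfsg.Uni
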