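import Cfsg.Agent.Uni.Field

/-!
# Identities in the model group
-/

set_option autoImplicit false

namespace Cfsg.Uni

open Matrix

universe u

variable {F : Type u} [Field F] [StarRing F] {ι : Type} [Fintype ι] [DecidableEq ι]

/-- the action of `GL(U)` on `Q` -/
def HQ.act (A : Matrix ι ι F) (p : HQ F ι) : HQ F ι :=
  ⟨A *ᵥ p.y, A * p.S * Aᴴ, by
    have := congrArg (fun S => A * S * Aᴴ) p.rel
    simpa [mul_add, add_mul, mul_vecMulVec, vecMulVec_mul, star_mulVec, Matrix.mul_assoc] using this⟩

/-- the action of the torus of `L` on `Q` -/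
def HQ.rot (z : unitary F) (p : HQ F ι) : HQ F ι :=
  ⟨star z.1 • p.y, p.S, by
    have hz : star z.1 * z.1 = 1 := z.2.1
    simpa [smul_vecMulVec, vecMulVec_smul, smul_smul, hz] using p.rel⟩

/-- central elements of `Q` -/
def HQ.skw (S : Matrix ι ι F) (hS : S + Sᴴ = 0) : HQ F ι := ⟨0, S, by simpa using hS⟩

theorem skew_single (i j : ι) (c : F) :
    (single i j c - single j i (star c)) + (single i j c - single j i (star c))ᴴ = 0 := by
  simp [conjTranspose_single]

theorem skew_single_self (i : ι) {a : F} (ha : a + star a = 0) :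
    single i i a + (single i i a)ᴴ = 0 := by
  rw [conjTranspose_single, ← single_add, ha, single_zero]

/-- the elements `r(v, a)` of the root group of `e_i` and `L` -/
def HQ.rt (i : ι) (y a : F) (h : a + star a + y * star y = 0) : HQ F ι :=
  ⟨Pi.single i y, single i i a, by
    ext k l
    simp only [conjTranspose_single, Matrix.add_apply, Matrix.single_apply, vecMulVec_apply, Pi.star_apply,
      Pi.single_apply, Matrix.zero_apply]
    split_ifs <;> simp_all⟩

/-- transvections in `GL(U)` -/
def tvG {i j : ι} (h : i ≠ j) (c : F) : GL ι F :=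
  ⟨transvection i j c, transvection i j (-c), by simp [transvection_mul_transvection_same _ _ h],
    by simp [transvection_mul_transvection_same _ _ h]⟩

/-- diagonal matrices in `GL(U)` -/
def dgG (D : ι → Fˣ) : GL ι F :=
  ⟨diagonal fun i => D i, diagonal fun i => ((D i)⁻¹ : Fˣ), by simp [diagonal_mul_diagonal],
    by simp [diagonal_mul_diagonal]⟩

/-- permutation matrices in `GL(U)` -/
def pmG (σ : Equiv.Perm ι) : GL ι F :=
  ⟨σ⁻¹.permMatrix F, σ.permMatrix F, by simp [← permMatrix_mul], by simp [← permMatrix_mul]⟩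

theorem lh_qh (A : GL ι F) (p : HQ F ι) : lh A * qh p = qh (p.act A.1) * lh A := HS.ext fun x => by
  have : star (A.1 *ᵥ p.y) ⬝ᵥ (A⁻¹).1ᴴ *ᵥ x.2.2 = star p.y ⬝ᵥ x.2.2 := by
    rw [star_mulVec, ← dotProduct_mulVec, mulVec_mulVec, ← conjTranspose_mul, Units.inv_mul]; simp
  simp only [HS.mul_apply, lh_apply, qh_apply, HQ.act, mulVec_add, mulVec_smul, mulVec_mulVec,
    Matrix.mul_assoc, ← conjTranspose_mul, Units.inv_mul, conjTranspose_one, Matrix.mul_one,
    dotProduct_comm _ (star _), this]

theorem dh_qh (z : unitary F) (p : HQ F ι) : dh ι z * qh p = qh (p.rot z) * dh ι z :=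
  HS.ext fun x => by
    have hz : star z.1 * z.1 = 1 := z.2.1
    simp [dh_apply, qh_apply, HQ.rot, smul_smul, sub_mul, mul_assoc, mul_comm z.1, hz]

theorem dh_lh (z : unitary F) (A : GL ι F) : Commute (dh ι z) (lh A) := HS.ext fun _ => rfl

theorem dh_wv (z : unitary F) (i : ι) : Commute (dh ι z) (wv F i) :=
  HS.ext fun x => by simp [dh_apply, wv_apply]

theorem wv_comm (i j : ι) : Commute (wv F i) (wv F j) := HS.ext fun x => by
  by_cases h : i = j
  · rw [h]
  simp [wv_apply, Function.update_of_ne h, Function.update_of_ne (Ne.symm h), Function.update_comm h]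

theorem sc_eq (z : unitary F) :
    (mh F ι).sc z = lh (dgG fun _ => Unitary.toUnits z) * dh ι z := HS.ext fun x => by
  have hz : (star z.1)⁻¹ = z.1 := inv_eq_of_mul_eq_one_right z.2.1
  simp [lh_apply, dh_apply, dgG, ← smul_one_eq_diagonal, smul_mulVec, Prod.ext_iff, hz]

theorem tv_ev (i : ι) {a : F} (ha : a + star a = 0) :
    HS.tv (ev_iso F i) ha = qh (HQ.skw _ (skew_single_self i ha)) := HS.ext fun x => by
  simp [HS.tv_apply, qh_apply, HQ.skw, mh_h, ev, Prod.ext_iff, single_mulVec, funext_iff,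
    Pi.single_apply, Function.update_apply, mul_comm]

theorem wv_skw_wv {i j : ι} (h : i ≠ j) (c : F) :
    wv F j * qh (HQ.skw _ (skew_single i j c)) * wv F j = lh (tvG h c) := HS.ext fun x => by
  simp only [HS.mul_apply, wv_apply, qh_apply, lh_apply, HQ.skw, tvG, Units.inv_mk, transvection,
    conjTranspose_add, conjTranspose_single, sub_mulVec, add_mulVec, single_mulVec]
  refine Prod.ext (funext fun k => ?_) (Prod.ext (by simp) (funext fun k => ?_)) <;>
    simp [Function.update_apply, h, h.symm] <;> split_ifs <;> simp_all [sub_eq_add_neg]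

theorem wv_dgG (i : ι) (D : ι → Fˣ) :
    wv F i * lh (dgG D) = lh (dgG (Function.update D i (star (D i))⁻¹)) * wv F i := HS.ext fun x => by
  simp only [HS.mul_apply, wv_apply, lh_apply, dgG, Units.inv_mk, diagonal_conjTranspose]
  refine Prod.ext (funext fun k => ?_) (Prod.ext (by simp) (funext fun k => ?_)) <;>
    simp [Function.update_apply, mulVec_diagonal] <;> split_ifs <;> simp_all

theorem pmG_wv (σ : Equiv.Perm ι) (i : ι) :
    lh (pmG σ) * wv F i = wv F (σ i) * lh (pmG σ) := HS.ext fun x => by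
  simp only [HS.mul_apply, wv_apply, lh_apply, pmG, Units.inv_mk, conjTranspose_permMatrix,
    permMatrix_mulVec]
  refine Prod.ext (funext fun k => ?_) (Prod.ext (by simp) (funext fun k => ?_)) <;>
    simp [Function.update_apply, Equiv.symm_apply_eq]

theorem mulVec_update {i : ι} {A : Matrix ι ι F} (h1 : ∀ k, A k i = (1 : Matrix ι ι F) k i)
    (h2 : ∀ k, A i k = (1 : Matrix ι ι F) i k) (x : ι → F) (s : F) :
    A *ᵥ Function.update x i s = Function.update (A *ᵥ x) i s := by
  have h3 : A *ᵥ Pi.single i 1 = Pi.single i 1 := by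
    ext k; simp [h1, one_apply, Pi.single_apply]
  have h4 : (A *ᵥ x) i = x i := by simp [mulVec, dotProduct, h2, one_apply]
  have h5 : ∀ y : ι → F, Function.update y i s = y + (s - y i) • Pi.single i 1 := fun y => by
    ext k; by_cases h : k = i <;> simp [h]
  rw [h5, h5, mulVec_add, mulVec_smul, h3, h4]

theorem inv_col {i : ι} {A : GL ι F} (h1 : ∀ k, A.1 k i = (1 : Matrix ι ι F) k i) (k : ι) :
    (A⁻¹).1 k i = (1 : Matrix ι ι F) k i := by
  rw [← A.inv_mul, mul_apply]; simp [h1, one_apply]

theorem inv_row {i : ι} {A : GL ι F} (h1 : ∀ k, A.1 i k = (1 : Matrix ι ι F) i k) (k : ι) :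
    (A⁻¹).1 i k = (1 : Matrix ι ι F) i k := by
  rw [← A.mul_inv, mul_apply]; simp [h1, one_apply]

/-- `w_i` commutes with the elements of `GL(U)` that fix `e_i` and `e_i^*` -/
theorem wv_lh (i : ι) (A : GL ι F) (h1 : ∀ k, A.1 k i = (1 : Matrix ι ι F) k i)
    (h2 : ∀ k, A.1 i k = (1 : Matrix ι ι F) i k) : Commute (wv F i) (lh A) := HS.ext fun x => by
  have h3 : ∀ k, (A⁻¹).1ᴴ k i = (1 : Matrix ι ι F) k i := fun k => by
    rw [conjTranspose_apply, inv_row h2, ← conjTranspose_apply, conjTranspose_one]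
  have h4 : ∀ k, (A⁻¹).1ᴴ i k = (1 : Matrix ι ι F) i k := fun k => by
    rw [conjTranspose_apply, inv_col h1, ← conjTranspose_apply, conjTranspose_one]
  have h5 : (A.1 *ᵥ x.1) i = x.1 i := by simp [mulVec, dotProduct, h2, one_apply]
  have h6 : ((A⁻¹).1ᴴ *ᵥ x.2.2) i = x.2.2 i := by simp only [mulVec, dotProduct, h4]; simp [one_apply]
  simp only [HS.mul_apply, wv_apply, lh_apply, mulVec_update h1 h2, mulVec_update h3 h4, h5, h6]

/-- the unitary element `ā / a` -/
def uq {a : F} (a0 : a ≠ 0) : unitary F :=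
  ⟨star a / a, by
    have := star_ne_zero.2 a0
    constructor <;> rw [star_div₀, star_star] <;> field_simp⟩

theorem rt_rel₁ {y a : F} (h : a + star a + y * star y = 0) (a0 : a ≠ 0) :
    a⁻¹ + star a⁻¹ + (-y / star a) * star (-y / star a) = 0 := by
  have := star_ne_zero.2 a0
  simp only [star_inv₀, star_div₀, star_neg, star_star]
  field_simp
  linear_combination h

theorem rt_rel₂ {y a : F} (h : a + star a + y * star y = 0) (a0 : a ≠ 0) :
    a⁻¹ + star a⁻¹ + (-y / a) * star (-y / a) = 0 := by
  have := star_ne_zero.2 a0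
  simp only [star_inv₀, star_div₀, star_neg]
  field_simp
  linear_combination h

/-- the big cell relation -/
theorem wv_rt_wv (i : ι) {y a : F} (h : a + star a + y * star y = 0) (a0 : a ≠ 0) :
    wv F i * qh (HQ.rt i y a h) * wv F i = qh (HQ.rt i _ _ (rt_rel₁ h a0)) *
      (lh (dgG (Function.update 1 i (star (Units.mk0 a a0))⁻¹)) * dh ι (uq a0) * wv F i) *
        qh (HQ.rt i _ _ (rt_rel₂ h a0)) := HS.ext fun x => by
  have a1 := star_ne_zero.2 a0
  simp only [HS.mul_apply, wv_apply, qh_apply, lh_apply, dh_apply, HQ.rt, dgG, Units.inv_mk,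
    diagonal_conjTranspose, single_mulVec, uq, ← Pi.single_star, dotProduct_single]
  refine Prod.ext (funext fun k => ?_) (Prod.ext ?_ (funext fun k => ?_))
  · by_cases hk : k = i
    · simp [mulVec_diagonal, hk]
      field_simp
      linear_combination (-x.2.2 i) * h
    · simp [mulVec_diagonal, hk]
  · simp [mulVec_diagonal]
    field_simp
    linear_combination (x.2.1) * h
  · by_cases hk : k = i
    · simp [mulVec_diagonal, hk]
      field_simp
      ring
    · simp [mulVec_diagonal, hk]

/-- every `a` occurs -/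
theorem exists_rt [Fintype F] (q : ℕ) [UF F q] (a : F) : ∃ y, a + star a + y * star y = 0 := by
  obtain ⟨y, hy⟩ := exists_norm q (s := -(a + star a)) (by rw [star_neg, star_add, star_star, add_comm])
  exact ⟨y, by rw [hy, add_neg_cancel]⟩

end Cfsg.Uni
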