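import Cfsg.Agent.Uni.ThreeA
import Cfsg.Agent.Uni.Mod
import Cfsg.Agent.Uni.Par
import Cfsg.Agent.Uni.AsmA

/-! `StThree`: the characters of `PGU₃(q)` without fixed vectors for a transvection group. -/

set_option autoImplicit false

namespace Cfsg.Uni.Three

open Module Matrix Finset
open scoped Classical

universe u

variable {F : Type u} [Field F] [StarRing F]

/-- coordinates -/
def vc (a b c : F) : MV F Unit := (fun _ => a, b, fun _ => c)

omit [StarRing F] in
theorem mk_add (a b c a' b' c' : F) : vc a b c + vc a' b' c' = vc (a + a') (b + b') (c + c') := rfl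

omit [StarRing F] in
theorem mk_sub (a b c a' b' c' : F) : vc a b c - vc a' b' c' = vc (a - a') (b - b') (c - c') := rfl

omit [StarRing F] in
theorem mk_smul (r a b c : F) : r • vc a b c = vc (r * a) (r * b) (r * c) := rfl

omit [Field F] [StarRing F] in
theorem mk_inj {a b c a' b' c' : F} : vc a b c = vc a' b' c' ↔ a = a' ∧ b = b' ∧ c = c' :=
  ⟨fun h => ⟨congrArg (·.1 ()) h, congrArg (·.2.1) h, congrArg (·.2.2 ()) h⟩,
    fun ⟨h1, h2, h3⟩ => by rw [h1, h2, h3]⟩

theorem ext_mk {g g' : Γ F Unit} (h : ∀ a b c, g.1 (vc a b c) = g'.1 (vc a b c)) : g = g' :=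
  HS.ext fun x => h (x.1 ()) x.2.1 (x.2.2 ())

omit [StarRing F] in
theorem li_mk {a b c a' b' c' a'' b'' c'' : F}
    (h : a * (b' * c'' - b'' * c') - a' * (b * c'' - b'' * c) + a'' * (b * c' - b' * c) ≠ 0) :
    LinearIndependent F ![vc a b c, vc a' b' c', vc a'' b'' c''] := by
  refine Fintype.linearIndependent_iff.2 fun r hr i => mul_right_cancel₀ h ?_
  simp only [Fin.sum_univ_three, Matrix.cons_val, mk_smul, mk_add] at hr
  obtain ⟨A, B, C⟩ := (mk_inj (F := F) (a' := 0) (b' := 0) (c' := 0)).1 hr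
  fin_cases i
  · change r 0 * _ = _
    linear_combination (b' * c'' - b'' * c') * A - (a' * c'' - a'' * c') * B + (a' * b'' - a'' * b') * C
  · change r 1 * _ = _
    linear_combination -(b * c'' - b'' * c) * A + (a * c'' - a'' * c) * B - (a * b'' - a'' * b) * C
  · change r 2 * _ = _
    linear_combination (b * c' - b' * c) * A - (a * c' - a' * c) * B + (a * b' - a' * b) * C

theorem wv_mk (a b c : F) : (wv F ()).1 (vc a b c) = vc c (-b) a := by
  simp [wv_apply, vc, funext_iff]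

theorem qh_mk (p : HQ F Unit) (a b c : F) :
    (qh p).1 (vc a b c) = vc (a + b * p.y () + p.S () () * c) (b - c * star (p.y ())) c := by
  simp [qh_apply, vc, funext_iff, mulVec, dotProduct]

theorem lh_mk (α : Fˣ) (a b c : F) :
    (lh (dgG fun _ : Unit => α)).1 (vc a b c) = vc (α * a) b ((star α.1)⁻¹ * c) := by
  simp [lh_apply, vc, funext_iff, mulVec, dotProduct, dgG]

theorem dh_mk (z : unitary F) (a b c : F) : (dh Unit z).1 (vc a b c) = vc a (z * b) c := rfl

/-- the transvection group -/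
def xh : Multiplicative (sk F) →* HQ F Unit where
  toFun a := HQ.skw _ (skew_single_self () a.toAdd.2)
  map_one' := HQ.ext rfl (by simp [HQ.skw])
  map_mul' a b := HQ.ext (by simp [HQ.skw]) (by simp [HQ.skw, single_add])

theorem xh_mk (s : sk F) (a b c : F) :
    (qh (xh (.ofAdd s))).1 (vc a b c) = vc (a + s * c) b c := by
  simp [qh_mk, xh, HQ.skw]

theorem eq_dgG (A : GL Unit F) : A = dgG fun _ => GeneralLinearGroup.det A :=
  Units.ext (Matrix.ext fun _ _ => by simp [dgG])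

/-- the big cell -/
noncomputable def gm (p : HQ F Unit) (α : Fˣ) (z : unitary F) : Γ F Unit :=
  wv F () * (qh p * lh (dgG fun _ => α) * dh Unit z)

theorem gm_mk (p : HQ F Unit) (α : Fˣ) (z : unitary F) (a b c : F) : (gm p α z).1 (vc a b c) =
    vc ((star α.1)⁻¹ * c) ((star α.1)⁻¹ * c * star (p.y ()) - z * b)
      (α * a + z * b * p.y () + p.S () () * ((star α.1)⁻¹ * c)) := by
  simp only [gm, HS.mul_apply, dh_mk, lh_mk, qh_mk, wv_mk, neg_sub]

/-- multiplication by a norm -/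
def nm (α : F) (s : sk F) : sk F := ⟨α * star α * s, by
  have : s.1 + star s.1 = 0 := s.2
  change _ + _ = (0 : F)
  simp only [star_mul', star_star]
  linear_combination α * star α * this⟩

theorem gm_xh (p : HQ F Unit) (α : Fˣ) (z : unitary F) (s : sk F) :
    gm p α z * qh (xh (.ofAdd s)) = gm (p * xh (.ofAdd (nm α.1 s))) α z := ext_mk fun a b c => by
  have := star_ne_zero.2 α.ne_zero
  simp only [HS.mul_apply, xh_mk, gm_mk, mk_inj]
  simp [xh, HQ.skw, nm]
  field_simp
  ring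

theorem sc_gm (p : HQ F Unit) (α : Fˣ) (z w : unitary F) :
    (mh F Unit).sc w * gm p α z = gm p (Unitary.toUnits w * α) (w * z) := ext_mk fun a b c => by
  have : (star w.1)⁻¹ = w := inv_eq_of_mul_eq_one_right w.2.1
  simp only [HS.mul_apply, HS.sc_apply, gm_mk, mk_smul, mk_inj, Units.val_mul, star_mul',
    Unitary.val_toUnits_apply, mul_inv, this, Submonoid.coe_mul]
  refine ⟨?_, ?_, ?_⟩ <;> ring

theorem gm_poly (p : HQ F Unit) (α : Fˣ) (x : MV F Unit) :
    letI g := gm p α (uq α.ne_zero)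
    letI τ := p.S () () / star α.1 - star α.1 / α
    g.1 (g.1 (g.1 x)) = x - star τ • g.1 x + τ • g.1 (g.1 x) := by
  have h0 := α.ne_zero
  have h1 := star_ne_zero.2 h0
  have h2 : star (p.S () ()) = -p.S () () - p.y () * star (p.y ()) := by
    have := congrFun (congrFun p.rel ()) ()
    simp only [Matrix.add_apply, conjTranspose_apply, vecMulVec_apply, Pi.star_apply,
      Matrix.zero_apply] at this
    linear_combination this
  obtain ⟨a, b, c, rfl⟩ : ∃ a b c, x = vc a b c := ⟨x.1 (), x.2.1, x.2.2 (), rfl⟩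
  simp only [gm_mk, mk_smul, mk_sub, mk_add, mk_inj, uq, star_sub, star_div₀, star_star, h2]
  refine ⟨?_, ?_, ?_⟩ <;> field_simp <;> ring

theorem reg_gm (p : HQ F Unit) (α : Fˣ) (h : p.y () ≠ 0 ∨
    p.y () = 0 ∧ α * (α / star α.1 - (star α.1 / α) ^ 2) - p.S () () ≠ 0) :
    Reg (mh F Unit) (gm p α (uq α.ne_zero)) (p.S () () / star α.1 - star α.1 / α) := by
  have h0 := α.ne_zero
  have h1 := star_ne_zero.2 h0
  refine ⟨h.elim (fun h => ⟨vc 1 0 0, ?_⟩) fun ⟨h, h'⟩ => ⟨vc 1 1 0, ?_⟩, gm_poly p α⟩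
  · simp only [gm_mk]
    exact li_mk (by simp [h])
  · simp only [gm_mk, h, uq, star_zero]
    refine li_mk ?_
    convert h' using 1
    field_simp
    ring

variable [Fintype F] (q : ℕ) [UF F q]

/-- class functions killed by the transvection group -/
structure VF (f : Γ F Unit → ℂ) : Prop where
  cl : IsClassFunction _ f
  sc : ∀ z g, f ((mh F Unit).sc z * g) = f g
  tv : ∀ g, ∑ s : sk F, f (g * qh (xh (.ofAdd s))) = 0

theorem VF.zero_of {f : Γ F Unit → ℂ} (h : VF f) {g : Γ F Unit}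
    (h0 : ∀ s : sk F, s ≠ 0 → f (g * qh (xh (.ofAdd s))) = 0) : f g = 0 := by
  have := h.tv g
  rwa [sum_eq_single 0 (fun s _ => h0 s) (by simp), ofAdd_zero, map_one, map_one, mul_one] at this

theorem VF.eq_zero (h3 : Nat.Coprime 3 (q + 1)) {f : Γ F Unit → ℂ} (h : VF f)
    (hr : ∀ g τ, Reg (mh F Unit) g τ → f g = 0) (g : Γ F Unit) : f g = 0 := by
  have h1 : ∀ p α, f (gm p α (uq α.ne_zero)) = 0 := fun p α => by
    by_cases e : p.y () = 0 ∧ α * (α / star α.1 - (star α.1 / α) ^ 2) - p.S () () = 0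
    · refine h.zero_of fun s hs => ?_
      rw [gm_xh]
      exact hr _ _ (reg_gm _ α (.inr ⟨by simp [xh, HQ.skw, e.1], by
        simpa [xh, HQ.skw, nm, ← sub_sub, e.2] using hs⟩))
    · exact hr _ _ (reg_gm _ α (by tauto))
  have h2 : ∀ p α z, f (gm p α z) = 0 := fun p α z => by
    obtain ⟨w, hw⟩ := (powCoprime (G := unitary F) (card_unitary F q ▸ h3.symm)).surjective
      (uq α.ne_zero * z⁻¹)
    rw [powCoprime_apply, eq_mul_inv_iff_mul_eq] at hw
    rw [← h.sc w, sc_gm, ← h1 p (Unitary.toUnits w * α)]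
    congr 2
    have h4 : w.1 ^ 3 * z = star α.1 / α := congrArg Subtype.val hw
    have h5 : star w.1 * w = 1 := w.2.1
    refine Subtype.ext (eq_div_of_mul_eq (Units.ne_zero _) ?_)
    rw [eq_div_iff α.ne_zero] at h4
    simp only [Submonoid.coe_mul, Units.val_mul, Unitary.val_toUnits_apply, star_mul']
    linear_combination star w.1 * h4 - w.1 ^ 2 * z * α * h5
  have h4 : ∀ g : Γ F Unit, (g.1 (vc 1 0 0)).2.2 () ≠ 0 → f g = 0 := fun g hg => by
    obtain ⟨r, hr⟩ := D.q_move (g.1 (vc 1 0 0)) (fun _ => ((g.1 (vc 1 0 0)).2.2 ())⁻¹)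
      (by simp [dotProduct, hg]) 0 (by rw [HS.iso]; simp [mh_h, vc])
    obtain ⟨p, A, z, e⟩ := D.par (wv F () * ((qh r)⁻¹ * g * qh r)) fun u => by
      rw [show ((u, 0, 0) : MV F Unit) = u () • vc 1 0 0 by simp [vc, funext_iff], map_smul,
        HS.mul_apply, HS.mul_apply, HS.mul_apply, qh_mk, zero_mul, mul_zero, zero_mul, add_zero,
        add_zero, sub_zero, ← hr, HS.inv_apply_apply]
      simp [wv_apply, funext_iff]
    rw [← h.cl g (qh r)⁻¹, inv_inv, ← h2 p (GeneralLinearGroup.det A) z, gm, ← eq_dgG, ← e,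
      ← mul_assoc (wv F ()), wv_wv, one_mul]
  have h5 : ∀ g : Γ F Unit, (g.1 (vc 0 0 1)).1 () ≠ 0 → f g = 0 := fun g hg => by
    rw [← h.cl g (wv F ()), inv_eq_of_mul_eq_one_right (wv_wv ())]
    exact h4 _ (by rw [HS.mul_apply, HS.mul_apply, wv_mk, neg_zero, wv_apply]; simpa using hg)
  by_cases e : (g.1 (vc 1 0 0)).2.2 () = 0
  swap
  · exact h4 g e
  by_cases e' : (g.1 (vc 0 0 1)).1 () = 0
  swap
  · exact h5 g e'
  refine h.zero_of fun s hs => h5 _ ?_
  have h6 := (mh F Unit).iso g (vc 1 0 0) (vc 0 0 1)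
  rw [HS.mul_apply, xh_mk, show vc (0 + s.1 * 1) 0 1 = vc 0 0 1 + s.1 • vc 1 0 0 by
    simp [mk_smul, mk_add], map_add, map_smul]
  have h7 := (mh F Unit).iso g (vc 1 0 0) (vc 1 0 0)
  simp only [mh_h, dotProduct, univ_unique, sum_singleton, Pi.star_apply] at h6 h7
  intro e''
  simp only [Prod.fst_add, Prod.smul_fst, Pi.add_apply, Pi.smul_apply, e', zero_add, smul_eq_mul,
    mul_eq_zero, ZeroMemClass.coe_eq_zero, hs, false_or] at e''
  simp only [PUnit.default_eq_unit, e, e''] at h6 h7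
  simp [vc] at h7
  simp [vc, h7] at h6

include q in
theorem radon (Φ : F → ℂ) (h : ∀ α : F, α ≠ 0 → ∃ τ₀ : F, ∀ τ : F, (∀ s : sk F, τ₀ + α * s ≠ τ) →
    ∑ s : sk F, Φ (τ + α * s) = 0) (h0 : ∑ τ, Φ τ = 0) (τ : F) : Φ τ = 0 := by
  have hq : (q : ℂ) ≠ 0 := by exact_mod_cast (two_pos.trans_le (two_le_q F q)).ne'
  have hq' : (q : ℂ) - 1 ≠ 0 := sub_ne_zero.2 (by exact_mod_cast (ne_of_gt (two_le_q F q)))
  have hc : Fintype.card (sk F) = q := (Nat.card_eq_fintype_card).symm.trans (card_skew F q)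
  have h1 : ∀ α : F, α ≠ 0 → ∑ s : sk F, Φ (τ + α * s) = 0 := fun α hα => by
    obtain ⟨τ₀, h⟩ := h α hα
    by_contra e
    obtain ⟨s₀, rfl⟩ : ∃ s : sk F, τ₀ + α * s = τ := by_contra fun e' => e (h τ (by simpa using e'))
    have h2 := Fintype.sum_of_injective (fun s : sk F => τ₀ + α * s) (fun s s' e => by simpa [hα] using e)
      (fun _ => ∑ s : sk F, Φ (τ₀ + α * s₀ + α * s)) (fun τ => ∑ s : sk F, Φ (τ + α * s))
      (fun τ hτ => h τ (by simpa using hτ)) fun s =>
        Fintype.sum_equiv (Equiv.addLeft (s₀ - s)) _ _ fun t => by simp; ring_nf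
    rw [sum_const, sum_comm, card_univ, hc, nsmul_eq_mul] at h2
    exact e ((mul_eq_zero.1 (h2.trans (sum_eq_zero fun s _ =>
      (Equiv.sum_comp (Equiv.addRight (α * s.1)) Φ).trans h0))).resolve_left hq)
  have h2 : ∑ α, ∑ s : sk F, Φ (τ + α * s) = q * Φ τ := by
    rw [sum_eq_single 0 (fun α _ => h1 α) (by simp)]
    simp [hc]
  rw [sum_comm, sum_eq_single 0 (fun s _ hs => (Equiv.sum_comp ((Equiv.mulRight₀ s.1
    (by simpa using hs)).trans (Equiv.addLeft τ)) Φ).trans h0) (by simp)] at h2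
  simp only [ZeroMemClass.coe_zero, mul_zero, add_zero, sum_const, card_univ, UF.card (F := F),
    nsmul_eq_mul, Nat.cast_pow] at h2
  exact mul_left_cancel₀ (mul_ne_zero hq hq') (by linear_combination h2)

/-- a regular element with trace `τ` -/
noncomputable def rp (τ : F) : Γ F Unit := if h : ∃ g, Reg (mh F Unit) g τ then h.choose else 1

theorem VF.eq_zero' (h3 : Nat.Coprime 3 (q + 1)) {f : Γ F Unit → ℂ} (h : VF f)
    (h0 : ∑ τ, f (rp τ) = 0) (g : Γ F Unit) : f g = 0 := by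
  have hq : 3 ≤ q := by
    by_contra e
    obtain rfl : q = 2 := by have := two_le_q F q; omega
    norm_num at h3
  have h1 : ∀ g τ, Reg (mh F Unit) g τ → f g = f (rp τ) := fun g τ hg => by
    have e : ∃ g, Reg (mh F Unit) g τ := ⟨g, hg⟩
    rw [rp, dif_pos e]
    exact h.cl.eq_of_isConj (hg.conj q (by simp [finrank_prod]) hq e.choose_spec)
  refine h.eq_zero q h3 (fun g τ hg => (h1 g τ hg).trans (radon q (fun τ => f (rp τ))
    (fun α hα => ⟨-(star α / α), fun τ hτ => ?_⟩) h0 τ)) g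
  have hα' := star_ne_zero.2 hα
  obtain ⟨y, hy⟩ := exists_rt q (star α * (τ + star α / α))
  have y0 : y ≠ 0 := fun e => hτ (nm α⁻¹ ⟨star α * (τ + star α / α), by
    rwa [e, zero_mul, add_zero] at hy⟩) (by
    simp only [nm, star_inv₀]; field_simp; ring)
  rw [← h.tv (gm (HQ.rt () y _ hy) (Units.mk0 α hα) (uq hα))]
  refine sum_congr rfl fun s _ => ?_
  rw [gm_xh]
  refine Eq.trans ?_ (h1 _ _ (reg_gm _ _ (.inl (by simpa [xh, HQ.skw, HQ.rt] using y0)))).symm
  congr 2
  simp [xh, HQ.skw, HQ.rt, nm]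
  field_simp
  ring

omit [Fintype F] in
theorem tsum_eq (χ : Γ F Unit → ℂ) : tsum χ () = ∑ᶠ s, χ ((qh.comp xh) s) := by
  simp only [tsum, tv_ev]; rfl

theorem vf_of (χ : IrrCharacter (Γ F Unit)) (hz : ZT χ) (h : tsum χ.1 () = 0) : VF χ.1 := by
  refine ⟨χ.isClassFunction, fun z => apply_mul_of_mem_charKer (χ.mem_charKer.2 (hz z)), fun g => ?_⟩
  obtain ⟨n, ρ, e⟩ := χ.isCharacter
  rw [tsum_eq, ← e, ← not_ne_iff, finsum_ne_zero_iff] at h
  have h1 : ∑ s : sk F, ρ (qh (xh (.ofAdd s))) = 0 := LinearMap.ext fun v => by_contra fun hv =>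
    h ⟨_, hv, fun s => by
      rw [← End.mul_apply, mul_sum]
      exact LinearMap.congr_fun (Fintype.sum_equiv (Equiv.addLeft s.toAdd) _ _ fun t => by
        simp [ofAdd_add]) v⟩
  simp only [← e, Representation.character, map_mul]
  rw [← map_sum, ← mul_sum, h1, mul_zero, map_zero]

end Cfsg.Uni.Three

namespace Cfsg.Uni

open Three

universe u

theorem stThree (F : Type u) [Field F] [StarRing F] [Fintype F] (q : ℕ) [UF F q] : StThree F q := by
  intro h3 χ χ' hz hz' h h'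
  have := Fintype.ofFinite (Γ F Unit)
  have v := vf_of χ hz h
  have v' := vf_of χ' hz' h'
  by_contra hne
  have h1 : VF ((∑ τ, χ'.1 (rp τ)) • χ.1 - (∑ τ, χ.1 (rp τ)) • χ'.1) :=
    ⟨(v.cl.smul _).sub (v'.cl.smul _), fun z g => by simp [v.sc, v'.sc], fun g => by
      simp [← Finset.mul_sum, v.tv, v'.tv]⟩
  have h2 := congrArg (classInner · χ.1) (funext (h1.eq_zero' q h3 (by
    simp only [Pi.sub_apply, Pi.smul_apply, smul_eq_mul, Finset.sum_sub_distrib, ← Finset.mul_sum]
    ring)))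
  simp only [classInner_sub_left, classInner_smul_left, χ.classInner_self, mul_one,
    IrrCharacter.classInner_of_ne (Ne.symm hne), mul_zero, sub_zero] at h2
  exact χ'.one_ne_zero (v'.eq_zero' q h3 (h2.trans (classInner_zero_left _)) 1)

end Cfsg.Uni
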