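import Cfsg.Agent.Uni.Three
import Cfsg.Agent.Uni.Orb

/-! `StThreeB`: small characters in dimension three. -/

set_option autoImplicit false

namespace Cfsg.Uni.Three

open Module Matrix Finset
open scoped Classical ComplexConjugate

universe u v

theorem proj_mul {G : Type u} [Group G] {μ : Type v} [CommGroup μ] [Fintype μ] (s : μ →* G)
    (ω : G → ℂ) (γ : μ →* ℂˣ) (u : μ) (g : G) : proj s ω γ (s u * g) = γ u * proj s ω γ g := by
  simp only [proj, mul_sum]
  refine Fintype.sum_equiv (Equiv.mulRight u) _ _ fun z => ?_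
  simp only [Equiv.coe_mulRight, mul_inv, map_mul, map_inv, Units.val_mul, Units.val_inv_eq_inv_val,
    mul_assoc]
  field_simp

theorem proj_one {G : Type u} [Group G] {μ : Type v} [CommGroup μ] [Fintype μ] (s : μ →* G)
    (ω : G → ℂ) (γ : μ →* ℂˣ) {c : ℂ} (h : ∀ z, z ≠ 1 → ω (s z) = c) :
    Nat.card μ * proj s ω γ 1 = ω 1 - c + if γ = 1 then Nat.card μ * c else 0 := by
  have h0 : (Nat.card μ : ℂ) ≠ 0 := by exact_mod_cast Nat.card_pos.ne'
  have := sum_hom γ
  rw [← Equiv.sum_comp (Equiv.inv _)] at this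
  simp only [Equiv.inv_apply] at this
  rw [proj, mul_inv_cancel_left₀ h0, sum_congr rfl
    (g := fun z => (γ z⁻¹ : ℂ) * c + if z = 1 then ω 1 - c else 0) fun z _ => by
      split_ifs with e <;> simp [e, h z], sum_add_distrib, ← sum_mul, this]
  split_ifs <;> simp [add_comm]

variable {F : Type u} [Field F] [StarRing F] [Fintype F] (q : ℕ) [UF F q]

instance : Finite (HQ F Unit) :=
  Finite.of_injective (fun p : HQ F Unit => (p.y, p.S)) fun _ _ e =>
    HQ.ext (congrArg Prod.fst e) (congrArg Prod.snd e)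

omit [Fintype F] in
theorem hq_ext {p r : HQ F Unit} (h : p.y () = r.y ()) (h' : p.S () () = r.S () ()) : p = r :=
  HQ.ext (funext fun _ => h) (Matrix.ext fun _ _ => h')

include q in
theorem exists_y (y : F) : ∃ p : HQ F Unit, p.y () = y :=
  let ⟨a, ha⟩ := exists_trace q (s := -(y * star y)) (by simp [mul_comm])
  ⟨HQ.rt () y a (by rw [ha, neg_add_cancel]), by simp [HQ.rt]⟩

theorem card_sk : Nat.card (Multiplicative (sk F)) = q := card_skew F q

theorem deg_le {θ : HQ F Unit → ℂ} (h : IsCharacter _ θ) {γ : Multiplicative (sk F) →* ℂˣ}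
    (hγ : γ ≠ 1) (hθ : ∀ s p, θ (xh s * p) = γ s * θ p) (h0 : θ 1 ≠ 0) : q ≤ charDegree θ := by
  have := Fintype.ofFinite (HQ F Unit)
  obtain ⟨s, hs⟩ := DFunLike.ne_iff.1 hγ
  obtain ⟨c, hc⟩ := exists_trace q (star_one F)
  have h1 : ∀ p, p ∉ Set.range (xh (F := F)) → θ p * conj (θ p) = 0 := fun p hp => by
    have y0 : p.y () ≠ 0 := fun e => hp ⟨.ofAdd ⟨p.S () (), show _ + _ = (0 : F) by
      simpa [vecMulVec_apply, e] using congrFun (congrFun p.rel ()) ()⟩,
      hq_ext (by simp [xh, HQ.skw, e]) (by simp [xh, HQ.skw])⟩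
    obtain ⟨r, hr⟩ := exists_y q (star (c * s.toAdd / p.y ()))
    have h2 := h.isClassFunction p r
    rw [show r * p = xh s * p * r from hq_ext (by simp [xh, HQ.skw, add_comm]) (by
      have h3 : star s.toAdd.1 = -s.toAdd.1 := eq_neg_of_add_eq_zero_right s.toAdd.2
      have := star_ne_zero.2 y0
      simp [xh, HQ.skw, vecMulVec_apply, hr, h3]
      field_simp
      linear_combination s.toAdd.1 * hc), mul_inv_cancel_right, hθ] at h2
    rw [(mul_left_eq_self₀.1 h2).resolve_left (by simpa using hs), zero_mul]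
  have h2 := Fintype.sum_of_injective xh (fun s s' e => by
    simpa [xh, HQ.skw] using congrArg (·.S () ()) e) (fun _ => (charDegree θ : ℂ) ^ 2) _ h1 fun s => by
      have h3 := (isCharacter_unitsHom γ).apply_inv s
      rw [← mul_one (xh s), hθ, map_mul, ← h3, h.one_eq_charDegree, map_natCast, map_inv,
        Units.val_inv_eq_inv_val]
      field_simp
  obtain ⟨m, hm⟩ := h.exists_classInner_eq_nat h
  have m0 : m ≠ 0 := fun e => h0 (by
    rw [e, Nat.cast_zero, classInner_self_eq_zero] at hm; rw [hm, Pi.zero_apply])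
  rw [classInner_def, ← h2, inv_mul_eq_iff_eq_mul₀ (by exact_mod_cast Nat.card_pos.ne'), sum_const,
    card_univ, ← Nat.card_eq_fintype_card, card_sk q, nsmul_eq_mul] at hm
  choose r hr using exists_y (F := F) q
  have h3 := Nat.card_le_card_of_injective (fun x : F × Multiplicative (sk F) => r x.1 * xh x.2)
    fun x x' e => by
      have e1 : x.1 = x'.1 := by simpa [xh, HQ.skw, hr] using congrArg (·.y ()) e
      refine Prod.ext e1 ?_
      simpa [xh, HQ.skw, e1] using congrArg (·.S () ()) e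
  rw [Nat.card_prod, card_sk q, Nat.card_eq_fintype_card, UF.card (F := F)] at h3
  have h4 : q * charDegree θ ^ 2 = Nat.card (HQ F Unit) * m := by exact_mod_cast hm
  refine (Nat.pow_le_pow_iff_left two_ne_zero).1 (Nat.le_of_mul_le_mul_left ?_
    (two_pos.trans_le (two_le_q F q)))
  rw [h4, mul_comm]
  exact h3.trans (Nat.le_mul_of_pos_right _ (Nat.pos_of_ne_zero m0))

include q in
theorem fix_Q {ψ : AddChar F ℂ} (hψ : Psi ψ) {M : Type} [AddCommGroup M] [Module ℂ M]
    {ρ : Representation ℂ (Γ F Unit) M} (hr : RankOne ψ ρ) {v : M}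
    (hv : ∀ s, ρ (qh (xh s)) v = v) (p : HQ F Unit) : ρ (qh p) v = v := by
  have h1 : ⊤ ≤ (wt ψ ρ 0).comap (∑ s : sk F, ρ (qh (xh (.ofAdd s)))) := by
    rw [← hr]
    refine iSup_le fun φ m hm => ?_
    have h2 := hψ.sum_skew q (t := φ () * star (φ ())) (by simp [mul_comm])
    rw [Submodule.mem_comap, LinearMap.sum_apply, sum_congr rfl
      (g := fun s : sk F => ψ (φ () * star (φ ()) * s) • m) fun s _ => (hm _ (by
        simp [xh, HQ.skw])).trans (by simp [xh, HQ.skw, dotProduct, mulVec, mul_right_comm, mul_assoc]),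
      ← sum_smul]
    erw [h2]
    split_ifs with e
    · exact Submodule.smul_mem _ _ (by rwa [show φ = 0 from funext fun _ => D.mul_star_eq_zero e] at hm)
    · simp
  have h2 := h1 (Submodule.mem_top (x := v)) p (by simp)
  simp only [LinearMap.sum_apply, hv, sum_const, zero_dotProduct, AddChar.map_zero_eq_one, one_smul,
    ← Nat.cast_smul_eq_nsmul ℂ, map_smul] at h2
  exact smul_right_injective M (by exact_mod_cast Fintype.card_ne_zero) h2

omit [Field F] [StarRing F] [Fintype F] in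
theorem exists_vc (x : MV F Unit) : ∃ a b c, x = vc a b c := ⟨x.1 (), x.2.1, x.2.2 (), rfl⟩

omit [Fintype F] in
theorem cent_le {x : HQ F Unit} (hx : x.y () = 1) {g : Γ F Unit} (hg : g * qh x = qh x * g) :
    ∃ p z, g = qh p * (mh F Unit).sc z := by
  obtain ⟨p, A, z, rfl⟩ := D.par g fun u => by
    have h1 := congrArg (·.1 (vc (u ()) 0 0)) hg
    change (g.1 (vc (u ()) 0 0)).2 = 0
    simp only [HS.mul_apply, qh_mk, zero_mul, mul_zero, add_zero, sub_zero] at h1
    obtain ⟨a, b, c, e⟩ : ∃ a b c, g.1 (vc (u ()) 0 0) = vc a b c := exists_vc _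
    rw [e, qh_mk, hx, mk_inj] at h1
    obtain rfl : c = 0 := by simpa [eq_sub_iff_add_eq] using h1.2.1
    obtain rfl : b = 0 := by simpa using h1.1
    rw [e]; rfl
  have h1 := congrArg (·.1 (vc 0 1 0)) hg
  rw [eq_dgG A] at h1 ⊢
  simp only [HS.mul_apply, qh_mk, lh_mk, dh_mk, hx, mk_inj] at h1
  exact ⟨p, z, by rw [sc_eq, mul_assoc, show GeneralLinearGroup.det A = Unitary.toUnits z from
    Units.ext (by simpa [add_comm (z.1 * _)] using h1.1)]⟩

end Cfsg.Uni.Three

namespace Cfsg.Uni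

open Three
open scoped Classical

universe u

theorem stThreeB (F : Type u) [Field F] [StarRing F] [Fintype F] (q : ℕ) [UF F q] :
    StThreeB F q := by
  intro h3 ψ hψ χ ⟨h0, hz, n, ρ, e, hr⟩
  refine or_iff_not_imp_left.2 fun ht => ⟨?_, ?_⟩
  · have hq := two_le_q F q
    obtain ⟨γ, hγ⟩ := Fintype.exists_ne_of_one_lt_card (α := Multiplicative (sk F) →* ℂˣ)
      (by rw [card_hom, card_sk q]; exact hq) 1
    obtain ⟨s₀, h2⟩ : ∃ s : sk F, s.1 ≠ 0 := let ⟨s, h1, h2⟩ := exists_skew_ne F q; ⟨⟨s, h1⟩, h2⟩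
    have h4 : ∀ s, s ≠ 1 → χ.1 (qh (xh s)) = χ.1 (qh (xh (.ofAdd s₀))) := fun s hs => by
      have s0 : s.toAdd.1 ≠ 0 := fun e => hs (Subtype.ext e)
      obtain ⟨α, hα⟩ := exists_norm q (s := s.toAdd.1 / s₀) (by
        rw [star_div₀, eq_neg_of_add_eq_zero_right s₀.2, eq_neg_of_add_eq_zero_right s.toAdd.2,
          neg_div_neg_eq])
      have α0 : α ≠ 0 := fun e => div_ne_zero s0 h2 (by rw [← hα, e, zero_mul])
      rw [← χ.isClassFunction _ (lh (dgG fun _ => Units.mk0 α α0))⁻¹, inv_inv]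
      refine congrArg χ.1 ?_
      rw [mul_assoc, inv_mul_eq_iff_eq_mul, ← ofAdd_toAdd s]
      refine ext_mk fun a b c => ?_
      have := star_ne_zero.2 α0
      rw [eq_div_iff h2] at hα
      simp only [HS.mul_apply, xh_mk, lh_mk, mk_inj, Units.val_mk0, and_true]
      field_simp
      linear_combination -c * hα
    have hs : ∀ s (g : HQ F Unit), xh s * g = g * xh s := fun s g =>
      hq_ext (by simp [xh, HQ.skw]) (by simp [xh, HQ.skw, add_comm])
    have c1 := proj_isCharacter xh hs (χ.isCharacter.comp qh) γ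
    have c2 := proj_isCharacter xh hs (χ.isCharacter.comp qh) 1
    have e1 := proj_one xh (fun p => χ.1 (qh p)) γ h4
    have e2 := proj_one xh (fun p => χ.1 (qh p)) 1 h4
    rw [if_neg hγ, add_zero, map_one] at e1
    have h5 := deg_le q c1 hγ (proj_mul _ _ _) fun h => h0 (χ.charKer_eq_top_iff.1
      (stPerf F q Unit (by simpa using h3) _ inferInstance (fun p => ?_)
        fun z => χ.mem_charKer.2 (hz z)))
    swap
    · rw [h, mul_zero, eq_comm, sub_eq_zero] at e1
      rw [← e, mem_charKer_character_iff]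
      refine LinearMap.ext fun v => fix_Q q hψ hr (fun s => ?_) p
      by_cases s1 : s = 1
      · simp [s1]
      · rw [(character_eq_one_iff ρ).1 (by rw [e, h4 s s1, e1]), Module.End.one_apply]
    have h6 : charDegree (proj xh (fun p => χ.1 (qh p)) 1) ≠ 0 := fun h => ht (by
      have h7 := c2.one_eq_charDegree
      rw [h, Nat.cast_zero, proj, mul_eq_zero, inv_eq_zero] at h7
      rw [tsum_eq, finsum_eq_sum_of_fintype]
      simpa using h7.resolve_left (by exact_mod_cast Nat.card_pos.ne'))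
    rw [if_pos rfl, map_one, ← e1, c1.one_eq_charDegree, c2.one_eq_charDegree, ← mul_add,
      mul_right_inj' (by exact_mod_cast Nat.card_pos.ne'), ← sub_eq_iff_eq_add'] at e2
    rw [← e2, c1.one_eq_charDegree, χ.one_eq_charDegree, card_sk q] at e1
    have h7 : q * charDegree (proj xh (fun p => χ.1 (qh p)) γ) +
        charDegree (proj xh (fun p => χ.1 (qh p)) 1) =
        charDegree χ.1 + charDegree (proj xh (fun p => χ.1 (qh p)) γ) := by
      rw [← Nat.cast_inj (R := ℂ)]; push_cast; linear_combination e1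
    obtain ⟨r, rfl⟩ : ∃ r, q = r + 1 := ⟨q - 1, by omega⟩
    rw [Nat.add_sub_cancel]
    nlinarith [Nat.pos_of_ne_zero h6, Nat.mul_le_mul_left r h5]
  · obtain ⟨x, hx⟩ := exists_y (F := F) q 1
    refine ⟨qh x, finsum_ne_zero_of χ.isCharacter qh (Subgroup.subtype _) (fun g => ?_) ?_⟩
    · obtain ⟨p, z, h⟩ := cent_le hx (Subgroup.mem_centralizer_singleton_iff.1 g.2)
      exact ⟨p, _, hz z, h⟩
    · rw [tsum_eq, ← e, ← Ne, finsum_ne_zero_iff] at ht
      rw [← e, finsum_ne_zero_iff]
      exact ht.imp fun v hv => ⟨hv.1, fix_Q q hψ hr hv.2⟩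

end Cfsg.Uni
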