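import Cfsg.Agent.Uni.AsmB
import Cfsg.Agent.CT.Center
import Cfsg.Agent.Grp.Misc

/-!
# S4793: large or of rank one
-/

set_option autoImplicit false

namespace Cfsg.Uni.Tor

open Matrix Module ComplexConjugate
open scoped commutatorElement

universe u v

/-- a module is spanned by vectors on which the elements act as on the constituents -/
theorem eq_top {P : Type v} [Group P] [Fintype P] {M : Type} [AddCommGroup M] [Module ℂ M]
    [FiniteDimensional ℂ M] (ρ : Representation ℂ P M) (W : Submodule ℂ M)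
    (h : ∀ θ : IrrCharacter P, classInner ρ.character θ.1 ≠ 0 → ∀ m,
      (∀ (p : P) (c : ℂ), (∀ x, θ.1 (p * x) = c * θ.1 x) → ρ p m = c • m) → m ∈ W) : W = ⊤ := by
  classical
  have hP : (Nat.card P : ℂ) ≠ 0 := Nat.cast_ne_zero.2 Nat.card_pos.ne'
  refine eq_top_iff.2 fun m _ => ?_
  have : m = ∑ θ : IrrCharacter P, ρ.asAlgebraHom (idemC {θ}) m := by
    rw [← LinearMap.sum_apply, ← map_sum, sum_idemC_singleton, map_one]; rfl
  rw [this]
  refine W.sum_mem fun θ _ => ?_
  have he : ρ.asAlgebraHom (idemC {θ}) =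
      ∑ g, ((Nat.card P : ℂ)⁻¹ * (θ.1 1 * conj (θ.1 g))) • ρ g := by
    rw [Representation.asAlgebraHom_def, MonoidAlgebra.lift_apply, Finsupp.sum_fintype _ _ (by simp)]
    simp only [coeff_idemC_singleton]
  by_cases h0 : classInner ρ.character θ.1 = 0
  · have : ρ.asAlgebraHom (idemC {θ}) = 0 := by
      refine LinearMap.IsIdempotentElem.eq_zero_of_trace_eq_zero ((idemC_isIdempotentElem _).map _) ?_
      rw [he, map_sum]
      rw [classInner_def, mul_eq_zero, or_iff_right (inv_ne_zero hP)] at h0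
      simp only [map_smul, smul_eq_mul]
      rw [← mul_zero ((Nat.card P : ℂ)⁻¹ * θ.1 1), ← h0, Finset.mul_sum]
      exact Finset.sum_congr rfl fun g _ => by rw [Representation.character]; ring
    simp [this]
  refine h θ h0 _ fun p c hc => ?_
  have h1 : conj c * c = 1 := by
    have e1 := hc p⁻¹
    have e2 := hc 1
    rw [mul_inv_cancel, θ.apply_inv] at e1
    rw [mul_one] at e2
    have e3 : conj (θ.1 1) = θ.1 1 := by rw [← θ.apply_inv, inv_one]
    rw [e2, map_mul, e3] at e1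
    exact mul_right_cancel₀ θ.one_ne_zero (by linear_combination -e1)
  rw [he, LinearMap.sum_apply, map_sum, Finset.smul_sum, ← Equiv.sum_comp (Equiv.mulLeft p)
    (fun g => c • _)]
  refine Finset.sum_congr rfl fun g _ => ?_
  simp only [LinearMap.smul_apply, map_smul, Equiv.coe_mulLeft, hc, map_mul, Module.End.mul_apply,
    smul_smul]
  congr 1
  linear_combination (-(Nat.card P : ℂ)⁻¹ * θ.1 1 * conj (θ.1 g)) * h1

variable {F : Type u} [Field F] [StarRing F] {ι : Type} [Fintype ι] [DecidableEq ι]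

theorem act_mul (A B : Matrix ι ι F) (p : HQ F ι) : p.act (A * B) = (p.act B).act A :=
  HQ.ext (by simp [HQ.act]) (by simp [HQ.act, Matrix.mul_assoc])

theorem act_one (p : HQ F ι) : p.act 1 = p := HQ.ext (by simp [HQ.act]) (by simp [HQ.act])

theorem conj_vec (A : Matrix ι ι F) (x y : ι → F) :
    A * vecMulVec x (star y) * Aᴴ = vecMulVec (A *ᵥ x) (star (A *ᵥ y)) := by
  rw [mul_vecMulVec, vecMulVec_mul, star_mulVec]

/-- the action as a homomorphism -/
def actH (A : Matrix ι ι F) : HQ F ι →* HQ F ι := MonoidHom.mk' (HQ.act A) fun p r =>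
  HQ.ext (by simp [HQ.act, mulVec_add]) (by simp [HQ.act, mul_add, add_mul, mul_sub, sub_mul, conj_vec])

theorem actH_surj (A : GL ι F) : Function.Surjective (actH A.1) := fun p =>
  ⟨p.act (A⁻¹).1, by change (p.act _).act _ = p; rw [← act_mul, Units.mul_inv, act_one]⟩

theorem conj_qh (A : GL ι F) (p : HQ F ι) : lh A * qh p * (lh A)⁻¹ = qh (p.act A.1) := by
  rw [lh_qh, mul_inv_cancel_right]

theorem qh_inj : Function.Injective (qh : HQ F ι → Γ F ι) := (injective_iff_map_eq_one _).2 fun p h => by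
  have := fun x => congrArg (fun g : Γ F ι => (g.1 x).1) h
  refine HQ.ext (by simpa [qh_apply] using this (0, 1, 0)) (ext_of_mulVec_single fun i => ?_)
  simpa [qh_apply, -mulVec_single] using this (0, 0, Pi.single i 1)

theorem lh_eq_one {A : GL ι F} (h : ∀ u, ((lh A).1 (u, 0, 0)).1 = u) : A = 1 :=
  Units.ext (ext_of_mulVec_single fun i => by simpa [lh_apply, -mulVec_single] using h (Pi.single i 1))

instance [Finite F] : Finite (HQ F ι) := Finite.of_injective _ qh_inj

theorem comm_y (p r : HQ F ι) : ⁅p, r⁆.y = 0 := by simp [commutatorElement_def]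

theorem comm_S (p r : HQ F ι) :
    ⁅p, r⁆.S = vecMulVec r.y (star p.y) - vecMulVec p.y (star r.y) := by
  have h1 := p.rel
  have h2 := r.rel
  simp [commutatorElement_def, add_vecMulVec]
  linear_combination (norm := abel) h1 + h2

/-- the form attached to a functional -/
def bf (f : Matrix ι ι F →ₗ[F] F) (x y : ι → F) : F := f (vecMulVec x (star y))

variable {f : Matrix ι ι F →ₗ[F] F}

omit [Fintype ι] [DecidableEq ι] in
theorem bf_lin : (∀ x y z, bf f (x + y) z = bf f x z + bf f y z) ∧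
    (∀ x y z, bf f x (y + z) = bf f x y + bf f x z) ∧
    (∀ (c : F) x y, bf f (c • x) y = c * bf f x y) ∧
    (∀ (c : F) x y, bf f x (c • y) = star c * bf f x y) ∧
    (∀ x y z, bf f (x - y) z = bf f x z - bf f y z) ∧
    (∀ x y z, bf f x (y - z) = bf f x y - bf f x z) := by
  simp [bf, add_vecMulVec, vecMulVec_add, smul_vecMulVec, vecMulVec_smul, sub_vecMulVec, vecMulVec_sub]

theorem eq_of_bf {φ : ι → F} (h : ∀ x y, bf f x y = φ ⬝ᵥ x * star (φ ⬝ᵥ y)) (S : Matrix ι ι F) :
    f S = φ ⬝ᵥ S *ᵥ star φ := by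
  have : S = ∑ i, vecMulVec (Pi.single i 1) (star (star (S i))) := by
    ext i j; simp [Matrix.sum_apply, vecMulVec_apply, Pi.single_apply]
  conv_lhs => rw [this, map_sum]
  refine Finset.sum_congr rfl fun i _ => (h _ _).trans ?_
  simp [mulVec, ← star_dotProduct_star, dotProduct_comm]

variable [Fintype F] (q : ℕ) [UF F q] {ψ : AddChar F ℂ}
include q

omit [DecidableEq ι] in
theorem exists_y (y : ι → F) : ∃ p : HQ F ι, p.y = y := by
  obtain ⟨c, hc⟩ := exists_trace q (star_one F)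
  exact ⟨⟨y, -c • vecMulVec y (star y), by
    simp only [conjTranspose_smul, conjTranspose_vecMulVec, star_star, ← add_smul, star_neg]
    rw [← neg_add, hc, neg_one_smul, neg_add_cancel]⟩, rfl⟩

omit [Fintype ι] [DecidableEq ι] in
theorem polar (h : ∀ x, bf f x x = 0) (x y : ι → F) : bf f x y = 0 := by
  obtain ⟨c, hc⟩ := exists_star_ne F q
  have h1 := h (x + y)
  have h2 := h (c • x + y)
  simp only [bf_lin] at h1 h2
  refine (mul_eq_zero.1 (?_ : (star c - c) * bf f x y = 0)).resolve_left (sub_ne_zero.2 hc)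
  linear_combination (star c) * h1 - h2 + (c - 1) * (star c) * h x + (1 - star c) * h y

theorem indep {x u g : ι → F} (hx : g ⬝ᵥ x = 0) (hu : g ⬝ᵥ u = 1)
    (h : ∀ A : GL ι F, bf f (A.1 *ᵥ u) (A.1 *ᵥ u) = bf f (A.1 *ᵥ x) (A.1 *ᵥ x)) (v : ι → F) :
    bf f v v = 0 := by
  have h1 : ∀ v, g ⬝ᵥ v ≠ 0 → bf f v v = bf f x x := fun v hv => by
    have hA : ∀ y, (1 + vecMulVec (v - u) g) *ᵥ y = y + (g ⬝ᵥ y) • (v - u) := fun y => by
      rw [add_mulVec, one_mulVec, vecMulVec_mulVec, op_smul_eq_smul]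
    obtain ⟨A, e⟩ : IsUnit (1 + vecMulVec (v - u) g) := mulVec_injective_iff_isUnit.1
      ((injective_iff_map_eq_zero (mulVecLin _)).2 fun y hy => by
        rw [mulVecLin_apply, hA] at hy
        have := congrArg (g ⬝ᵥ ·) hy
        simp only [dotProduct_add, dotProduct_smul, dotProduct_sub, hu, dotProduct_zero,
          smul_eq_mul] at this
        have : g ⬝ᵥ y = 0 := (mul_eq_zero.1 (by linear_combination this : _ * g ⬝ᵥ v = 0)).resolve_right hv
        simpa [this] using hy)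
    simpa [e, hA, hx, hu] using h A
  have h2 : ∀ w, g ⬝ᵥ w = 0 → bf f w w = 0 := fun w hw => by
    obtain ⟨c, hc⟩ := exists_star_ne F q
    have key : ∀ a : F, a ≠ 0 → bf f w w + a * bf f u w + star a * bf f w u = 0 := fun a ha => by
      have e1 := h1 (a • u + w) (by simpa [hu, hw] using ha)
      have e2 := h1 (a • u) (by simpa [hu] using ha)
      simp only [bf_lin] at e1 e2
      linear_combination e1 - e2
    have e1 := key 1 one_ne_zero
    have e2 := key c (by rintro rfl; simp at hc)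
    have e3 := key (c + 1) fun e => hc (by rw [eq_neg_of_add_eq_zero_left e]; simp)
    rw [star_add] at e3
    linear_combination e1 + e2 - e3
  by_cases hv : g ⬝ᵥ v = 0
  · exact h2 v hv
  · rw [h1 v hv, h2 x hx]

theorem uniq (hψ : Psi ψ) {a b : F}
    (h : ∀ c, ψ (c * a - star c * star a) = ψ (c * b - star c * star b)) : a = b := by
  by_contra e
  obtain ⟨c, hc⟩ := hψ.exists_sub q (sub_ne_zero.2 e)
  rw [star_sub, mul_sub, mul_sub, sub_sub_sub_comm, AddChar.map_sub_eq_div, h] at hc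
  exact hc (div_self (ψ.val_isUnit _).ne_zero)

theorem exists_lin (hψ : Psi ψ) {V : Type*} [AddCommGroup V] [Module F V] (η : AddChar V ℂ) :
    ∃ f : V →ₗ[F] F, ∀ x, η x = ψ (f x - star (f x)) := by
  choose b hb using fun x : V =>
    hψ.exists_addChar q (η.compAddMonoidHom (LinearMap.toSpanSingleton F V x).toAddMonoidHom)
  replace hb : ∀ x (c : F), η (c • x) = ψ (c * b x - star c * star (b x)) := hb
  refine ⟨⟨⟨b, fun x y => uniq q hψ fun c => ?_⟩, fun a x => uniq q hψ fun c => ?_⟩,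
    fun x => by simpa using hb x 1⟩
  · rw [← hb, smul_add, η.map_add_eq_mul, hb, hb, ← ψ.map_add_eq_mul, star_add]
    congr 1; ring
  · rw [← hb, smul_smul, hb]
    simp [mul_assoc]

omit q in
variable (ψ) in
/-- the functional describes the central character -/
structure Fm (θ : HQ F ι → ℂ) (f : Matrix ι ι F →ₗ[F] F) : Prop where
  herm : ∀ A, f Aᴴ = star (f A)
  cen : ∀ p : HQ F ι, p.y = 0 → ∀ x, θ (p * x) = ψ (f p.S) * θ x

omit [Fintype F] q [DecidableEq ι] in
theorem skew_sub (A : Matrix ι ι F) : A - Aᴴ + (A - Aᴴ)ᴴ = 0 := by simp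

theorem exists_fm (hψ : Psi ψ) (θ : IrrCharacter (HQ F ι)) : ∃ f, Fm ψ θ.1 f := by
  have hc : ∀ p : HQ F ι, p.y = 0 → ∀ x, θ.1 (p * x) = θ.1 p / θ.1 1 * θ.1 x := fun p hp =>
    θ.isCharacter.apply_mul_of_mem_charCenter (θ.center_le_charCenter (Subgroup.mem_center_iff.2
      fun r => HQ.ext (add_comm _ _) (by simp [hp, add_comm])))
  obtain ⟨f, hf⟩ := exists_lin q hψ (V := Matrix ι ι F)
    { toFun A := θ.1 (.skw _ (skew_sub A)) / θ.1 1
      map_zero_eq_one' := by
        rw [show HQ.skw _ (skew_sub (0 : Matrix ι ι F)) = 1 from HQ.ext rfl (by simp [HQ.skw]),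
          div_self θ.one_ne_zero]
      map_add_eq_mul' A B := by
        rw [← mul_div_assoc, ← hc (.skw _ (skew_sub A)) rfl, show HQ.skw _ (skew_sub (A + B)) =
          .skw _ (skew_sub A) * .skw _ (skew_sub B) from
            HQ.ext (by simp [HQ.skw]) (by simp [HQ.skw]; abel)] }
  replace hf : ∀ A, θ.1 (.skw _ (skew_sub A)) / θ.1 1 = ψ (f A - star (f A)) := hf
  have h1 : ∀ A, f Aᴴ = star (f A) := fun A => by
    rw [← star_star (f Aᴴ)]
    refine congrArg star (uniq q hψ fun c => ?_)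
    have e := hf (-(c • A)ᴴ)
    simp only [conjTranspose_neg, conjTranspose_conjTranspose, neg_sub_neg, hf] at e
    simpa [sub_eq_add_neg, add_comm] using e.symm
  refine ⟨f, h1, fun p hp x => ?_⟩
  obtain ⟨c, e⟩ := exists_trace q (star_one F)
  have h2 : p.Sᴴ = -p.S := by simpa [hp, eq_neg_iff_add_eq_zero, add_comm] using p.rel
  have h3 : c • p.S - (c • p.S)ᴴ = p.S := by
    rw [conjTranspose_smul, h2, smul_neg, sub_neg_eq_add, ← add_smul, e, one_smul]
  rw [hc p hp, ← h3, map_sub, h1, ← hf, show HQ.skw _ (skew_sub (c • p.S)) = p from HQ.ext hp.symm h3]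

variable {θ : IrrCharacter (HQ F ι)}

omit q [Fintype F] in
theorem Fm.symm {θ : HQ F ι → ℂ} (h : Fm ψ θ f) (x y : ι → F) : bf f y x = star (bf f x y) := by
  rw [bf, bf, ← h.herm, conjTranspose_vecMulVec, star_star]

theorem Fm.mem_center (hψ : Psi ψ) (h : Fm ψ θ.1 f) {p : HQ F ι} :
    p ∈ charCenter θ.1 ↔ ∀ y, bf f y p.y = 0 := by
  have key : ∀ r, ⁅p, r⁆ ∈ charKer θ.1 ↔ ψ (bf f r.y p.y - star (bf f r.y p.y)) = 1 := fun r => by
    rw [θ.mem_charKer, ← mul_one ⁅p, r⁆, h.cen _ (comm_y p r), mul_eq_right₀ θ.one_ne_zero, comm_S,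
      map_sub, ← h.symm]
    rfl
  simp only [θ.mem_charCenter_iff_commutator, key]
  refine ⟨fun h1 y => uniq q hψ fun c => ?_, fun h1 r => by simp [h1]⟩
  obtain ⟨r, hr⟩ := exists_y q (c • y)
  simpa [hr, bf_lin] using h1 r

theorem Fm.sq (hψ : Psi ψ) (h : Fm ψ θ.1 f) : charDegree θ.1 ^ 2 = (charCenter θ.1).index :=
  θ.sq_charDegree_eq_index_of_commutator_le (Subgroup.commutator_le.2 fun a _ c _ =>
    (h.mem_center q hψ).2 fun y => by simp [comm_y, bf])

theorem Fm.inv (hψ : Psi ψ) (h : Fm ψ θ.1 f) {A B : Matrix ι ι F}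
    (e : ∀ p : HQ F ι, θ.1 (p.act A) = θ.1 (p.act B)) (M : Matrix ι ι F) :
    f (A * M * Aᴴ) = f (B * M * Bᴴ) := uniq q hψ fun c => by
  have key : ∀ A : Matrix ι ι F, θ.1 ((HQ.skw _ (skew_sub (c • M))).act A) =
      ψ (c * f (A * M * Aᴴ) - star c * star (f (A * M * Aᴴ))) * θ.1 1 := fun A => by
    rw [← mul_one (HQ.act _ _), h.cen _ (mulVec_zero A), ← h.herm]
    simp [HQ.act, HQ.skw, mul_sub, sub_mul, Matrix.mul_assoc]
  exact mul_right_cancel₀ θ.one_ne_zero (by rw [← key, ← key, e])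

theorem Fm.fix (hψ : Psi ψ) (h : Fm ψ θ.1 f) {t : Matrix ι ι F} (ht : IsUnit (t - 1))
    (e : ∀ p : HQ F ι, θ.1 (p.act t) = θ.1 p) (p : HQ F ι) (hp : ∀ y, bf f p.y y = 0) (x : HQ F ι) :
    θ.1 (p * x) = ψ (f p.S) * θ.1 x := by
  have h1 : ∀ M, f (t * M * tᴴ) = f M := fun M => by
    simpa using h.inv q hψ (B := 1) (fun p => by rw [e, act_one]) M
  have h2 : ∀ x y, bf f (t *ᵥ x) (t *ᵥ y) = bf f x y := fun x y => by rw [bf, ← conj_vec, h1, bf]
  have hs : ∀ y, ∃ z, t *ᵥ z - z = y := fun y => by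
    simpa [sub_mulVec] using mulVec_surjective_iff_isUnit.2 ht y
  obtain ⟨z, hz⟩ := hs p.y
  obtain ⟨r, rfl⟩ := exists_y q z
  have h3 : ∀ y, bf f r.y y = 0 := fun y => by
    obtain ⟨w, rfl⟩ := hs y
    have := hp (t *ᵥ w)
    rw [← hz] at this
    simp only [bf_lin, h2] at this ⊢
    linear_combination -this
  have h4 : ∀ y, bf f (t *ᵥ r.y) y = 0 := fun y => by
    rw [sub_eq_iff_eq_add.1 hz, bf_lin.1, hp, h3, add_zero]
  have hc : ∀ r : HQ F ι, (∀ y, bf f r.y y = 0) → ∀ x, θ.1 (r * x) = θ.1 r / θ.1 1 * θ.1 x :=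
    fun r hr => θ.isCharacter.apply_mul_of_mem_charCenter ((h.mem_center q hψ).2 fun y => by
      rw [h.symm, hr, star_zero])
  have h5 := congrArg f r.rel
  rw [show p * x = p * r * (r.act t)⁻¹ * (r.act t * (r⁻¹ * x)) by group,
    h.cen _ (by simp [HQ.act, ← hz]), hc _ h4, e, ← hc _ h3, mul_inv_cancel_left]
  congr 2
  simp only [bf] at hp h3
  simp only [HQ.mul_S, HQ.inv_S, HQ.mul_y, HQ.inv_y, map_add, map_sub, add_vecMulVec, hp, h3, h.herm,
    HQ.act, h1, map_zero] at h5 ⊢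
  linear_combination h5

variable {K : Type u} [Field K] [Algebra F K] (b : Basis ι F K)

omit q [Fintype F] in
/-- the stabiliser in the Singer cycle -/
def stab (θ : HQ F ι → ℂ) : Subgroup Kˣ where
  carrier := {β | ∀ p : HQ F ι, θ (p.act (sing b β).1) = θ p}
  one_mem' p := by rw [map_one, Units.val_one, act_one]
  mul_mem' ha hb p := by rw [map_mul, Units.val_mul, act_mul, ha, hb]
  inv_mem' {β} h p := by rw [← h, ← act_mul, ← Units.val_mul, ← map_mul, mul_inv_cancel, map_one,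
    Units.val_one, act_one]

omit q [Fintype F] in
theorem isUnit_sub {β : Kˣ} (h : β ≠ 1) : IsUnit ((sing b β).1 - 1) := by
  simpa using isUnit_sing_sub b β 1 (by simpa using h)

theorem rank [Finite K] (hψ : Psi ψ) (h : ∀ A : GL ι F,
    charDegree θ.1 < Nat.card (stab b fun p => θ.1 (p.act A.1)) ∧
    (1 < charDegree θ.1 → Nat.card (stab b fun p => θ.1 (p.act A.1)) ≤ charDegree θ.1 + 1)) :
    ∃ φ : ι → F, ∀ p : HQ F ι, φ ⬝ᵥ p.y = 0 → ∀ x, θ.1 (p * x) = ψ (φ ⬝ᵥ p.S *ᵥ star φ) * θ.1 x := by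
  obtain ⟨f, hf⟩ := exists_fm q hψ θ
  suffices ∃ φ : ι → F, ∀ x y, bf f x y = φ ⬝ᵥ x * star (φ ⬝ᵥ y) by
    obtain ⟨φ, hφ⟩ := this
    obtain ⟨⟨β, h1⟩, h2⟩ := (Subgroup.ne_bot_iff_exists_ne_one.1 ((Subgroup.one_lt_card_iff_ne_bot _).1
      (lt_of_le_of_lt θ.charDegree_pos (h 1).1)))
    refine ⟨φ, fun p hp x => ?_⟩
    rw [← eq_of_bf hφ]
    exact hf.fix q hψ (isUnit_sub b fun e => h2 (Subtype.ext e)) (by simpa [stab, act_one] using h1) p
      (fun y => by rw [hφ, hp, zero_mul]) x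
  by_cases h0 : ∀ x, bf f x x = 0
  · exact ⟨0, fun x y => by simp [polar q h0]⟩
  obtain ⟨x, hx⟩ := not_forall.1 h0
  have hd : 1 < charDegree θ.1 := lt_of_le_of_ne θ.charDegree_pos fun e => by
    obtain ⟨p, rfl⟩ := exists_y q x
    exact hx ((hf.mem_center q hψ).1 (θ.charCenter_eq_top_iff.2 e.symm ▸ Subgroup.mem_top p) _)
  have hc : ∀ A : GL ι F, Nat.card (stab b fun p => θ.1 (p.act A.1)) = charDegree θ.1 + 1 :=
    fun A => le_antisymm ((h A).2 hd) (h A).1
  have hle : (stab b fun p => θ.1 (p.act (1 : GL ι F).1)) ≤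
      ((Units.map (algebraMap F K).toMonoidHom).comp Unitary.toUnits).range := fun β hβ => by
    have hi : ∀ (A : GL ι F) y, bf f (A.1 *ᵥ (sing b β).1 *ᵥ y) (A.1 *ᵥ (sing b β).1 *ᵥ y) =
        bf f (A.1 *ᵥ y) (A.1 *ᵥ y) := fun A y => by
      rw [eq_of_card_eq_of_isCyclic (P := ⊤) inferInstance le_top le_top ((hc 1).trans (hc A).symm)]
        at hβ
      rw [mulVec_mulVec, bf, bf, ← conj_vec, ← conj_vec]
      exact hf.inv q hψ (fun p => by rw [act_mul]; exact hβ p) _
    by_cases e : ∃ c, β.1 = algebraMap F K c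
    · obtain ⟨c, e⟩ := e
      have e1 := hi 1 x
      rw [sing_val, e, AlgHom.commutes, Algebra.algebraMap_eq_smul_one] at e1
      simp only [Units.val_one, smul_mulVec, one_mulVec, bf_lin, ← mul_assoc] at e1
      replace e1 := (mul_eq_right₀ hx).1 e1
      exact ⟨⟨c, e1, by rwa [mul_comm] at e1⟩, Units.ext e.symm⟩
    obtain ⟨i, -⟩ : ∃ i, x i ≠ 0 := Function.ne_iff.1 fun e : x = 0 => hx (by simp [e, bf])
    obtain ⟨j, hj⟩ := Function.ne_iff.1 fun e' => by
      simpa using congrFun (eq_zero_of_isUnit (isUnit_sing_sub b β ((sing b β).1 i i)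
        fun e' => e ⟨_, e'⟩) (x := Pi.single i 1) e') i
    have hji : j ≠ i := by rintro rfl; simp at hj
    have hj' : (sing b β).1 j i ≠ 0 := by simpa [hji] using hj
    exact (hx (indep q (g := Pi.single j ((sing b β).1 j i)⁻¹) (x := Pi.single i 1) (by simp [hji])
      (by simp [hj']) (fun A => hi A _) x)).elim
  have hq : charDegree θ.1 + 1 ≤ q + 1 := by
    rw [← hc 1, ← card_unitary F q]
    exact (Subgroup.card_le_of_le hle).trans (Nat.card_le_card_of_surjective _
      (MonoidHom.rangeRestrict_surjective _))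
  let g : HQ F ι →* Multiplicative F :=
    MonoidHom.mk' (fun p => .ofAdd (bf f p.y x)) fun p r => by simp [bf_lin]
  have hg : charCenter θ.1 = g.ker := by
    refine (lt_or_eq_of_le fun p hp => ?_).resolve_left fun hl => ?_
    · change bf f p.y x = 0
      rw [hf.symm, (hf.mem_center q hψ).1 hp, star_zero]
    have := Subgroup.index_strictAnti hl
    rw [← hf.sq q hψ, Subgroup.index_ker, MonoidHom.range_eq_top.2 fun c => ?_] at this
    · simp only [Subgroup.card_top, Nat.card_eq_fintype_card, Fintype.card_multiplicative,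
        UF.card (F := F)] at this
      exact absurd (lt_of_pow_lt_pow_left₀ 2 (Nat.zero_le _) this) (by omega)
    obtain ⟨p, hp⟩ := exists_y q ((c.toAdd / bf f x x) • x)
    exact ⟨p, by simp [g, hp, bf_lin, hx]⟩
  obtain ⟨c, e⟩ := exists_norm q (s := (bf f x x)⁻¹) (by rw [star_inv₀, ← hf.symm])
  obtain ⟨φ, hφ⟩ := (dotProductEquiv F ι).surjective (c • f ∘ₗ (vecMulVecBilin F F).flip (star x))
  replace hφ : ∀ y, φ ⬝ᵥ y = c * bf f y x := LinearMap.congr_fun hφ
  refine ⟨φ, fun y z => ?_⟩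
  rw [hφ, hφ]
  obtain ⟨p, hp⟩ := exists_y q (z - (bf f z x / bf f x x) • x)
  have := (hf.mem_center q hψ).1 (hg.ge (show bf f p.y x = 0 by simp [hp, bf_lin, hx])) y
  simp only [hp, bf_lin, star_div₀, ← hf.symm x x] at this
  rw [star_mul']
  linear_combination this - bf f y x * star (bf f z x) * e

theorem ll [Finite K] [Fintype (HQ F ι)] (h : StLL.{u}) {χ : Γ F ι → ℂ} (hχ : IsCharacter _ χ)
    (θ : IrrCharacter (HQ F ι)) (h0 : classInner (fun p => χ (qh p)) θ.1 ≠ 0) :
    (Nat.card (stab b θ.1) ≤ charDegree θ.1 →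
      ∑ᶠ β, χ (lh (sing b β)) ≠ 0 ∧ Nat.card Kˣ ≤ charDegree χ) ∧
      (1 < charDegree θ.1 → Nat.card (stab b θ.1) ≤ charDegree θ.1 + 1) := by
  have := Fintype.ofFinite (qh : HQ F ι →* _).range
  have hi : Function.Injective (lh.comp (sing b)) := (injective_iff_map_eq_one _).2 fun β e =>
    Units.ext (Algebra.leftMulMatrix_injective b (by
      rw [← sing_val, lh_eq_one (A := sing b β) fun u => by rw [show lh (sing b β) = 1 from e]; rfl]
      simp))
  let e := MonoidHom.ofInjective (qh_inj (F := F) (ι := ι))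
  let e' := MonoidHom.ofInjective hi
  let θ' := θ.comap e.symm.toMonoidHom e.symm.surjective
  have hθ : ∀ p, θ'.1 (e p) = θ.1 p := fun p => congrArg θ.1 (e.symm_apply_apply p)
  have := h (Γ F ι) qh.range (lh.comp (sing b)).range
    ((MonoidHom.mk' (fun p : HQ F ι => Multiplicative.ofAdd p.y) fun _ _ => rfl).ker.map qh)
    ?_ (isCyclic_of_surjective e' e'.surjective) ?_ ?_ (Subgroup.map_le_range _ _) ?_ χ
    θ' (Nat.card (stab b θ.1)) hχ ?_ ?_
  · rwa [show charDegree θ'.1 = _ from θ.charDegree_comap _ _, ← Nat.card_congr e'.toEquiv,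
      ← finsum_comp_equiv e'.toEquiv] at this
  · rintro _ ⟨β, rfl⟩
    refine Subgroup.mem_normalizer_fintype ?_
    rintro _ ⟨p, rfl⟩
    exact ⟨_, (conj_qh _ p).symm⟩
  · refine (Subgroup.eq_bot_iff_forall _).2 ?_
    rintro _ ⟨⟨β, rfl⟩, p, hp⟩
    change lh (sing b β) = 1
    rw [lh_eq_one (A := sing b β) fun u => by
      rw [show lh (sing b β) = qh p from hp.symm]; simp [qh_apply], map_one]
  · rintro _ ⟨p, hp, rfl⟩ _ ⟨r, rfl⟩
    replace hp : p.y = 0 := hp
    rw [← map_mul, ← map_mul]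
    exact congrArg _ (HQ.ext (add_comm _ _) (by simp [hp, add_comm]))
  · rintro _ ⟨β, rfl⟩ h1 _ ⟨p, rfl⟩
    obtain ⟨y, hy⟩ := mulVec_surjective_iff_isUnit.2
      (isUnit_sub b (β := β⁻¹) fun e => h1 (by rw [inv_eq_one.1 e, map_one])) p.y
    obtain ⟨r, rfl⟩ := exists_y q y
    refine ⟨_, ⟨r, rfl⟩, _, ⟨(r.act (sing b β⁻¹).1)⁻¹ * p * r, ?_, rfl⟩, ?_⟩
    · change -_ + p.y + r.y = 0
      simp only [← hy, HQ.act, sub_mulVec, one_mulVec]
      abel
    · rw [map_mul, map_mul, map_inv, ← conj_qh, map_inv, map_inv, MonoidHom.comp_apply]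
      group
  · rw [← classInner_comp_surjective e.toMonoidHom e.surjective]
    rwa [← funext hθ] at h0
  · refine Nat.card_congr (e'.toEquiv.subtypeEquiv fun β => ⟨fun hβ y y' hy => ?_, fun hβ p => ?_⟩)
    · obtain ⟨y, rfl⟩ := e.surjective y
      obtain ⟨y', rfl⟩ := e.surjective y'
      obtain rfl := qh_inj (hy.trans (conj_qh _ y))
      rw [hθ, hθ, hβ]
    · rw [← hθ, ← hθ, hβ (e p) (e _) (conj_qh _ p).symm]

end Tor

open Tor Module

theorem stTor.{u} (F : Type u) [Field F] [StarRing F] [Fintype F] (q : ℕ) [UF F q] (h : StLL.{u}) :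
    StTor F := fun ι _ _ K _ _ b ψ hψ n ρ => by
  have := Module.Finite.of_basis b
  have := Module.finite_of_finite F (M := K)
  have := Fintype.ofFinite (HQ F ι)
  refine or_iff_not_imp_left.2 fun hn => eq_top (ρ.comp qh) _ fun θ h0 m hm => ?_
  obtain ⟨φ, hφ⟩ := rank q b (θ := θ) hψ fun A => by
    have := ll q b h (isCharacter_of_rep ρ) (θ.comap _ (actH_surj A)) (by
      rw [← classInner_comp_surjective _ (actH_surj A)] at h0
      convert h0 using 3 with p
      exacts [((congrArg _ (conj_qh A p).symm).trans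
        ((isCharacter_of_rep ρ).isClassFunction _ _)).symm, rfl])
    rw [IrrCharacter.charDegree_comap, Nat.card_units, charDegree_character,
      Module.finrank_fin_fun] at this
    exact ⟨not_le.1 fun e => hn (this.1 e), this.2⟩
  exact Submodule.mem_iSup_of_mem φ fun p hp => hm p _ (hφ p hp)

end Cfsg.Uni
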