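import Cfsg.Agent.Uni.ZeroR

/-! `StZero`: in odd dimension centralizers have no fixed vectors in the Weil module. -/

set_option autoImplicit false

namespace Cfsg.Uni.Zero

open Module Finset Polynomial
open scoped Classical

universe u

variable {F : Type u} [Field F] [StarRing F] {V : Type u} [AddCommGroup V] [Module F V]
  (H : HS F V)

/-- the orthogonal complement -/
def perp (W : Submodule F V) : Submodule F V where
  carrier := {v | ∀ w ∈ W, H.h w v = 0}
  zero_mem' w _ := H.zero_right w
  add_mem' ha hb w hw := by rw [H.add_right, ha w hw, hb w hw, add_zero]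
  smul_mem' c v h w hw := by rw [H.smul_right, h w hw, mul_zero]

theorem le_perp_perp (W : Submodule F V) : W ≤ perp H (perp H W) := fun w hw _ hv =>
  H.eq_zero_comm.1 (hv w hw)

/-- the form as a map to the dual -/
def toDual (W : Submodule F V) : V →+ Dual F W where
  toFun v := { toFun w := H.h w v, map_add' a b := H.add_left _ _ _
               map_smul' c a := H.smul_left _ _ _ }
  map_zero' := LinearMap.ext fun w => H.zero_right _
  map_add' a b := LinearMap.ext fun w => H.add_right _ _ _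

/-- the restriction to a nondegenerate subspace -/
def res {W : Submodule F V} (hW : Disjoint W (perp H W)) : HS F W where
  h x y := H.h x y
  add_left x y z := H.add_left _ _ _
  smul_left c x y := H.smul_left _ _ _
  symm x y := H.symm _ _
  nd x h := Subtype.ext (Submodule.disjoint_def.1 hW _ x.2 fun w hw => H.eq_zero_comm.1 (h ⟨w, hw⟩))

variable [Fintype F] [FiniteDimensional F V]

theorem finrank_perp (W : Submodule F V) : finrank F W + finrank F (perp H W) = finrank F V := by
  have := Module.finite_of_finite F (M := V)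
  have := Module.finite_of_finite F (M := Dual F (⊤ : Submodule F V))
  have h1 : Function.Bijective (toDual H ⊤) := (Nat.bijective_iff_injective_and_card _).2
    ⟨(injective_iff_map_eq_zero _).2 fun v hv => H.nd v fun y =>
      H.eq_zero_comm.1 (LinearMap.congr_fun hv ⟨y, trivial⟩), by
      rw [natCard_eq_pow_finrank (K := F), natCard_eq_pow_finrank (K := F) (V := Dual F _),
        Subspace.dual_finrank_eq, finrank_top]⟩
  have h2 : (toDual H W).range = ⊤ := eq_top_iff.2 fun f _ => by
    obtain ⟨g, rfl⟩ := Subspace.dualRestrict_surjective f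
    obtain ⟨v, hv⟩ := h1.2 ((⊤ : Submodule F V).dualRestrict g)
    exact ⟨v, LinearMap.ext fun w => LinearMap.congr_fun hv ⟨w, trivial⟩⟩
  have h3 := (toDual H W).ker.card_mul_index
  rw [AddSubgroup.index_ker, h2, AddSubgroup.card_top, show Nat.card (toDual H W).ker =
    Nat.card (perp H W) from Nat.card_congr (Equiv.subtypeEquivRight fun v =>
      ⟨fun h w hw => LinearMap.congr_fun h ⟨w, hw⟩, fun h => LinearMap.ext fun w => h w w.2⟩),
    natCard_eq_pow_finrank (K := F), natCard_eq_pow_finrank (K := F) (V := Dual F _),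
    natCard_eq_pow_finrank (K := F) (V := V), Subspace.dual_finrank_eq, ← pow_add] at h3
  rw [← Nat.pow_right_injective Finite.one_lt_card h3, add_comm]

theorem perp_perp (W : Submodule F V) : perp H (perp H W) = W :=
  (Submodule.eq_of_le_of_finrank_eq (le_perp_perp H W) (by
    have := finrank_perp H W
    have := finrank_perp H (perp H W)
    omega)).symm

variable {H} in
theorem compl {W : Submodule F V} (hW : Disjoint W (perp H W)) : IsCompl W (perp H W) :=
  ⟨hW, codisjoint_iff.2 (Submodule.eq_top_of_disjoint _ _ (finrank_perp H W).ge hW)⟩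

variable {H} {W : Submodule F V}

theorem h_sub (hW : Disjoint W (perp H W)) (w : W) (v : V) :
    H.h w (v - W.projectionOnto _ (compl hW) v) = 0 := by
  have : v - W.projectionOnto _ (compl hW) v ∈ perp H W := by
    rw [← Submodule.projectionOnto_apply_eq_zero_iff (compl hW), map_sub,
      Submodule.projectionOnto_apply_left, sub_self]
  exact this w w.2

/-- extension by the identity -/
noncomputable def ext (hW : Disjoint W (perp H W)) : (res H hW).GU →* H.GU := H.lift
  { toFun k := W.subtype ∘ₗ (k.1.toLinearMap - 1) ∘ₗ W.projectionOnto _ (compl hW) + 1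
    map_one' := LinearMap.ext fun v => by simp
    map_mul' a b := LinearMap.ext fun v => by
      simp [-Submodule.coe_projectionOnto_apply]; abel } fun k x y => by
  have h1 := h_sub hW (k.1 (W.projectionOnto _ (compl hW) x)) y
  have h2 := H.eq_zero_comm.1 (h_sub hW (k.1 (W.projectionOnto _ (compl hW) y)) x)
  have h3 := h_sub hW (W.projectionOnto _ (compl hW) x) y
  have h4 := H.eq_zero_comm.1 (h_sub hW (W.projectionOnto _ (compl hW) y) x)
  have h5 : H.h _ _ = H.h _ _ :=
    k.2 (W.projectionOnto _ (compl hW) x) (W.projectionOnto _ (compl hW) y)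
  simp [-Submodule.coe_projectionOnto_apply, H.add_left, H.add_right, H.sub_left,
    H.sub_right] at h1 h2 h3 h4 h5 ⊢
  linear_combination h1 + h2 + h5 - h3 - h4

theorem ext_apply (hW : Disjoint W (perp H W)) (k : (res H hW).GU) (v : V) :
    (ext hW k).1 v = (k.1 (W.projectionOnto _ (compl hW) v) -
      W.projectionOnto _ (compl hW) v : W) + v := rfl

theorem rank_ext (hW : Disjoint W (perp H W)) (k : (res H hW).GU) :
    finrank F (H.fix (ext hW k)) = finrank F ((res H hW).fix k) + finrank F (perp H W) := by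
  have h0 : ∀ v, v ∈ H.fix (ext hW k) ↔ W.projectionOnto _ (compl hW) v ∈ (res H hW).fix k :=
    fun v => by rw [HS.mem_fix, HS.mem_fix, ext_apply, add_eq_right, ZeroMemClass.coe_eq_zero,
      sub_eq_zero]
  have h1 := ((W.projectionOnto _ (compl hW)).domRestrict
    (H.fix (ext hW k))).finrank_range_add_finrank_ker
  have h2 : perp H W ≤ H.fix (ext hW k) := fun v hv => by
    rw [h0, Submodule.projectionOnto_apply_of_mem_right _ hv]; exact zero_mem _
  rw [LinearMap.ker_domRestrict, Submodule.ker_projectionOnto,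
    (Submodule.comapSubtypeEquivOfLe h2).finrank_eq, show LinearMap.range
      ((W.projectionOnto _ (compl hW)).domRestrict _) = (res H hW).fix k from
      Submodule.ext fun w => ⟨fun ⟨v, e⟩ => e ▸ (h0 _).1 v.2, fun hw =>
        ⟨⟨w, (h0 _).2 (by simpa using hw)⟩, by simp⟩⟩] at h1
  exact h1.symm

/-- the restriction of an isometry -/
noncomputable def rs (hW : Disjoint W (perp H W)) (x : H.GU) (hx : ∀ w ∈ W, x.1 w ∈ W) :
    (res H hW).GU :=
  ⟨LinearEquiv.ofInjectiveEndo (x.1.toLinearMap.restrict hx) fun _ _ e =>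
    Subtype.ext (x.1.injective (congrArg Subtype.val e)), fun a b => x.2 a b⟩

theorem perp_inv (hW : Disjoint W (perp H W)) (x : H.GU) (hx : ∀ w ∈ W, x.1 w ∈ W) :
    ∀ v ∈ perp H W, x.1 v ∈ perp H W := fun v hv w hw => by
  obtain ⟨w', e⟩ := (rs hW x hx).1.surjective ⟨w, hw⟩
  rw [← show x.1 w' = w from congrArg Subtype.val e, H.iso, hv _ w'.2]

omit [Fintype F] [FiniteDimensional F V] in
theorem sum_map {G G' : Type*} [Group G] [Group G'] {φ : G →* G'} (hφ : Function.Injective φ)
    (K : Subgroup G) (f : G' → ℂ) : ∑ᶠ k : K.map φ, f k = ∑ᶠ k : K, f (φ k) :=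
  (finsum_comp_equiv (K.equivMapOfInjective φ hφ).toEquiv (f := fun k => f k)).symm

theorem red (q : ℕ) (hW : Disjoint W (perp H W)) (x : H.GU) (hx : ∀ w ∈ W, x.1 w ∈ W)
    (h : ∃ K ≤ Subgroup.centralizer ({rs hW x hx} : Set _), ∑ᶠ k : K, (res H hW).omega q k = 0) :
    ∃ K ≤ Subgroup.centralizer ({x} : Set H.GU), ∑ᶠ k : K, H.omega q k = 0 := by
  obtain ⟨K, h1, h2⟩ := h
  have := Module.finite_of_finite F (M := V)
  have h3 : ∀ v, W.projectionOnto _ (compl hW) (x.1 v) =
      (rs hW x hx).1 (W.projectionOnto _ (compl hW) v) := fun v => by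
    obtain ⟨a, b, rfl, -⟩ := Submodule.existsUnique_add_of_isCompl (compl hW) v
    rw [map_add, map_add, map_add, Submodule.projectionOnto_apply_right, add_zero,
      Submodule.projectionOnto_apply_of_mem_right _ (perp_inv hW x hx _ b.2), add_zero,
      Submodule.projectionOnto_apply_of_mem_left _ (hx _ a.2), Submodule.projectionOnto_apply_left]
    rfl
  refine ⟨K.map (ext hW), ?_, ?_⟩
  · rintro _ ⟨k, hk, rfl⟩
    have h4 := Subgroup.mem_centralizer_singleton_iff.1 (h1 hk)
    refine Subgroup.mem_centralizer_singleton_iff.2 (HS.ext fun v => ?_)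
    rw [HS.mul_apply, HS.mul_apply, ext_apply, ext_apply, h3, ← HS.mul_apply, h4, HS.mul_apply,
      ← map_sub, map_add]
    rfl
  · rw [sum_map ((injective_iff_map_eq_one _).2 fun k hk => HS.ext fun w => by
      simpa [hk, eq_comm (a := w), sub_eq_zero] using ext_apply hW k w)]
    simp only [HS.omega, rank_ext, ← finrank_perp H W, pow_add] at h2 ⊢
    rw [finsum_congr fun _ => mul_mul_mul_comm _ _ _ _, ← finsum_mul, h2, zero_mul]

omit [Fintype F] [FiniteDimensional F V] in
theorem exists_idem {R : Type*} [Monoid R] [Finite R] (a : R) :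
    ∃ n, IsIdempotentElem (a ^ (n + 1)) := by
  obtain ⟨i, j, h1, h2⟩ := Set.finite_univ.exists_lt_map_eq_of_forall_mem
    (f := fun n : ℕ => a ^ n) fun _ => Set.mem_univ _
  obtain ⟨d, rfl⟩ := Nat.exists_eq_add_of_lt h1
  have h3 : ∀ t, a ^ (i + t * (d + 1)) = a ^ i := fun t => by
    induction t with
    | zero => simp
    | succ t ih => rw [add_mul, ← add_assoc, pow_add, ih, ← pow_add, one_mul, ← add_assoc, ← h2]
  refine ⟨i + d + i * d, ?_⟩
  rw [IsIdempotentElem, ← pow_add, show i + d + i * d + 1 + (i + d + i * d + 1) =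
    i + (i + 1) * (d + 1) + (d + i * d + 1) by ring, pow_add, h3, ← pow_add]
  congr 1; ring

theorem indec (q : ℕ) [UF F q] (ho : Odd (finrank F V)) (x : H.GU)
    (hi : ∀ W : Submodule F V, (∀ w ∈ W, x.1 w ∈ W) → Disjoint W (perp H W) → W = ⊥ ∨ W = ⊤)
    {R : Type u} [CommRing R] [Algebra F R] [IsPrincipalIdealRing R] [StarRing R] [StarModule F R]
    (ρ : R →ₐ[F] End F V) (hρ : Function.Injective ρ) {t : R} (ht : ∀ v, ρ t v = x.1 v)
    (hs : ∀ a v w, H.h (ρ a v) w = H.h v (ρ (star a) w)) :
    ∃ K ≤ Subgroup.centralizer ({x} : Set H.GU), ∑ᶠ k : K, H.omega q k = 0 := by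
  have := Module.finite_of_finite F (M := V)
  have := Finite.of_injective _ (DFunLike.coe_injective.comp hρ)
  have := Fintype.ofFinite R
  have hm : ∀ a b v, ρ (a * b) v = ρ a (ρ b v) := fun a b v => by rw [map_mul]; rfl
  have h1 : ∀ e : R, star e = e → e * e = e → e = 0 ∨ e = 1 := fun e he he' => by
    refine (hi (LinearMap.range (ρ e)) ?_ (Submodule.disjoint_def.2 ?_)).imp (fun h => hρ ?_)
      fun h => hρ (LinearMap.ext fun v => ?_)
    · rintro _ ⟨v, rfl⟩
      exact ⟨ρ t v, by rw [← ht, ← hm, ← hm, mul_comm]⟩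
    · rintro _ ⟨v, rfl⟩ h
      refine H.nd _ fun y => H.eq_zero_comm.1 ?_
      rw [← h _ ⟨y, rfl⟩, hs, ← hm, he, he']
    · rw [map_zero, LinearMap.range_eq_bot.1 h]
    · obtain ⟨w, rfl⟩ := LinearMap.range_eq_top.1 h v
      rw [← hm, he', map_one]; rfl
  have h2 : ∀ e : R, e * e = e → e * star e = 0 →
      2 * finrank F (LinearMap.range (ρ e)) ≤ finrank F V := fun e _ h => by
    have h3 : LinearMap.range (ρ e) ≤ perp H (LinearMap.range (ρ e)) := by
      rintro _ ⟨v, rfl⟩ _ ⟨w, rfl⟩
      rw [hs, ← hm, mul_comm, h, map_zero, LinearMap.zero_apply, H.zero_right]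
    have := Submodule.finrank_mono h3
    have := finrank_perp H (LinearMap.range (ρ e))
    omega
  have h3 : ∀ a : R, IsNilpotent a ∨ IsUnit a := fun a => by
    obtain ⟨n, he⟩ := exists_idem a
    have he1 : _ * _ = _ := he
    have he2 := congrArg star he1
    rw [star_mul] at he2
    rcases h1 (a ^ (n + 1) * star (a ^ (n + 1))) (by simp [mul_comm]) (by
      rw [mul_mul_mul_comm, he1, he2]) with h4 | h4
    · rcases h1 ((1 - a ^ (n + 1)) * star (1 - a ^ (n + 1))) (by simp [mul_comm]) (by
        rw [mul_mul_mul_comm, ← star_mul, he.one_sub.eq]) with h5 | h5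
      · have h6 := h2 _ he1 h4
        have h7 := h2 _ he.one_sub.eq h5
        have h8 := Submodule.finrank_add_le_finrank_add_finrank (LinearMap.range (ρ (a ^ (n + 1))))
          (LinearMap.range (ρ (1 - a ^ (n + 1))))
        rw [show LinearMap.range (ρ (a ^ (n + 1))) ⊔ LinearMap.range (ρ (1 - a ^ (n + 1))) = ⊤ from
          eq_top_iff.2 fun v _ => Submodule.mem_sup.2 ⟨_, ⟨v, rfl⟩, _, ⟨v, rfl⟩, by simp⟩,
          finrank_top] at h8
        obtain ⟨_, _⟩ := ho
        omega
      · exact Or.inl ⟨n + 1, by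
          linear_combination -a ^ (n + 1) * h5 - star (1 - a ^ (n + 1)) * he1⟩
    · exact Or.inr ((isUnit_pow_iff n.succ_ne_zero).1 (IsUnit.of_mul_eq_one _ h4))
  have hV : Nontrivial V := finrank_pos_iff.1 ho.pos
  have : Nontrivial R := ρ.toRingHom.domain_nontrivial
  obtain ⟨π, hπ⟩ := (IsPrincipalIdealRing.principal (nilradical R)).principal
  have h4 : ∀ a : R, IsNilpotent a ↔ π ∣ a := fun a => by
    rw [← mem_nilradical, hπ, Ideal.submodule_span_eq, Ideal.mem_span_singleton]
  have h5 := (h4 π).2 dvd_rfl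
  obtain ⟨m, hm'⟩ := Nat.exists_eq_add_one_of_ne_zero (pos_nilpotencyClass_iff.2 h5).ne'
  have h6 : π ^ (m + 1) = 0 := hm' ▸ pow_nilpotencyClass h5
  have hU : Us π m := ⟨fun a ha => ?_, h6, by
    simpa [hm'] using pow_pred_nilpotencyClass h5, (h4 _).1 (h5.map (starRingEnd R))⟩
  swap
  · have h7 : ∃ j, ¬ π ^ (j + 1) ∣ a := ⟨m, by simpa [h6] using ha⟩
    obtain ⟨b, hb⟩ : π ^ Nat.find h7 ∣ a := by
      rcases h : Nat.find h7 with _ | j
      · simp
      · exact not_not.1 (Nat.find_min h7 (by omega))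
    obtain ⟨u, rfl⟩ := (h3 b).resolve_left fun h => Nat.find_spec h7 (by
      rw [pow_succ]; exact (mul_dvd_mul_left _ ((h4 b).1 h)).trans hb.symm.dvd)
    exact ⟨u, _, hb.trans (mul_comm _ _)⟩
  obtain ⟨v, hv⟩ : ∃ v, H.h (ρ (π ^ m) v) v ≠ 0 := by
    by_contra! h
    obtain ⟨c, hc⟩ := exists_star_ne F q
    refine hU.ne ((injective_iff_map_eq_zero _).1 hρ _
      (LinearMap.ext fun v => H.nd _ fun w => ?_))
    have h7 := h (v + w)
    have h8 := h (c • v + w)
    simp only [map_add, map_smul, H.add_left, H.add_right, H.smul_left, H.smul_right, h] at h7 h8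
    exact mul_left_cancel₀ (sub_ne_zero.2 hc) (by linear_combination star c * h7 - h8)
  let ev : R →ₗ[F] V := (LinearMap.applyₗ v) ∘ₗ ρ.toLinearMap
  have h7 : LinearMap.range ev = ⊤ := (hi _ ?_ (Submodule.disjoint_def.2 ?_)).resolve_left fun h =>
    hv (by rw [show ρ (π ^ m) v = 0 from LinearMap.congr_fun (LinearMap.range_eq_bot.1 h) _,
      H.zero_left])
  rotate_left
  · rintro _ ⟨a, rfl⟩
    exact ⟨t * a, (hm t a v).trans (ht _)⟩
  · rintro _ ⟨a, rfl⟩ h
    by_contra h0
    obtain ⟨u, j, rfl⟩ := hU.dec a fun e => h0 (by rw [e, map_zero])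
    obtain ⟨i, rfl⟩ := Nat.exists_eq_add_of_le (not_lt.1 fun hj : m < j =>
      h0 (by rw [pow_eq_zero_of_le hj h6, mul_zero, map_zero]))
    have h8 : H.h (ρ _ v) (ρ _ v) = 0 := h _ ⟨star (↑u⁻¹ * π ^ i), rfl⟩
    rw [hs, star_star, ← hm, H.eq_zero_comm] at h8
    exact hv (by convert h8 using 4; rw [mul_mul_mul_comm, u.inv_mul, one_mul, ← pow_add, add_comm])
  have h8 : Function.Injective ev := (injective_iff_map_eq_zero _).2 fun a ha =>
    hρ (LinearMap.ext fun w => by
      obtain ⟨b, rfl⟩ := LinearMap.range_eq_top.1 h7 w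
      change ρ a (ρ b v) = _
      rw [← hm, mul_comm, hm, show ρ a v = 0 from ha, map_zero, map_zero, LinearMap.zero_apply])
  let φ : unitary R →* H.GU := H.lift (ρ.toRingHom.toMonoidHom.comp (unitary R).subtype)
    fun u a b => by
      change H.h (ρ u a) (ρ u b) = _
      rw [hs, ← hm, u.2.1, map_one]; rfl
  have h9 : ∀ u w, (φ u).1 w = ρ u w := fun _ _ => rfl
  have h10 := (LinearEquiv.ofBijective ev ⟨h8, LinearMap.range_eq_top.1 h7⟩).finrank_eq
  refine ⟨(⊤ : Subgroup (unitary R)).map φ, ?_, ?_⟩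
  · rintro _ ⟨u, -, rfl⟩
    refine Subgroup.mem_centralizer_singleton_iff.2 (HS.ext fun w => ?_)
    rw [HS.mul_apply, HS.mul_apply, h9, h9, ← ht, ← ht, ← hm, ← hm, mul_comm]
  rw [sum_map (fun a b e => Subtype.ext (hρ (LinearMap.ext fun w => by rw [← h9, ← h9, e]))),
    ← finsum_comp_equiv Subgroup.topEquiv.toEquiv.symm, finsum_eq_sum_of_fintype,
    ← mul_zero ((-1 : ℂ) ^ finrank F V), ← hU.sum_eq q (h10 ▸ ho), mul_sum,
    sum_subtype (p := (· ∈ unitary R)) _ fun u => by simp [Unitary.mem_iff, mul_comm]]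
  refine sum_congr rfl fun u _ => ?_
  change H.omega q (φ u) = _
  rw [HS.omega, an, (Submodule.equivMapOfInjective ev h8 _).finrank_eq]
  suffices h : H.fix (φ u) = (LinearMap.ker (LinearMap.mul F R (u - 1))).map ev by rw [h]
  ext w
  obtain ⟨b, rfl⟩ := LinearMap.range_eq_top.1 h7 w
  rw [← Submodule.mem_comap (f := ev) (p := Submodule.map _ _),
    Submodule.comap_map_eq_of_injective h8, HS.mem_fix, h9, LinearMap.mem_ker, LinearMap.mul_apply',
    ← h8.eq_iff, sub_mul, map_sub, map_zero, sub_eq_zero, one_mul]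
  exact Eq.congr_left (hm _ _ _).symm

theorem indec' (q : ℕ) [UF F q] (ho : Odd (finrank F V)) (x : H.GU)
    (hi : ∀ W : Submodule F V, (∀ w ∈ W, x.1 w ∈ W) → Disjoint W (perp H W) → W = ⊥ ∨ W = ⊤) :
    ∃ K ≤ Subgroup.centralizer ({x} : Set H.GU), ∑ᶠ k : K, H.omega q k = 0 := by
  have := Module.finite_of_finite F (M := V)
  let f := aeval (R := F) (x.1.toLinearMap : End F V)
  let ρ := Ideal.kerLiftAlg f
  have hρ : Function.Injective ρ := Ideal.kerLiftAlg_injective f
  have hm : ∀ a b v, ρ (a * b) v = ρ a (ρ b v) := fun a b v => by rw [map_mul]; rfl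
  have ht : ∀ v, ρ (Ideal.Quotient.mk _ X) v = x.1 v := fun v => by
    rw [Ideal.kerLiftAlg_mk, aeval_X]; rfl
  have hp : ∀ n v, ρ (Ideal.Quotient.mk _ X ^ n) v = (x ^ n).1 v := fun n => by
    induction n with
    | zero => simp
    | succ n ih => intro v; rw [pow_succ, hm, ih, ht, pow_succ, HS.mul_apply]
  have h1 : ∀ a, ∃ b, ∀ v w, H.h (ρ a v) w = H.h v (ρ b w) := fun a => by
    obtain ⟨p, rfl⟩ := Ideal.Quotient.mk_surjective a
    induction p using Polynomial.induction_on' with
    | add p r hp hr =>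
      obtain ⟨a, ha⟩ := hp
      obtain ⟨b, hb⟩ := hr
      exact ⟨a + b, fun v w => by
        simp only [map_add, LinearMap.add_apply, H.add_left, H.add_right, ha, hb]⟩
    | monomial n c =>
      refine ⟨star c • Ideal.Quotient.mk _ X ^ ((orderOf x - 1) * n), fun v w => ?_⟩
      rw [← smul_X_eq_monomial, ← Ideal.Quotient.mkₐ_eq_mk F, map_smul, map_pow, map_smul, map_smul,
        Ideal.Quotient.mkₐ_eq_mk, LinearMap.smul_apply, LinearMap.smul_apply, hp, hp, H.smul_left,
        H.smul_right, star_star, H.iso_inv, pow_mul, ← inv_pow, inv_eq_of_mul_eq_one_right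
          (show x * x ^ (orderOf x - 1) = 1 by
            rw [← pow_succ', Nat.sub_add_cancel (orderOf_pos x), pow_orderOf_eq_one])]
  choose s hs using h1
  have h2 : ∀ a b, (∀ v w, H.h v (ρ a w) = H.h v (ρ b w)) → a = b := fun a b h =>
    hρ (LinearMap.ext fun w => H.ext_left fun v => by rw [H.symm, h, ← H.symm])
  letI : StarRing (F[X] ⧸ RingHom.ker f) :=
    { star := s
      star_involutive a := h2 _ _ fun v w => by rw [← hs, H.symm, ← hs, ← H.symm]
      star_mul a b := h2 _ _ fun v w => by rw [← hs, hm, hs, hs, hm]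
      star_add a b := h2 _ _ fun v w => by
        simp only [← hs, map_add, LinearMap.add_apply, H.add_left, H.add_right] }
  have : StarModule F (F[X] ⧸ RingHom.ker f) := ⟨fun c a => h2 _ _ fun v w => by
    change H.h v (ρ (s _) w) = H.h v (ρ (star c • s a) w)
    simp only [← hs, map_smul, LinearMap.smul_apply, H.smul_left, H.smul_right, star_star]⟩
  have := IsPrincipalIdealRing.of_surjective _ (Ideal.Quotient.mk_surjective (I := RingHom.ker f))
  exact indec q ho x hi ρ hρ ht hs

end Cfsg.Uni.Zero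

namespace Cfsg.Uni

open Module Zero

universe u

theorem stZero (F : Type u) [Field F] [StarRing F] [Fintype F] (q : ℕ) [UF F q] : StZero F q := by
  intro V _ _ _ H ho x
  induction h : finrank F V using Nat.strong_induction_on generalizing V with
  | _ n ih =>
  subst h
  by_cases hi : ∀ W : Submodule F V, (∀ w ∈ W, x.1 w ∈ W) → Disjoint W (perp H W) → W = ⊥ ∨ W = ⊤
  · exact indec' q ho x hi
  push Not at hi
  obtain ⟨W, h1, h2, h3, h4⟩ := hi
  have h5 := finrank_perp H W
  rcases Nat.even_or_odd (finrank F W) with h6 | h6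
  · have h7 : Disjoint (perp H W) (perp H (perp H W)) := by rw [perp_perp]; exact h2.symm
    have := mt Submodule.finrank_eq_zero.1 h3
    exact red q h7 x (perp_inv h2 x h1) (ih _ (by omega) _ _ (by grind) _ rfl)
  · exact red q h2 x h1 (ih _ (Submodule.finrank_lt h4) _ _ h6 _ rfl)

end Cfsg.Uni
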