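import Cfsg.Agent.Uni.AsmA
import Cfsg.Agent.Uni.Mod

/-!
# The constituents of the Weil character
-/

set_option autoImplicit false

namespace Cfsg.Uni

open Matrix Module
open scoped ComplexConjugate

universe u

variable {F : Type u} [Field F] [StarRing F] {ι : Type} [Fintype ι] [DecidableEq ι]

theorem finrank_sub_prod {A B : Type*} [AddCommGroup A] [Module F A] [AddCommGroup B] [Module F B]
    [FiniteDimensional F A] [FiniteDimensional F B] (p : Submodule F A) (r : Submodule F B) :
    finrank F (p.prod r) = finrank F p + finrank F r := by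
  rw [← Module.finrank_prod]
  exact LinearEquiv.finrank_eq
    { toFun x := (⟨x.1.1, x.2.1⟩, ⟨x.1.2, x.2.2⟩)
      invFun y := ⟨(y.1, y.2), y.1.2, y.2.2⟩
      map_add' _ _ := rfl
      map_smul' _ _ := rfl
      left_inv _ := rfl
      right_inv _ := rfl }

theorem finrank_MV : finrank F (MV F ι) = 2 * Fintype.card ι + 1 := by
  simp [Module.finrank_prod]; ring

theorem omega_sc [DecidableEq F] (q : ℕ) (z : unitary F) : (mh F ι).omega q ((mh F ι).sc z) =
    if z = 1 then (q : ℂ) ^ (2 * Fintype.card ι + 1) else -1 := by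
  unfold HS.omega
  split_ifs with h
  · have : (mh F ι).fix ((mh F ι).sc z) = ⊤ := by ext x; simp [h]
    rw [this, finrank_top, finrank_MV, ← mul_pow]; simp
  · have : (mh F ι).fix ((mh F ι).sc z) = ⊥ := by
      ext x
      have hz : z.1 - 1 ≠ 0 := fun e => h (Subtype.ext (sub_eq_zero.1 e))
      rw [HS.mem_fix, HS.sc_apply, ← sub_eq_zero, ← one_smul F x, smul_smul, ← sub_smul, mul_one,
        smul_eq_zero_iff_right hz, one_smul, Submodule.mem_bot]
    rw [this, finrank_bot, finrank_MV]; simp [pow_succ]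

variable {K : Type u} [Field K] [Algebra F K] (b : Basis ι F K)

theorem sing_val (β : Kˣ) : (sing b β).1 = Algebra.leftMulMatrix b β.1 := rfl

theorem sing_map (c : Fˣ) :
    sing b (Units.map (algebraMap F K).toMonoidHom c) = dgG fun _ => c := Units.ext (by
  rw [sing_val]
  simp [dgG, algebraMap_eq_diagonal])

theorem isUnit_sing_sub (β : Kˣ) (c : F) (h : β.1 ≠ algebraMap F K c) :
    IsUnit ((sing b β).1 - c • (1 : Matrix ι ι F)) := by
  have := (sub_ne_zero.2 h).isUnit.map (Algebra.leftMulMatrix b)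
  rwa [map_sub, AlgHom.commutes, Algebra.algebraMap_eq_smul_one] at this

theorem eq_zero_of_isUnit {A : Matrix ι ι F} (h : IsUnit A) {x : ι → F} (hx : A *ᵥ x = 0) : x = 0 := by
  obtain ⟨B, rfl⟩ := h
  rw [← one_mulVec x, ← B.inv_mul, ← mulVec_mulVec, hx, mulVec_zero]

theorem omega_sing [DecidableEq F] [DecidableEq K] (q : ℕ) (z : unitary F) (β : Kˣ) :
    (mh F ι).omega q ((mh F ι).sc z * lh (sing b β)) = -(if z = 1 then -(q : ℂ) else 1) *
      if β = Units.map (algebraMap F K).toMonoidHom (Unitary.toUnits z⁻¹) then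
        (q : ℂ) ^ (2 * Fintype.card ι) else 1 := by
  have hz : star z.1 * z.1 = 1 := z.2.1
  have h1 : finrank F (LinearMap.ker ((z.1 - 1) • LinearMap.id : F →ₗ[F] F)) =
      if z = 1 then 1 else 0 := by
    split_ifs with h
    · rw [h, OneMemClass.coe_one, sub_self, zero_smul, LinearMap.ker_zero, finrank_top, finrank_self]
    · rw [LinearMap.ker_smul _ (z.1 - 1) fun e => h (Subtype.ext (sub_eq_zero.1 e)), LinearMap.ker_id,
        finrank_bot]
  unfold HS.omega
  by_cases h : β = Units.map (algebraMap F K).toMonoidHom (Unitary.toUnits z⁻¹)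
  · have : (mh F ι).fix ((mh F ι).sc z * lh (sing b β)) =
        Submodule.prod ⊤ (Submodule.prod (LinearMap.ker ((z.1 - 1) • LinearMap.id)) ⊤) := by
      ext x
      rw [h, sing_map]
      simp [lh_apply, dgG, ← smul_one_eq_diagonal, smul_mulVec, Prod.ext_iff, smul_smul, sub_mul,
        sub_eq_zero, mul_comm z.1, hz, inv_mul_cancel₀ (show z.1 ≠ 0 from fun e => by simp [e] at hz)]
    rw [this, finrank_sub_prod, finrank_sub_prod, h1, finrank_top, finrank_MV, if_pos h]
    have h2 : (q : ℂ) ^ (2 * Fintype.card ι) = (-q) ^ Fintype.card ι * (-q) ^ Fintype.card ι := by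
      rw [← mul_pow, pow_mul]; congr 1; ring
    split_ifs <;> simp [pow_succ, pow_add, h2]; ring
  · have hu := isUnit_sing_sub b β (star z.1) fun e => h (Units.ext e)
    have : (mh F ι).fix ((mh F ι).sc z * lh (sing b β)) =
        Submodule.prod ⊥ (Submodule.prod (LinearMap.ker ((z.1 - 1) • LinearMap.id)) ⊥) := by
      ext x
      simp only [HS.mem_fix, HS.mul_apply, HS.sc_apply, lh_apply, Prod.smul_mk, Prod.ext_iff,
        Submodule.mem_prod, Submodule.mem_bot, LinearMap.mem_ker, LinearMap.smul_apply,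
        LinearMap.id_apply, smul_eq_mul, sub_mul, one_mul, sub_eq_zero]
      refine and_congr ⟨fun e => eq_zero_of_isUnit hu ?_, fun e => by simp [e]⟩
        (and_congr Iff.rfl ⟨fun e => eq_zero_of_isUnit ((isUnit_conjTranspose _).2 hu) ?_,
          fun e => by simp [e]⟩)
      · rw [sub_mulVec, smul_mulVec, one_mulVec, sub_eq_zero]
        conv_rhs => rw [← e, smul_smul, hz, one_smul]
      · rw [conjTranspose_sub, conjTranspose_smul, conjTranspose_one, star_star, sub_mulVec,
          smul_mulVec, one_mulVec, sub_eq_zero]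
        conv_lhs => rw [← e, mulVec_smul, mulVec_mulVec, ← conjTranspose_mul, Units.inv_mul,
          conjTranspose_one, one_mulVec]
    rw [this, finrank_sub_prod, finrank_sub_prod, h1, finrank_bot, finrank_MV, if_neg h]
    split_ifs <;> simp [pow_succ]

variable [Fintype F] (q : ℕ) [UF F q] (ε : Γ F ι →* unitary F)

noncomputable instance : Fintype (unitary F) := Fintype.ofFinite _

/-- the constituents of the Weil character, twisted to be trivial on the centre -/
noncomputable def zt (γ : unitary F →* ℂˣ) (g : Γ F ι) : ℂ :=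
  (γ (ε g)⁻¹ : ℂ) * proj (mh F ι).sc ((mh F ι).omega q) γ g

theorem zt_char (hW : IsCharacter _ ((mh F ι).omega q)) (γ : unitary F →* ℂˣ) :
    IsCharacter _ (zt q ε γ) := by
  have := (isCharacter_unitsHom (γ.comp ε)⁻¹).mul (proj_isCharacter _ (mh F ι).sc_comm hW γ)
  convert this using 1
  ext g; simp [zt]

variable {ε} (hε : ∀ z, ε ((mh F ι).sc z) = z)

include hε in
theorem zt_sc (γ : unitary F →* ℂˣ) (z : unitary F) : zt q ε γ ((mh F ι).sc z) = zt q ε γ 1 := by
  simp only [zt, proj, hε, map_one, inv_one, Units.val_one, one_mul, mul_one, ← map_mul,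
    Finset.mul_sum]
  refine Fintype.sum_equiv (Equiv.mulRight z) _ _ fun w => ?_
  simp only [Equiv.coe_mulRight, mul_inv, map_mul, Units.val_mul]
  ring

theorem sum_gam [DecidableEq F] [DecidableEq (unitary F →* ℂˣ)] (γ : unitary F →* ℂˣ) (a c : ℂ) :
    ∑ z : unitary F, (γ z⁻¹ : ℂ) * (if z = 1 then a else c) =
      a - c + if γ = 1 then ((q : ℂ) + 1) * c else 0 := by
  have := sum_hom γ
  rw [← Equiv.sum_comp (Equiv.inv _), card_unitary F q] at this
  rw [Finset.sum_congr rfl (g := fun z => (γ z⁻¹ : ℂ) * c + if z = 1 then a - c else 0) fun z _ => by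
    split_ifs with h <;> simp [h], Finset.sum_add_distrib, ← Finset.sum_mul]
  simp only [Equiv.inv_apply] at this
  rw [this]
  split_ifs <;> simp [add_comm]

omit [UF F q] in
theorem q_add_ne : (q : ℂ) + 1 ≠ 0 := by exact_mod_cast q.succ_ne_zero

theorem zt_one [DecidableEq (unitary F →* ℂˣ)] (γ : unitary F →* ℂˣ) : (q + 1) * zt q ε γ 1 =
    (q : ℂ) ^ (2 * Fintype.card ι + 1) + 1 - if γ = 1 then (q : ℂ) + 1 else 0 := by
  classical
  simp only [zt, proj, map_one, inv_one, Units.val_one, one_mul, mul_one, omega_sc, sum_gam q,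
    card_unitary F q, Nat.cast_add, Nat.cast_one, mul_inv_cancel_left₀ (q_add_ne q)]
  split_ifs <;> ring

theorem sum_zt (g : Γ F ι) : ∑ γ, zt q ε γ g = (mh F ι).omega q ((mh F ι).sc (ε g)⁻¹ * g) :=
  sum_proj _ _ _ _

theorem omega_mul_conj (g : Γ F ι) : (mh F ι).omega q g * conj ((mh F ι).omega q g) =
    Nat.card ((mh F ι).fix g) := by
  rw [Module.natCard_eq_pow_finrank (K := F), Nat.card_eq_fintype_card, UF.card (F := F) (q := q)]
  simp only [HS.omega, map_mul, map_pow, map_neg, map_one, map_natCast]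
  rw [mul_mul_mul_comm, ← mul_pow, ← mul_pow]
  simp [pow_two]

variable (hd : Function.Surjective fun z => ε (dh ι z))

include hε hd in
theorem norm_zt [Nonempty ι] [Fintype (Γ F ι)] (hO : StOrb F) :
    ∃ m ≤ q + 1, classInner (∑ γ, zt q ε γ) (∑ γ, zt q ε γ) = (m : ℕ) := by
  classical
  let φ : Γ F ι →* (MV F ι ≃ₗ[F] MV F ι) := (Subgroup.subtype _).comp
    { toFun g := (mh F ι).sc (ε g)⁻¹ * g
      map_one' := by simp
      map_mul' g h := by
        rw [map_mul, mul_inv, map_mul, mul_assoc, mul_assoc, ← mul_assoc _ g h, HS.sc_comm _ _ g,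
          mul_assoc] }
  letI : MulAction (Γ F ι) (MV F ι) := MulAction.compHom _ φ
  have hs : ∀ (g : Γ F ι) (x : MV F ι), φ g x = ((mh F ι).sc (ε g)⁻¹ * g).1 x := fun _ _ => rfl
  refine ⟨Fintype.card (MulAction.orbitRel.Quotient (Γ F ι) (MV F ι)), ?_, ?_⟩
  · have ht : ∀ x y : MV F ι, x ≠ 0 → y ≠ 0 → (mh F ι).h x x = (mh F ι).h y y →
        ∃ g : Γ F ι, φ g x = y := fun x y hx hy e => by
      obtain ⟨g, hg⟩ := (hO ι).1 x y hx hy e
      obtain ⟨a, ha⟩ := (hO ι).2 x
      obtain ⟨z, hz⟩ := hd (ε g)⁻¹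
      refine ⟨g * (a⁻¹ * dh ι z * a), ?_⟩
      have h1 : (dh ι z).1 (a.1 x) = a.1 x := by rw [dh_apply, ha, mul_zero, ← ha]
      have h2 : ε (g * (a⁻¹ * dh ι z * a)) = 1 := by
        simp only at hz
        rw [map_mul, map_mul, map_mul, hz, map_inv, inv_mul_cancel_comm, mul_inv_cancel]
      rw [hs, h2, inv_one, map_one, one_mul, HS.mul_apply, HS.mul_apply, HS.mul_apply, h1,
        HS.inv_apply_apply, hg]
    let f : MV F ι → Option {a : F // star a = a} := fun x =>
      if x = 0 then none else some ⟨(mh F ι).h x x, (mh F ι).star_h x x⟩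
    have := Fintype.card_le_of_injective
      (fun o : MulAction.orbitRel.Quotient (Γ F ι) (MV F ι) => f o.out) fun o o' e => by
        rw [← o.out_eq, ← o'.out_eq]
        refine (Quotient.sound ?_).symm
        by_cases h : o.out = 0 <;> by_cases h' : o'.out = 0 <;> simp only [f, h, h'] at e
        · rw [h, h']
        · simp at e
        · simp at e
        · exact ht _ _ h h' (by simpa using e)
    rwa [Fintype.card_option, ← Nat.card_eq_fintype_card (α := {a : F // star a = a}),
      card_fixed F q] at this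
  · have h0 : (Nat.card (Γ F ι) : ℂ) ≠ 0 := by exact_mod_cast Nat.card_pos.ne'
    have := MulAction.sum_card_fixedBy_eq_card_orbits_mul_card_group (Γ F ι) (MV F ι)
    simp only [classInner_def, Finset.sum_apply, sum_zt, omega_mul_conj]
    rw [inv_mul_eq_iff_eq_mul₀ h0, Nat.card_eq_fintype_card, ← Nat.cast_mul, mul_comm, ← this,
      Nat.cast_sum]
    exact Finset.sum_congr rfl fun g _ => by rw [← Nat.card_eq_fintype_card]; rfl

theorem not_occ_zt (hW : IsCharacter _ ((mh F ι).omega q)) (hZ : StZero F q) :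
    ¬ Occ (zt q ε 1) := by
  classical
  rintro ⟨x, hx⟩
  obtain ⟨K, hK, h⟩ := hZ _ (mh F ι) (by rw [finrank_MV]; exact odd_two_mul_add_one _) x
  refine finsum_ne_zero_of (zt_char q ε hW 1) (Subgroup.subtype _) K.subtype
    (fun k => ⟨⟨k, hK k.2⟩, 1, rfl, (mul_one _).symm⟩) hx ?_
  choose m hm using fun γ => finsum_nat (proj_isCharacter _ (mh F ι).sc_comm hW γ) K.subtype
  have := Fintype.ofFinite K
  have h1 : ∑ γ, (m γ : ℂ) = 0 := by
    simp only [← hm, ← h, finsum_eq_sum_of_fintype]
    rw [Finset.sum_comm]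
    exact Finset.sum_congr rfl fun k _ => by simpa using sum_proj (mh F ι).sc ((mh F ι).omega q) 1 k
  have h2 : m 1 = 0 := Finset.sum_eq_zero_iff.1 (by exact_mod_cast h1) 1 (Finset.mem_univ _)
  simpa [zt, h2] using hm 1

include hε hd in
theorem sum_sing_zt [Finite K] {γ : unitary F →* ℂˣ} (hγ : γ ≠ 1) :
    ∑ᶠ β : Kˣ, zt q ε γ (lh (sing b β)) ≠ 0 := by
  classical
  have := Fintype.ofFinite Kˣ
  let η : Kˣ →* ℂˣ := (γ.comp (ε.comp (lh.comp (sing b))))⁻¹
  let γ' : unitary F →* ℂˣ := γ.comp (ε.comp (dh ι))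
  have hγ' : γ' ≠ 1 := fun e => hγ (MonoidHom.ext fun z => by
    obtain ⟨w, rfl⟩ := hd z
    exact DFunLike.congr_fun e w)
  have h1 : ∀ z : unitary F, (η (Units.map (algebraMap F K).toMonoidHom (Unitary.toUnits z⁻¹)) : ℂ) *
      γ z⁻¹ = γ' z⁻¹ := fun z => by
    have h2 := congrArg ε (sc_eq (ι := ι) z⁻¹)
    rw [hε, map_mul] at h2
    simp only [η, γ', MonoidHom.inv_apply, MonoidHom.comp_apply, sing_map]
    rw [← Units.val_mul, ← map_inv, ← map_mul]
    congr 2
    rw [inv_mul_eq_iff_eq_mul]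
    exact h2
  have h3 : ∀ β : Kˣ, (q + 1) * zt q ε γ (lh (sing b β)) = (q + 1) * η β -
      ((q : ℂ) ^ (2 * Fintype.card ι) - 1) * ∑ z : unitary F,
        if β = Units.map (algebraMap F K).toMonoidHom (Unitary.toUnits z⁻¹) then
          (γ' z⁻¹ : ℂ) * if z = 1 then -(q : ℂ) else 1 else 0 := fun β => by
    have h4 := sum_gam q γ (-(q : ℂ)) 1
    rw [if_neg hγ] at h4
    simp only [zt, proj, card_unitary F q, Nat.cast_add, Nat.cast_one, omega_sing]
    rw [mul_left_comm, mul_inv_cancel_left₀ (q_add_ne q), Finset.mul_sum, Finset.mul_sum,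
      show ((q : ℂ) + 1) * η β = ∑ z : unitary F, -(η β * ((γ z⁻¹ : ℂ) * if z = 1 then -(q : ℂ) else 1)) by
        rw [Finset.sum_neg_distrib, ← Finset.mul_sum, h4]; ring, ← Finset.sum_sub_distrib]
    refine Finset.sum_congr rfl fun z _ => ?_
    have h5 : (γ (ε (lh (sing b β)))⁻¹ : ℂ) = η β := by simp [η]
    rw [h5]
    by_cases h : β = Units.map (algebraMap F K).toMonoidHom (Unitary.toUnits z⁻¹)
    · rw [if_pos h, if_pos h, ← h1, ← h]; ring
    · rw [if_neg h, if_neg h]; ring
  have hq := two_le_q F q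
  rw [finsum_eq_sum_of_fintype, ← mul_ne_zero_iff_left (q_add_ne q), Finset.mul_sum]
  simp only [h3, Finset.sum_sub_distrib, ← Finset.mul_sum, sum_hom]
  rw [Finset.sum_comm]
  simp only [Finset.sum_ite_eq', Finset.mem_univ, if_true, sum_gam q, if_neg hγ']
  have h6 : 1 < q ^ (2 * Fintype.card ι) := Nat.one_lt_pow (by
    have := b.index_nonempty
    have := Fintype.card_pos (α := ι)
    omega) hq
  obtain ⟨r, hr⟩ := Nat.exists_eq_add_of_lt h6
  have hr' : (q : ℂ) ^ (2 * Fintype.card ι) = 1 + r + 1 := by exact_mod_cast hr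
  rw [hr']
  split_ifs
  · have : ((q + 1) * (Nat.card Kˣ + r + 1) : ℕ) ≠ 0 := by positivity
    intro e; apply this; rw [← Nat.cast_inj (R := ℂ)]; push_cast; linear_combination e
  · have : ((q + 1) * (r + 1) : ℕ) ≠ 0 := by positivity
    intro e; apply this; rw [← Nat.cast_inj (R := ℂ)]; push_cast; linear_combination e

end Cfsg.Uni
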