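import Cfsg.Agent.Uni.Zero

/-! Similar unitary transformations with commutative commutant are conjugate. -/

set_option autoImplicit false

namespace Cfsg.Uni.Three

open Module

universe u

theorem herbrand {C : Type*} [CommGroup C] [Finite C] (σ : C →* C) (hσ : ∀ a, σ (σ a) = a)
    (h : ∀ u, u * σ u = 1 → ∃ a, u * σ a = a) {s : C} (hs : σ s = s) : ∃ a, a * σ a = s := by
  have h1 : (MonoidHom.id C / σ).range = (MonoidHom.id C * σ).ker := by
    ext u
    refine ⟨?_, fun hu => (h u hu).imp fun a ha => by simpa [div_eq_iff_eq_mul] using ha.symm⟩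
    rintro ⟨a, rfl⟩
    simp [hσ]
  have h2 : (MonoidHom.id C * σ).range ≤ (MonoidHom.id C / σ).ker := by
    rintro _ ⟨a, rfl⟩
    simp [hσ, mul_comm]
  have h3 := (MonoidHom.id C / σ).ker.card_mul_index
  rw [← (MonoidHom.id C * σ).ker.card_mul_index, Subgroup.index_ker, Subgroup.index_ker, h1,
    mul_comm] at h3
  have h4 : s ∈ (MonoidHom.id C / σ).ker := by simp [hs]
  rwa [← Subgroup.eq_of_le_of_card_ge h2 (Nat.eq_of_mul_eq_mul_left Nat.card_pos h3).le] at h4

variable {F : Type u} [Field F] [StarRing F] {V : Type u} [AddCommGroup V] [Module F V]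
  (H : HS F V)

theorem ext_right (g : V ≃ₗ[F] V) {u v : V} (e : ∀ x, H.h (g x) u = H.h (g x) v) : u = v :=
  H.ext_left fun z => by rw [H.symm, ← g.apply_symm_apply z, e, ← H.symm]

variable [Fintype F] [FiniteDimensional F V]

theorem exists_rep (φ : V →ₗ[F] F) : ∃ v, ∀ w, φ w = H.h w v := by
  have := Module.finite_of_finite F (M := V)
  have := Module.finite_of_finite F (M := Dual F (⊤ : Submodule F V))
  have h1 : Function.Bijective (Zero.toDual H ⊤) := (Nat.bijective_iff_injective_and_card _).2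
    ⟨(injective_iff_map_eq_zero _).2 fun v hv => H.nd v fun y =>
      H.eq_zero_comm.1 (LinearMap.congr_fun hv ⟨y, trivial⟩), by
      rw [natCard_eq_pow_finrank (K := F), natCard_eq_pow_finrank (K := F) (V := Dual F _),
        Subspace.dual_finrank_eq, finrank_top]⟩
  obtain ⟨v, hv⟩ := h1.2 (φ ∘ₗ (⊤ : Submodule F V).subtype)
  exact ⟨v, fun w => (LinearMap.congr_fun hv ⟨w, trivial⟩).symm⟩

theorem exists_adj (A : End F V) : ∃ B : End F V, ∀ x y, H.h (A x) y = H.h x (B y) := by
  choose b hb using fun y => exists_rep H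
    { toFun x := H.h (A x) y, map_add' x z := by rw [map_add, H.add_left]
      map_smul' c x := by rw [map_smul, H.smul_left]; rfl }
  have hb' : ∀ y x, H.h x (b y) = H.h (A x) y := fun y x => (hb y x).symm
  exact ⟨{ toFun := b
           map_add' y z := ext_right H 1 fun x => by simp only [hb', H.add_right]
           map_smul' c y := ext_right H 1 fun x => by simp only [hb', H.smul_right, RingHom.id_apply] },
    fun x y => hb y x⟩

variable (q : ℕ) [UF F q]

theorem exists_noneig (h : finrank F V ≤ q) (u : End F V) :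
    ∃ c : F, Function.Injective (c • (1 : End F V) + star c • u) := by
  obtain ⟨z, hz⟩ : ∃ z : unitary F, ∀ x, u x = z.1 • x → x = 0 := by
    by_contra! h1
    choose x hx h0 using h1
    have := Fintype.ofFinite (unitary F)
    have := (u.eigenvectors_linearIndependent' _ Subtype.val_injective x fun z =>
      ⟨End.mem_eigenspace_iff.2 (hx z), h0 z⟩).fintype_card_le_finrank
    rw [← Nat.card_eq_fintype_card, card_unitary F q] at this
    omega
  have h1 : z.1 * star z.1 = 1 := z.2.2
  obtain ⟨k, hk⟩ : ∃ k : F, k - z.1 * star k ≠ 0 := by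
    obtain ⟨c, hc⟩ := exists_star_ne F q
    by_contra! h2
    have h3 := h2 1
    rw [star_one, mul_one, sub_eq_zero] at h3
    exact hc (Eq.symm (by simpa [← h3, sub_eq_zero] using h2 c))
  refine ⟨k - z.1 * star k, (injective_iff_map_eq_zero _).2 fun x hx => hz x ?_⟩
  refine smul_right_injective V (star_ne_zero.2 hk) ?_
  simp only [LinearMap.add_apply, LinearMap.smul_apply, End.one_apply] at hx
  simp only [eq_neg_of_add_eq_zero_right hx, smul_smul, ← neg_smul]
  simp only [star_sub, star_mul', star_star]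
  congr 1
  linear_combination k * h1

theorem conj_of_sim (h : finrank F V ≤ q) (g g' : H.GU) (T : V ≃ₗ[F] V)
    (hT : ∀ x, T (g.1 x) = g'.1 (T x))
    (hC : ∀ a b : End F V, (∀ x, g.1 (a x) = a (g.1 x)) → (∀ x, g.1 (b x) = b (g.1 x)) →
      a * b = b * a) : IsConj g g' := by
  have := Module.finite_of_finite F (M := V)
  have : Finite (End F V) := Finite.of_injective _ DFunLike.coe_injective
  choose ad had using exists_adj H
  let R : Submonoid (End F V) :=
    { carrier := {a | ∀ x, g.1 (a x) = a (g.1 x)}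
      one_mem' _ := rfl
      mul_mem' {a b} ha hb x := by rw [End.mul_apply, ha, hb, End.mul_apply] }
  letI : CommMonoid R := { (inferInstance : Monoid R) with
    mul_comm a b := Subtype.ext (hC _ _ a.2 b.2) }
  have hu : ∀ a : R, Function.Injective a.1 → IsUnit a := fun a ha =>
    let ⟨b, hb⟩ := Finite.injective_iff_surjective.1 (show Function.Injective (a * ·) from
      fun b c e => Subtype.ext (LinearMap.ext fun x => ha (LinearMap.congr_fun (congrArg Subtype.val e) x))) 1
    IsUnit.of_mul_eq_one b hb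
  have h1 : ∀ {a b : End F V}, (∀ x y, H.h x (a y) = H.h x (b y)) → a = b := fun e =>
    LinearMap.ext fun y => ext_right H 1 fun x => e x y
  let σ : R →* R :=
    { toFun a := ⟨ad a, fun y => ext_right H g.1 fun x => by rw [← had, ← a.2, H.iso, H.iso, had]⟩
      map_one' := Subtype.ext (h1 fun x y => (had _ x y).symm)
      map_mul' a b := Subtype.ext (h1 fun x y => by
        rw [← had, mul_comm a b]; exact (had b.1 (a.1 x) y).trans (had a.1 x _)) }
  have h2 : ∀ a : R, σ (σ a) = a := fun a => Subtype.ext (h1 fun x y =>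
    (had _ x y).symm.trans (by rw [H.symm, H.symm (a.1 y) x]; exact congrArg _ (had _ _ _).symm))
  have h3 : ∀ x y, H.h x ((ad T.toLinearMap * T.toLinearMap) y) = H.h (T x) (T y) := fun x y =>
    (had _ _ _).symm
  obtain ⟨s, hs⟩ := hu ⟨ad T.toLinearMap * T.toLinearMap, fun y => ext_right H g.1 fun x => by
      rw [H.iso, h3, h3, hT, hT, H.iso]⟩ fun x y e =>
    T.injective (ext_right H T fun z => by rw [← h3, ← h3]; exact congrArg _ e)
  obtain ⟨a, ha⟩ := herbrand (Units.map σ) (fun a => Units.ext (h2 a)) (fun u hu' => by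
    obtain ⟨c, hc⟩ := exists_noneig q h u.1.1
    obtain ⟨a, ha⟩ := hu ⟨_, fun x => by simp [u.1.2 x]⟩ hc
    refine ⟨a, Units.ext ?_⟩
    have h4 : ad u.1.1 * u.1.1 = 1 := congrArg (·.1.1) ((mul_comm _ _).trans hu')
    rw [Units.val_mul, Units.coe_map, ha, mul_comm]
    refine Subtype.ext (h1 fun x y => (had _ _ _).symm.trans ?_)
    simp only [LinearMap.add_apply, LinearMap.smul_apply, End.one_apply, H.add_left, H.add_right,
      H.smul_left, H.smul_right, star_star, had, ← End.mul_apply, h4]
    ring) (s := s) (Units.ext (by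
      rw [Units.coe_map, hs]
      exact Subtype.ext (h1 fun x y => (had _ _ _).symm.trans (by rw [H.symm, h3, ← H.symm, h3]))))
  have h4 : ad a.1.1 * a.1.1 = ad T.toLinearMap * T.toLinearMap :=
    (congrArg (·.1.1) ((mul_comm _ _).trans ha)).trans (congrArg Subtype.val hs)
  have h5 : ∀ x, a.1.1 ((a⁻¹).1.1 x) = x := LinearMap.congr_fun (congrArg Subtype.val a.mul_inv)
  refine isConj_iff.2 ⟨⟨LinearEquiv.ofInjectiveEndo (T.toLinearMap * (a⁻¹).1.1)
    (T.injective.comp fun x y e => by rw [← h5 x, e, h5]), fun x y => ?_⟩,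
    mul_inv_eq_iff_eq_mul.2 (HS.ext fun x => ?_)⟩
  · exact (h3 _ _).symm.trans (by rw [← h4, End.mul_apply, ← had, h5, h5])
  · exact (congrArg T ((a⁻¹).1.2 x).symm).trans (hT _)

/-- `g` has a cyclic vector and characteristic polynomial `X³ - τ X² + τ̄ X - 1` -/
def Reg (g : H.GU) (τ : F) : Prop := (∃ v, LinearIndependent F ![v, g.1 v, g.1 (g.1 v)]) ∧
  ∀ x, g.1 (g.1 (g.1 x)) = x - star τ • g.1 x + τ • g.1 (g.1 x)

variable {H}

theorem Reg.conj (h3 : finrank F V = 3) (hq : 3 ≤ q) {g g' : H.GU} {τ : F} (h : Reg H g τ)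
    (h' : Reg H g' τ) : IsConj g g' := by
  obtain ⟨⟨v, hv⟩, h⟩ := h
  obtain ⟨⟨w, hw⟩, h'⟩ := h'
  let b := basisOfLinearIndependentOfCardEqFinrank hv (by simp [h3])
  let b' := basisOfLinearIndependentOfCardEqFinrank hw (by simp [h3])
  have e : ∀ i, b.equiv b' (Equiv.refl _) (![v, g.1 v, g.1 (g.1 v)] i) =
      ![w, g'.1 w, g'.1 (g'.1 w)] i := fun i => by simpa [b, b'] using b.equiv_apply i b' (Equiv.refl _)
  have e0 : _ = w := e 0
  have e1 : _ = g'.1 w := e 1
  have e2 : _ = g'.1 (g'.1 w) := e 2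
  simp only [Matrix.cons_val] at e0 e1 e2
  refine conj_of_sim H q (h3 ▸ hq) g g' (b.equiv b' (Equiv.refl _)) (LinearMap.congr_fun
    (b.ext (f₁ := (b.equiv b' (Equiv.refl _)).toLinearMap ∘ₗ g.1.toLinearMap)
      (f₂ := g'.1.toLinearMap ∘ₗ (b.equiv b' (Equiv.refl _)).toLinearMap) fun i => ?_))
    fun a c ha hc => ?_
  · fin_cases i <;> simp [b, h, h', e0, e1, e2]
  · have e3 := b.sum_repr (a v)
    have e4 : a = b.repr (a v) 0 • 1 + b.repr (a v) 1 • g.1.toLinearMap +
        b.repr (a v) 2 • (g.1.toLinearMap * g.1.toLinearMap) := by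
      generalize b.repr (a v) = r at *
      simp only [Fin.sum_univ_three, b, coe_basisOfLinearIndependentOfCardEqFinrank,
        Matrix.cons_val] at e3
      refine b.ext fun i => ?_
      fin_cases i <;> simp [b, ← ha, ← e3]
    rw [e4]
    ext x
    simp [hc]

end Cfsg.Uni.Three
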