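import Cfsg.Agent.Uni.UniqA

/-!
# Rigidity of rank one modules
-/

set_option autoImplicit false

namespace Cfsg.Uni

open Matrix

universe u

variable {F : Type u} [Field F] [StarRing F] {ι : Type} [Fintype ι] [DecidableEq ι]
  {M : Type} [AddCommGroup M] [Module ℂ M] {ψ : AddChar F ℂ} {ρ : Representation ℂ (Γ F ι) M}

variable (ψ ρ) in
/-- `R`-invariant subspaces of `plus` -/
def RI (o : ι) (Y : Submodule ℂ M) : Prop := Y ≤ HS.plus ψ ρ (ev_iso F o) ∧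
  ∀ p : (mh F ι).SP (ev F o), ∀ m ∈ Y, ρ p.toGU m ∈ Y

theorem RI.comap {o : ι} {Y : Submodule ℂ M} (h : RI ψ ρ o Y) (s : Γ F ι) (hs : s.1 (ev F o) = ev F o) :
    RI ψ ρ o (Y.comap (ρ s)) := by
  have h1 : ∀ x, (mh F ι).h (s.1 x) (ev F o) = (mh F ι).h x (ev F o) := fun x => by
    conv_lhs => rw [← hs, HS.iso]
  refine ⟨fun m hm a ha => ?_, fun p m hm => ?_⟩
  · have : HS.tv (ev_iso F o) ha = s⁻¹ * HS.tv (ev_iso F o) ha * s := by
      rw [mul_assoc, eq_inv_mul_iff_mul_eq]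
      exact HS.ext fun x => by simp [HS.tv_apply, h1, hs]
    rw [this, ← rho_mul, ← rho_mul, h.1 hm a ha, map_smul, rho_mul, inv_mul_cancel, map_one]; rfl
  · have : s * p.toGU = HS.SP.toGU ⟨s.1 p.v, p.a, p.ee, by rw [h1, p.ve], by rw [HS.iso, p.rel]⟩ * s :=
      HS.ext fun x => by simp [HS.SP.toGU_apply, h1, hs, HS.iso]
    rw [Submodule.mem_comap, rho_mul, this, ← rho_mul]
    exact h.2 _ _ hm

theorem skew_vv (u f : ι → F) : (vecMulVec u (star f) - vecMulVec f (star u)) +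
    (vecMulVec u (star f) - vecMulVec f (star u))ᴴ = 0 := by
  simp [conjTranspose_vecMulVec]

variable [Fintype F] (q : ℕ) [UF F q] (hψ : Psi ψ) (hR : RankOne ψ ρ)
include q hψ hR

theorem RI.dec {o : ι} {Y : Submodule ℂ M} (h : RI ψ ρ o Y) :
    Y ≤ sup (fun φ => Y ⊓ wt ψ ρ φ) fun φ => φ o * star (φ o) = 1 := by
  let l : (ι → F) → AddChar (ι → F) ℂ := fun φ => ψ.compAddMonoidHom
    { toFun u := φ ⬝ᵥ u * star (φ o) - star (φ ⬝ᵥ u) * φ o
      map_zero' := by simp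
      map_add' u v := by simp; ring }
  have hl : ∀ φ u, l φ u = ψ (φ ⬝ᵥ u * star (φ o) - star (φ ⬝ᵥ u) * φ o) := fun _ _ => rfl
  rw [sup, iSup_subtype']
  refine eig_dec (fun u => ρ (qh (.skw _ (skew_vv u (Pi.single o 1))))) _ (fun φ => l φ.1)
    (fun φ u m hm => ?_) (fun φ φ' e => ?_) Y (fun u m hm => ?_) fun m hm => ?_
  · rw [wt_skw _ hm, hl]
    simp [sub_mulVec, vecMulVec_mulVec, star_dotProduct_star, dotProduct_comm, mul_comm]
  · have h1 : ∀ k, φ.1 k * star (φ.1 o) = φ'.1 k * star (φ'.1 o) := fun k => by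
      by_contra hne
      obtain ⟨c, hc⟩ := hψ.exists_sub q (sub_ne_zero.2 hne)
      have := DFunLike.congr_fun e (Pi.single k c)
      rw [hl, hl, ← div_eq_one_iff_eq (AddChar.val_isUnit ψ _).ne_zero, ← AddChar.map_sub_eq_div] at this
      refine hc (Eq.trans (congrArg ψ ?_) this)
      simp; ring
    have h2 := φ.2
    have h3 := φ'.2
    convert wt_smul ⟨star (φ.1 o) * φ'.1 o, by
      constructor <;> rw [star_mul', star_star] <;> linear_combination (φ'.1 o * star (φ'.1 o)) * h2 + h3⟩ φ.1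
    ext k
    simp only [Pi.smul_apply, smul_eq_mul]
    linear_combination -φ'.1 k * h3 - φ'.1 o * h1 k
  · convert h.2 ⟨(u, 0, 0), 0, ev_iso F o, by simp [mh_h, ev], by simp [mh_h]⟩ m hm
    exact HS.ext fun x => by
      simp [qh_apply, HS.SP.toGU_apply, HQ.skw, mh_h, ev, add_mulVec, neg_mulVec, vecMulVec_mulVec,
        dotProduct_comm, sub_eq_add_neg, add_assoc, Prod.ext_iff]
  · rw [← iSup_subtype' (p := fun φ : ι → F => φ o * star (φ o) = 1) (f := fun φ _ => wt ψ ρ φ)]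
    simpa [sup] using sel q hψ (fun _ => le_rfl) (star_one F) (hR.mem m) (k := o)
      fun a ha => by rw [one_mul]; exact h.1 hm a ha

theorem RI.qh_mem {o : ι} {Y : Submodule ℂ M} (h : RI ψ ρ o Y) (p : HQ F ι) : qh p ∈ stab ρ Y :=
  fun m hm => sup_map _ _ (fun φ hφ m hm => by
    have h0 : φ o ≠ 0 := fun e => by simp [e] at hφ
    obtain ⟨a, ha⟩ := exists_trace q (s := -(φ ⬝ᵥ p.y / φ o * star (φ ⬝ᵥ p.y / φ o))) (by simp [mul_comm])
    have ha' : a + star a + φ ⬝ᵥ p.y / φ o * star (φ ⬝ᵥ p.y / φ o) = 0 := by rw [ha, neg_add_cancel]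
    rw [← mul_inv_cancel_left (HQ.rt o _ a ha') p, map_mul, ← rho_mul,
      hm.2 _ (by simp [HQ.rt, mul_div_cancel₀ _ h0]), map_smul]
    refine Y.smul_mem _ ?_
    convert h.2 ⟨(0, -star (φ ⬝ᵥ p.y / φ o), 0), a, ev_iso F o, by simp [mh_h, ev], by
      simpa [mh_h, mul_comm] using ha'⟩ m hm.1
    exact HS.ext fun x => by
      simp [qh_apply, HS.SP.toGU_apply, HQ.rt, mh_h, ev, single_mulVec, Prod.ext_iff, funext_iff,
        Pi.single_apply, Function.update_apply, sub_eq_add_neg, mul_comm]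
      intro k; split_ifs <;> ring) (h.dec q hψ hR hm)

theorem RI.wqw_mem {o j : ι} (hj : j ≠ o) {Y : Submodule ℂ M} (h : RI ψ ρ o Y) (p : HQ F ι) :
    wv F j * qh p * wv F j ∈ stab ρ Y := fun m hm => by
  have := (h.comap (wv F j) (by simp [wv_apply, ev, hj])).qh_mem q hψ hR p (ρ (wv F j) m)
    (by rwa [Submodule.mem_comap, rho_mul, wv_wv, map_one])
  rwa [Submodule.mem_comap, rho_mul, rho_mul] at this

theorem RI.w_mem {o j : ι} (hj : j ≠ o) {Y : Submodule ℂ M} (h : RI ψ ρ o Y)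
    (hd : ∀ z, dh ι z ∈ stab ρ Y) :
    wv F j ∈ stab ρ Y ∧ ∀ a, lh (dgG (Pi.mulSingle j a)) ∈ stab ρ Y := by
  have key : ∀ a : Fˣ, lh (dgG (Pi.mulSingle j a)) * wv F j ∈ stab ρ Y := fun a => by
    obtain ⟨y, hy⟩ := exists_rt q (star a⁻¹ : Fˣ).1
    have h1 := h.wqw_mem q hψ hR hj (HQ.rt j y _ hy)
    rw [wv_rt_wv j hy (Units.ne_zero _), mul_mem_cancel_right (h.qh_mem q hψ hR _),
      mul_mem_cancel_left (h.qh_mem q hψ hR _), mul_assoc, (dh_wv _ _).eq, ← mul_assoc,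
      mul_mem_cancel_right (hd _)] at h1
    rwa [Units.mk0_val, star_star, inv_inv] at h1
  have h1 : wv F j ∈ stab ρ Y := by
    have := key 1
    rwa [Pi.mulSingle_one, show dgG (1 : ι → Fˣ) = 1 from map_one D.dg, map_one, one_mul] at this
  exact ⟨h1, fun a => (mul_mem_cancel_right h1).1 (key a)⟩

theorem tvG_fix {i j : ι} (h : i ≠ j) (c : F) {m : M}
    (hm : ∀ a ha, ρ (HS.tv (ev_iso F i) (a := a) ha) m = m) : ρ (lh (tvG h c)) m = m := by
  have h1 := sel0 q hψ (fun _ => le_rfl) (hR.mem (ρ (wv F j) m)) (k := i) fun a ha => by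
    rw [rho_mul, (tv_wv h ha).eq, ← rho_mul, hm]
  rw [← wv_skw_wv, ← rho_mul, ← rho_mul, sup_fix _ (fun φ hφ m hm => ?_) h1, rho_mul, wv_wv, map_one]
  · rfl
  · rw [wt_skw _ hm]
    simp [sub_mulVec, single_mulVec, hφ.2, show ∀ c : F, Function.update (0 : ι → F) i c = Pi.single i c
      from fun _ => rfl]

theorem rk1_fix {u f φ : ι → F} (h : f ⬝ᵥ u = 0) (hφ : φ ⬝ᵥ u = 0) {m : M} (hm : m ∈ wt ψ ρ φ) :
    ρ (lh (rk1 u f h)) m = m := by
  by_cases h0 : u = 0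
  · rw [show rk1 u f h = 1 from Units.ext (by simp [rk1, h0]), map_one, map_one]; rfl
  obtain ⟨i, -⟩ := Function.ne_iff.1 h0
  obtain ⟨B, hB⟩ := D.gl_trans h0 i
  have h1 := wt_lh B hm
  have h2 : (φ ᵥ* (B⁻¹).1) i = 0 := by
    rw [← hφ, ← mul_one ((φ ᵥ* (B⁻¹).1) i), ← dotProduct_single, ← hB, ← dotProduct_mulVec, mulVec_mulVec,
      B.inv_mul, one_mulVec]
  have h3 := rk1_conj u f h B
  simp only [hB] at h3
  have h4 : _ = _ := rk1_mem ((stabv ρ (ρ (lh B) m)).comap lh) i (fun j hj c =>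
    tvG_fix q hψ hR hj c fun a ha => by rw [wt_tv i ha h1, h2]; simp) (f ᵥ* (B⁻¹).1) (by
      rw [← hB, ← dotProduct_mulVec, mulVec_mulVec, B.inv_mul, one_mulVec, h])
  rw [rho_mul, ← map_mul, ← h3, map_mul, ← rho_mul] at h4
  have h5 := congrArg (ρ (lh B)⁻¹) h4
  rwa [rho_mul, rho_mul (a := (lh B)⁻¹), inv_mul_cancel, map_one] at h5

omit hψ hR q [Fintype F] in
variable (ψ ρ) in
/-- the weight components of the submodule generated by `Y` -/
noncomputable def zc (o : ι) (Y : Submodule ℂ M) (φ : ι → F) : Submodule ℂ M :=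
  wt ψ ρ φ ⊓ ⨅ A : GL ι F, ⨅ _ : (φ ᵥ* (A⁻¹).1) o * star ((φ ᵥ* (A⁻¹).1) o) = 1, Y.comap (ρ (lh A))

section
omit hψ hR q [Fintype F]
variable {o : ι} {Y : Submodule ℂ M}

theorem mem_zc {φ : ι → F} {m : M} : m ∈ zc ψ ρ o Y φ ↔ m ∈ wt ψ ρ φ ∧ ∀ A : GL ι F,
    (φ ᵥ* (A⁻¹).1) o * star ((φ ᵥ* (A⁻¹).1) o) = 1 → ρ (lh A) m ∈ Y := by
  simp [zc]

theorem zc_lh (B : GL ι F) {φ : ι → F} {m : M} (hm : m ∈ zc ψ ρ o Y φ) :
    ρ (lh B) m ∈ zc ψ ρ o Y (φ ᵥ* (B⁻¹).1) := mem_zc.2 ⟨wt_lh B hm.1, fun A hA => by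
  rw [rho_mul, ← map_mul]
  exact (mem_zc.1 hm).2 _ (by simpa only [vecMul_vecMul, _root_.mul_inv_rev, Units.val_mul] using hA)⟩

theorem zc_zero {m : M} (hm : m ∈ wt ψ ρ 0) : m ∈ zc ψ ρ o Y 0 := mem_zc.2 ⟨hm, by simp⟩

theorem Z_lh (B : GL ι F) {m : M} (hm : m ∈ sup (zc ψ ρ o Y) fun _ => True) :
    ρ (lh B) m ∈ sup (zc ψ ρ o Y) fun _ => True :=
  sup_map _ _ (fun _ _ _ hm => mem_sup trivial (zc_lh B hm)) hm

end

section
variable {o e : ι} (he : e ≠ o) {Y : Submodule ℂ M} (h : RI ψ ρ o Y)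
  (hd : ∀ z, dh ι z ∈ stab ρ Y) (hz : ∀ z, ρ ((mh F ι).sc z) = 1)
  (hS : ∀ A : GL ι F, A.1 *ᵥ Pi.single o 1 = Pi.single o 1 → lh A ∈ stab ρ Y)

include h in
theorem Z_qh {I : (ι → F) → Prop} (p : HQ F ι) (m : M) (hm : m ∈ sup (zc ψ ρ o Y) I) :
    ρ (qh p) m ∈ sup (zc ψ ρ o Y) I :=
  sup_map _ _ (fun _ hφ _ hm => mem_sup hφ (mem_zc.2 ⟨wt_qh p (mem_zc.1 hm).1, fun A hA => by
    rw [rho_mul, lh_qh, ← rho_mul]
    exact h.qh_mem q hψ hR _ _ ((mem_zc.1 hm).2 A hA)⟩)) hm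

include h hd hz hS in
theorem Y_le : Y ≤ sup (zc ψ ρ o Y) (· ≠ 0) := (h.dec q hψ hR).trans (sup_le' _ fun φ hφ m hm => by
  refine mem_sup (fun e => by simp [e] at hφ) (mem_zc.2 ⟨hm.2, fun A hA => ?_⟩)
  have h1 := wt_lh A hm.2
  have h2 : φ ᵥ* (A⁻¹).1 ⬝ᵥ A.1 *ᵥ Pi.single o 1 = φ o := by
    rw [← dotProduct_mulVec, mulVec_mulVec, A.inv_mul, one_mulVec, dotProduct_single, mul_one]
  generalize φ ᵥ* (A⁻¹).1 = f at *
  let z : unitary F := ⟨f o * star (φ o), by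
    constructor <;> rw [star_mul', star_star] <;> linear_combination (φ o * star (φ o)) * hA + hφ⟩
  have h3 : f ⬝ᵥ (Pi.single o 1 - z.1 • A.1 *ᵥ Pi.single o 1) = 0 := by
    rw [dotProduct_sub, dotProduct_smul, h2, dotProduct_single, smul_eq_mul]
    linear_combination -f o * hφ
  have h4 : (star (f o) • f) ⬝ᵥ (Pi.single o 1 - z.1 • A.1 *ᵥ Pi.single o 1) = 0 := by
    rw [smul_dotProduct, h3, smul_zero]
  have h5 := hS (rk1 _ _ h4 * dgG (fun _ => Unitary.toUnits z) * A) (by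
    simp only [Units.val_mul, ← mulVec_mulVec, rk1, dgG, ← smul_one_eq_diagonal, smul_mulVec,
      one_mulVec, add_mulVec, vecMulVec_mulVec, smul_dotProduct, dotProduct_smul, h2]
    rw [show (Unitary.toUnits z).1 • star (f o) • φ o = 1 by
      change f o * star (φ o) * (star (f o) * φ o) = 1
      linear_combination (φ o * star (φ o)) * hA + hφ]
    simp) m hm.1
  have h6 : ρ (lh (dgG fun _ => Unitary.toUnits z)) = ρ (dh ι z⁻¹) := by
    rw [← one_mul (ρ (dh ι z⁻¹)), ← hz z, ← map_mul, sc_eq, map_inv, mul_inv_cancel_right]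
  rw [map_mul lh, map_mul lh, ← rho_mul, ← rho_mul, h6, rk1_fix q hψ hR h4 h3 (wt_dh _ h1)] at h5
  have h7 := hd z _ h5
  rwa [rho_mul, map_inv, mul_inv_cancel, map_one] at h7)

include he h hd hz hS in
theorem w_zc {φ : ι → F} {k : ι} (hk : k ≠ e) (h0 : φ k ≠ 0) {m : M} (hm : m ∈ zc ψ ρ o Y φ) :
    ρ (wv F e) m ∈ sup (zc ψ ρ o Y) fun _ => True := by
  obtain ⟨A, h1, h2⟩ : ∃ A : GL ι F, Commute (wv F e) (lh A) ∧ (φ ᵥ* A.1) o = 1 := by
    by_cases ho : φ o = 0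
    · have hko : k ≠ o := fun e => h0 (e ▸ ho)
      refine ⟨tvG hko (φ k)⁻¹, wv_lh _ _ (fun _ => ?_) fun _ => ?_, ?_⟩ <;>
        simp [tvG, transvection, he.symm, hk, ho, h0, vecMul, dotProduct,
          Matrix.single_apply, one_apply, mul_add, Finset.sum_add_distrib]
    · refine ⟨dgG (Pi.mulSingle o (Units.mk0 _ ho)⁻¹), wv_lh _ _ (fun _ => ?_) fun _ => ?_, ?_⟩ <;>
        simp [dgG, he, ho, diagonal_apply, one_apply, vecMul_diagonal] <;> split_ifs <;> simp_all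
  have h3 := (h.w_mem q hψ hR he hd).1 _ ((mem_zc.1 hm).2 A⁻¹ (by simp [h2]))
  have h4 := Z_lh A (sup_le' _ (fun _ _ _ => mem_sup trivial) (Y_le q hψ hR h hd hz hS h3))
  rwa [rho_mul, rho_mul, ← h1.eq, map_inv, mul_inv_cancel_right] at h4

include he h hd hz hS in
theorem wo_zc {φ : ι → F} (h0 : φ e ≠ 0) {m : M} (hm : m ∈ zc ψ ρ o Y φ) :
    ρ (wv F o) m ∈ sup (zc ψ ρ o Y) fun _ => True := by
  have h1 := w_zc q hψ hR he h hd hz hS he.symm (by simpa [pmG, vecMul_permMatrix] using h0)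
    (zc_lh (pmG (Equiv.swap e o))⁻¹ hm)
  have h2 := Z_lh (pmG (Equiv.swap e o)) h1
  rwa [rho_mul, rho_mul, pmG_wv, Equiv.swap_apply_left, map_inv, mul_inv_cancel_right] at h2

theorem wt_zero_of_fix {m : M} (hm : ∀ k a ha, ρ (HS.tv (ev_iso F k) (a := a) ha) m = m) :
    m ∈ wt ψ ρ 0 := by
  have : ∀ s : Finset ι, m ∈ sup (wt ψ ρ) fun φ => ∀ k ∈ s, φ k = 0 := fun s => by
    induction s using Finset.induction_on with
    | empty => simpa using hR.mem m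
    | insert k s _ ih => simpa [and_comm] using sel0 q hψ (fun _ => le_rfl) ih (hm k)
  exact sup_le' _ (fun φ hφ => by rw [show φ = 0 from funext (by simpa using hφ)]) (this Finset.univ)

include he h hd hz hS in
theorem w_Z {m : M} (hm : m ∈ sup (zc ψ ρ o Y) (· ≠ 0)) :
    ρ (wv F e) m ∈ sup (zc ψ ρ o Y) fun _ => True := by
  classical
  refine sup_map _ _ (fun φ hφ v hv => ?_) hm
  by_cases h0 : ∃ k ≠ e, φ k ≠ 0
  · obtain ⟨k, hk, h0⟩ := h0
    exact w_zc q hψ hR he h hd hz hS hk h0 hv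
  push Not at h0
  have h1 : φ e ≠ 0 := fun e' => hφ (funext fun k => by by_cases hk : k = e <;> simp [hk, e', h0])
  have hq : (q : ℂ) ≠ 0 := by have := two_le_q F q; exact_mod_cast (by omega : q ≠ 0)
  have hzw : ∀ φ, zc ψ ρ o Y φ ≤ wt ψ ρ φ := fun _ => inf_le_left
  have f1 : ∀ k ≠ e, ∀ a ha, ρ (HS.tv (ev_iso F k) (a := a) ha) (ρ (wv F e) v) = ρ (wv F e) v :=
    fun k hk a ha => by rw [rho_mul, (tv_wv hk ha).eq, ← rho_mul, wt_tv k ha hv.1, h0 k hk]; simp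
  set x₀ := (q : ℂ)⁻¹ • sg ψ ρ e 0 (ρ (wv F e) v) with hx₀
  have f2 : ∀ a ha, ρ (HS.tv (ev_iso F e) (a := a) ha) x₀ = x₀ := fun a ha => by
    rw [hx₀, map_smul]
    refine congrArg _ (LinearMap.mem_eqLocus.1 (sup_map (sg ψ ρ e 0) (LinearMap.eqLocus _ .id)
      (fun φ _ m hm => ?_) (hR.mem _)))
    rw [sg_wt q hψ e (star_zero F) hm]
    split_ifs with h
    · simp [wt_tv e ha hm, h]
    · simp
  have f3 : x₀ ∈ wt ψ ρ 0 := wt_zero_of_fix q hψ hR fun k a ha => by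
    by_cases hk : k = e
    · subst hk; exact f2 a ha
    · rw [hx₀, map_smul, ← sg_comm (fun b hb => by rw [tv_ev k]; exact tv_qh _ _ _), f1 k hk]
  obtain ⟨x, hx⟩ : ∃ x, x = ρ (wv F e) v - x₀ := ⟨_, rfl⟩
  have f4 : sg ψ ρ e 0 x = 0 := by
    rw [hx, map_sub, sg_eig q (m := x₀) (by simpa using f2), hx₀, smul_inv_smul₀ hq, sub_self]
  have f5 : ∀ a ha, ρ (HS.tv (ev_iso F o) (a := a) ha) x = x := fun a ha => by
    rw [hx, map_sub, f1 o he.symm, wt_tv o ha f3]; simp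
  rw [← sub_add_cancel (ρ (wv F e) v) x₀, ← hx]
  refine Submodule.add_mem _ ?_ (mem_sup trivial (zc_zero f3))
  obtain ⟨a, ha, b, hb, hab⟩ := sup_split (fun φ => φ o = 0) (wo_zc q hψ hR he h hd hz hS h1 hv)
  have f6 : ρ (wv F e) b ∈ sup (zc ψ ρ o Y) fun _ => True :=
    sup_map _ _ (fun φ hφ m hm => w_zc q hψ hR he h hd hz hS he.symm hφ.2 hm) hb
  let r := qh (HQ.skw _ (skew_single e o (1 : F)))
  have f7 : ρ r (ρ (wv F e) a) = ρ (wv F e) a := by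
    refine sup_fix _ (fun φ hφ m hm => ?_) (sel0 q hψ (fun _ => le_rfl) (hR.mem _) (k := o)
      fun c hc => ?_)
    · rw [wt_skw _ hm]
      simp [sub_mulVec, single_mulVec, hφ.2,
        show ∀ i (c : F), Function.update (0 : ι → F) i c = Pi.single i c from fun _ _ => rfl]
    · rw [rho_mul, (tv_wv he.symm hc).eq, ← rho_mul, sup_fix _ (fun φ hφ m hm => ?_) ha]
      simp [wt_tv o hc hm.1, hφ.2]
  have hT : ∀ y, ρ r (ρ (wv F o) y) = ρ (wv F o) (ρ (lh (tvG he 1)) y) := fun y => by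
    rw [rho_mul, rho_mul, ← wv_skw_wv, ← mul_assoc, ← mul_assoc, wv_wv, one_mul]
  have f8 : ρ (wv F o) (ρ (lh (tvG he 1)) x - x) ∈ sup (zc ψ ρ o Y) fun _ => True := by
    have e1 : ρ (wv F o) (ρ (wv F e) v) = ρ (wv F e) a + ρ (wv F e) b := by
      rw [← map_add, hab, rho_mul, rho_mul, (wv_comm _ _).eq]
    rw [map_sub, ← hT, hx, map_sub, map_sub, hT x₀, tvG_fix q hψ hR he 1 f2, sub_sub_sub_cancel_right,
      e1, map_add, f7, add_sub_add_left_eq_sub]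
    exact Submodule.sub_mem _ (Z_qh q hψ hR h _ _ f6) f6
  have f9 := sel1 q hψ hzw f8 (k := e) (by
    rw [map_sub, ← hT, map_sub, sg_comm fun _ _ => tv_qh _ _ _, sg_comm fun _ => tv_wv he, f4]; simp)
  have f10 := sup_map (ρ (wv F o)) _ (fun φ hφ m hm => wo_zc q hψ hR he h hd hz hS hφ.2 hm) f9
  rw [rho_mul, wv_wv, map_one, Module.End.one_apply] at f10
  have f11 := sg_mem (ψ := ψ) (k := o) (t := 0) (Z_qh q hψ hR h) f10
  have f12 : sg ψ ρ o 0 (ρ (lh (tvG he 1)) x) = 0 := by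
    refine sup_map (sg ψ ρ o 0 * ρ (lh (tvG he 1))) ⊥ (fun φ hφ m hm => ?_)
      (sel0 q hψ (fun _ => le_rfl) (sel1 q hψ (fun _ => le_rfl) (hR.mem x) f4) f5)
    rw [Module.End.mul_apply, sg_wt q hψ o (star_zero F) (wt_lh _ hm), if_neg, Submodule.mem_bot]
    simpa [tvG, transvection, hφ.2, vecMul, dotProduct, Matrix.single_apply, one_apply, mul_add,
      Finset.sum_add_distrib] using hφ.1.2
  rwa [map_sub, f12, sg_eig q (by simpa using f5), zero_sub, neg_mem_iff,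
    Submodule.smul_mem_iff _ hq] at f11

include he h hd hz hS in
theorem uniq (hG : StGen F) : ∃ W : Submodule ℂ M, (∀ g, ∀ m ∈ W, ρ g m ∈ W) ∧
    W ⊓ HS.plus ψ ρ (ev_iso F o) = Y := by
  let Z := sup (zc ψ ρ o Y) fun _ => True
  let W := Z ⊓ Z.comap (ρ (wv F e))
  have h1 : sup (zc ψ ρ o Y) (· ≠ 0) ≤ W := fun m hm =>
    ⟨sup_le' _ (fun _ _ _ => mem_sup trivial) hm, w_Z q hψ hR he h hd hz hS hm⟩
  have h2 : ∀ g, (∀ m ∈ sup (zc ψ ρ o Y) (· ≠ 0), ρ g m ∈ W) → g ∈ stab ρ (W ⊓ wt ψ ρ 0) →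
      g ∈ stab ρ W := fun g h3 h4 m hm => by
    obtain ⟨a, ha, b, hb, rfl⟩ := sup_split (· ≠ 0) hm.1
    simp only [true_and] at ha
    rw [map_add]
    refine W.add_mem (h3 a ha) (h4 b ⟨(W.add_mem_iff_right (h1 ha)).1 hm,
      sup_le' _ (fun φ hφ => ?_) hb⟩).1
    rw [not_not.1 hφ.2]; exact inf_le_left
  have hZd : ∀ z, ∀ m ∈ Z, ρ (dh ι z) m ∈ Z := fun z m =>
    sup_map _ _ fun _ _ _ hm => mem_sup trivial (mem_zc.2 ⟨wt_dh z (mem_zc.1 hm).1, fun A hA => by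
      rw [rho_mul, ← (dh_lh z A).eq, ← rho_mul]
      exact hd z _ ((mem_zc.1 hm).2 A hA)⟩)
  have h5 := hG ι e (stab ρ W)
    (fun p => h2 _ (fun m hm => h1 (Z_qh q hψ hR h p m hm)) fun m hm => by rwa [wt_zero hm.2])
    (fun A => h2 _ (fun m hm => h1 (sup_map _ _ (fun φ hφ m hm => mem_sup (fun e => hφ (by
        simpa using congrArg (· ᵥ* A.1) e)) (zc_lh A hm)) hm))
      (gl_ind ((stab ρ (W ⊓ wt ψ ρ 0)).comap lh) (fun i a m hm => ⟨⟨Z_lh _ hm.1.1, Submodule.mem_comap.2 <| by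
        rw [rho_mul, wv_dgG, ← rho_mul]; exact Z_lh _ hm.1.2⟩,
        by simpa using wt_lh _ hm.2⟩) (fun i j h c m hm => by
        rwa [tvG_fix q hψ hR h c fun a ha => by simp [wt_tv i ha hm.2]]) A))
    (fun z m hm => ⟨hZd z m hm.1, Submodule.mem_comap.2 <| by
      rw [rho_mul, ← (dh_wv z e).eq, ← rho_mul]; exact hZd z _ hm.2⟩)
    fun m hm => ⟨hm.2, Submodule.mem_comap.2 <| by rw [rho_mul, wv_wv, map_one]; exact hm.1⟩
  refine ⟨W, fun g => (h5 ▸ Subgroup.mem_top g : g ∈ stab ρ W), le_antisymm (fun m hm => ?_)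
    (le_inf ((Y_le q hψ hR h hd hz hS).trans h1) h.1)⟩
  refine sup_le' _ (fun φ hφ m hm => ?_) (sel q hψ (fun _ => inf_le_left) (star_one F) hm.1.1 (k := o)
    fun a ha => by rw [one_mul]; exact hm.2 a ha)
  simpa using (mem_zc.1 hm).2 1 (by simpa using hφ.2)

end

omit q hψ hR [Fintype F] [StarRing F] in
theorem stab_ind {κ : Type} [Fintype κ] [DecidableEq κ] (H : Subgroup (GL (κ ⊕ Unit) F))
    (hd : ∀ i a, dgG (Pi.mulSingle (.inl i) a) ∈ H)
    (ht : ∀ i j (h : i ≠ .inl j) c, tvG h c ∈ H) (A : GL (κ ⊕ Unit) F)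
    (hA : A.1 *ᵥ Pi.single (.inr ()) 1 = Pi.single (.inr ()) 1) : A ∈ H := by
  let emb : GL κ F →* GL (κ ⊕ Unit) F := Units.map
    { toFun B := fromBlocks B 0 0 1
      map_one' := fromBlocks_one
      map_mul' B C := by simp [fromBlocks_multiply] }
  have h1 : ∀ B, emb B ∈ H := gl_ind (H.comap emb) (fun i a => by
    rw [Subgroup.mem_comap]
    convert hd i a using 1
    ext (k | k) (l | l) <;> simp [emb, dgG, diagonal_apply, Pi.mulSingle_apply]) fun i j h c => by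
    rw [Subgroup.mem_comap]
    convert ht (.inl i) j (by simpa using h) c using 1
    ext (k | k) (l | l) <;> simp [emb, tvG, transvection, one_apply, Matrix.single_apply]
  have h2 : A.1 = fromBlocks A.1.toBlocks₁₁ 0 A.1.toBlocks₂₁ 1 := by
    ext (k | k) (l | l)
    · rfl
    · simpa using congrFun hA (.inl k)
    · rfl
    · simpa using congrFun hA (.inr k)
  have h3 : A.1.toBlocks₁₁.det ≠ 0 := by
    have := A.det_ne_zero
    rwa [h2, det_fromBlocks_zero₁₂, det_one, mul_one] at this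
  have h4 : A = emb (GeneralLinearGroup.mkOfDetNeZero _ h3) *
      rk1 (Pi.single (.inr ()) 1) (Sum.elim (A.1.toBlocks₂₁ ()) 0) (by simp) := Units.ext (by
    refine h2.trans ?_
    have : (1 + vecMulVec (Pi.single (Sum.inr ()) 1) (Sum.elim (A.1.toBlocks₂₁ ()) 0) :
        Matrix (κ ⊕ Unit) (κ ⊕ Unit) F) = fromBlocks 1 0 A.1.toBlocks₂₁ 1 := by
      ext (k | k) (l | l) <;> simp [vecMulVec_apply, one_apply]
    simp [emb, rk1, this, fromBlocks_multiply])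
  rw [h4]
  refine H.mul_mem (h1 _) (rk1_mem H _ (fun j h c => ?_) _ _)
  rcases j with j | j
  exacts [ht _ j h c, (h rfl).elim]

omit hψ hR in
variable (F) in
theorem stUniq (hG : StGen F) : StUniq F := fun κ _ _ ⟨e⟩ ψ hψ M _ _ ρ hR hz Y h1 h2 h3 => by
  have h : RI ψ ρ (.inr ()) Y := ⟨h1, h2⟩
  refine uniq q hψ hR (e := .inl e) (by simp) h h3 hz (stab_ind ((stab ρ Y).comap lh)
    (fun i => (h.w_mem q hψ hR (by simp) h3).2) fun i j hij c => ?_) hG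
  rw [Subgroup.mem_comap, ← wv_skw_wv]
  exact h.wqw_mem q hψ hR (by simp) _

end Cfsg.Uni
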