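import Cfsg.Agent.Uni.Mod
import Cfsg.Agent.Uni.Orb

/-!
# Rank one modules: weights
-/

set_option autoImplicit false

namespace Cfsg.Uni

open Matrix

universe u

theorem eig_dec {M : Type} [AddCommGroup M] [Module ℂ M] {B : Type*} [AddCommGroup B] [Finite B]
    (T : B → Module.End ℂ M) {I : Type*} (W : I → Submodule ℂ M) (l : I → AddChar B ℂ)
    (hW : ∀ i b, ∀ m ∈ W i, T b m = l i b • m) (hs : ∀ i j, l i = l j → W i ≤ W j)
    (N : Submodule ℂ M) (hN : ∀ b, ∀ m ∈ N, T b m ∈ N) (hle : N ≤ ⨆ i, W i) :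
    N ≤ ⨆ i, N ⊓ W i := by
  classical
  have := Fintype.ofFinite B
  have h0 : (Fintype.card B : ℂ) ≠ 0 := by exact_mod_cast Fintype.card_ne_zero
  let P : AddChar B ℂ → Module.End ℂ M := fun η => (Fintype.card B : ℂ)⁻¹ • ∑ b, η (-b) • T b
  have hP : ∀ η i, ∀ m ∈ W i, P η m = if l i = η then m else 0 := fun η i m hm => by
    have := AddChar.sum_eq_ite (l i - η)
    simp only [P, LinearMap.smul_apply, LinearMap.sum_apply, hW i _ m hm, smul_smul, ← Finset.sum_smul]
    simp only [AddChar.sub_apply, sub_eq_zero, mul_comm (l i _)] at this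
    rw [this]
    split_ifs <;> simp [h0]
  intro m hm
  have h1 : (⨆ i, W i) ≤ LinearMap.eqLocus (∑ η, P η) LinearMap.id := iSup_le fun i m hm => by
    simp [LinearMap.sum_apply, hP _ i m hm]
  rw [← show (∑ η, P η) m = m from h1 (hle hm), LinearMap.sum_apply]
  refine Submodule.sum_mem _ fun η _ => ?_
  have h2 : P η m ∈ N := by
    simp only [P, LinearMap.smul_apply, LinearMap.sum_apply]
    exact N.smul_mem _ (N.sum_mem fun b _ => N.smul_mem _ (hN b m hm))
  by_cases h : ∃ i, l i = η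
  · obtain ⟨i, rfl⟩ := h
    refine Submodule.mem_iSup_of_mem i ⟨h2, (iSup_le fun j m hm => ?_ : _ ≤ (W i).comap (P (l i))) (hle hm)⟩
    rw [Submodule.mem_comap, hP _ j m hm]
    split_ifs with e
    exacts [hs _ _ e hm, zero_mem _]
  · rw [show P η m = 0 from (iSup_le fun j m hm => ?_ : _ ≤ LinearMap.ker (P η)) (hle hm)]
    · exact zero_mem _
    · rw [LinearMap.mem_ker, hP _ j m hm, if_neg fun e => h ⟨j, e⟩]

/-- the stabiliser of a subspace -/
def stab {G : Type*} [Group G] [Finite G] {M : Type} [AddCommGroup M] [Module ℂ M]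
    (ρ : Representation ℂ G M) (Y : Submodule ℂ M) : Subgroup G where
  carrier := {g | ∀ m ∈ Y, ρ g m ∈ Y}
  one_mem' m hm := by simpa using hm
  mul_mem' ha hb m hm := by rw [map_mul]; exact ha _ (hb m hm)
  inv_mem' {g} hg := by
    obtain ⟨k, hk⟩ := mem_powers_iff_mem_zpowers.2 ((Subgroup.zpowers g).inv_mem (Subgroup.mem_zpowers g))
    rw [← hk]
    clear hk
    induction k with
    | zero => simp
    | succ k ih => intro m hm; simp only [pow_succ, map_mul]; exact ih _ (hg m hm)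

/-- the stabiliser of a vector -/
def stabv {G : Type*} [Group G] {M : Type} [AddCommGroup M] [Module ℂ M]
    (ρ : Representation ℂ G M) (m : M) : Subgroup G where
  carrier := {g | ρ g m = m}
  one_mem' := by simp
  mul_mem' {a b} (ha : ρ a m = m) (hb : ρ b m = m) := show ρ (a * b) m = m by
    rw [map_mul, Module.End.mul_apply, hb, ha]
  inv_mem' {g} (hg : ρ g m = m) := show ρ g⁻¹ m = m by
    conv_lhs => rw [← hg, ← Module.End.mul_apply, ← map_mul, inv_mul_cancel, map_one]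
    rfl

variable {F : Type u} [Field F] [StarRing F] {ι : Type} [Fintype ι] [DecidableEq ι]

section gl
omit [StarRing F]

theorem gl_ind (H : Subgroup (GL ι F)) (hd : ∀ i a, dgG (Pi.mulSingle i a) ∈ H)
    (ht : ∀ i j (h : i ≠ j) c, tvG h c ∈ H) (A : GL ι F) : A ∈ H := by
  refine diagonal_transvection_induction_of_det_ne_zero (fun M => ∀ A : GL ι F, A.1 = M → A ∈ H) A.1
    A.det_ne_zero (fun d hD A hA => ?_) (fun t A hA => ?_) (fun B C hB hC h1 h2 A hA => ?_) A rfl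
  · have h0 : ∀ i, d i ≠ 0 := by simpa [Finset.prod_ne_zero_iff] using hD
    rw [show A = D.dg fun i => Units.mk0 _ (h0 i) from Units.ext hA,
      ← Finset.univ_prod_mulSingle (fun i => Units.mk0 _ (h0 i))]
    exact (H.comap D.dg).prod_mem fun i _ => hd i _
  · rw [show A = tvG t.hij t.c from Units.ext hA]; exact ht _ _ _ _
  · rw [show A = GeneralLinearGroup.mkOfDetNeZero B hB * GeneralLinearGroup.mkOfDetNeZero C hC from
      Units.ext hA]
    exact H.mul_mem (h1 _ rfl) (h2 _ rfl)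

/-- the element `1 + u f` -/
def rk1 (u f : ι → F) (h : f ⬝ᵥ u = 0) : GL ι F :=
  ⟨1 + vecMulVec u f, 1 - vecMulVec u f, by simp [mul_sub, add_mul, vecMulVec_mul_vecMulVec, h],
    by simp [sub_mul, mul_add, vecMulVec_mul_vecMulVec, h]⟩

theorem rk1_mem (H : Subgroup (GL ι F)) (i : ι) (ht : ∀ j (h : i ≠ j) c, tvG h c ∈ H) (f : ι → F)
    (h : f ⬝ᵥ Pi.single i 1 = 0) : rk1 _ f h ∈ H := by
  let S : AddSubmonoid (ι → F) :=
    { carrier := {f | ∃ h, rk1 (Pi.single i 1) f h ∈ H}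
      zero_mem' := ⟨by simp, by convert H.one_mem; ext; simp [rk1]⟩
      add_mem' := by
        rintro a b ⟨ha, ha'⟩ ⟨hb, hb'⟩
        refine ⟨by rw [add_dotProduct, ha, hb, add_zero], ?_⟩
        convert H.mul_mem ha' hb'
        refine Units.ext ?_
        simp only [rk1, Units.val_mul, mul_add, add_mul, vecMulVec_mul_vecMulVec, ha, vecMulVec_add]
        simp; abel }
  have : f ∈ S := by
    rw [← Finset.univ_sum_single f]
    refine S.sum_mem fun j _ => ?_
    by_cases hj : i = j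
    · rw [show f j = 0 by simpa [hj] using h, Pi.single_zero]; exact S.zero_mem
    · refine ⟨by simp [hj], ?_⟩
      convert ht j hj (f j)
      ext k l
      simp [rk1, tvG, transvection, vecMulVec_apply, Pi.single_apply, Matrix.single_apply, ite_and,
        eq_comm]
      split_ifs <;> rfl
  exact this.2

theorem rk1_conj (u f : ι → F) (h : f ⬝ᵥ u = 0) (B : GL ι F) : B * rk1 u f h = rk1 (B.1 *ᵥ u)
    (f ᵥ* (B⁻¹).1) (by rw [← dotProduct_mulVec, mulVec_mulVec, B.inv_mul, one_mulVec, h]) * B :=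
  Units.ext (by simp [rk1, mul_add, add_mul, mul_vecMulVec, vecMulVec_mul])

end gl

variable {M : Type} [AddCommGroup M] [Module ℂ M] {ψ : AddChar F ℂ} {ρ : Representation ℂ (Γ F ι) M}

theorem rho_mul {a b : Γ F ι} (m : M) : ρ a (ρ b m) = ρ (a * b) m := by rw [map_mul]; rfl

theorem wt_smul (z : unitary F) (φ : ι → F) : wt ψ ρ φ ≤ wt ψ ρ (z.1 • φ) := fun m hm p hp => by
  have hz : z.1 * star z.1 = 1 := z.2.2
  rw [smul_dotProduct, smul_eq_zero_iff_right fun e => by simp [e] at hz] at hp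
  rw [hm p hp, star_smul, mulVec_smul, smul_dotProduct, dotProduct_smul, smul_smul, hz, one_smul]

theorem wt_lh (A : GL ι F) {φ : ι → F} {m : M} (hm : m ∈ wt ψ ρ φ) :
    ρ (lh A) m ∈ wt ψ ρ (φ ᵥ* (A⁻¹).1) := fun p hp => by
  have : qh p * lh A = lh A * qh (p.act (A⁻¹).1) := by
    rw [← inv_mul_eq_iff_eq_mul, ← mul_assoc, ← map_inv, lh_qh, map_inv, inv_mul_cancel_right]
  rw [rho_mul, this, ← rho_mul, hm _ (by rwa [← dotProduct_mulVec] at hp), map_smul]
  simp only [HQ.act, ← dotProduct_mulVec, star_vecMul, mulVec_mulVec, Matrix.mul_assoc]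

theorem wt_qh (r : HQ F ι) {φ : ι → F} {m : M} (hm : m ∈ wt ψ ρ φ) :
    ρ (qh r) m ∈ wt ψ ρ φ := fun p hp => by
  have h2 : star p.y ⬝ᵥ star φ = 0 := by rw [star_dotProduct_star, hp, star_zero]
  rw [rho_mul, ← map_mul, show p * r = r * (r⁻¹ * p * r) by group, map_mul, ← rho_mul,
    hm _ (by simpa using hp), map_smul]
  have := congrArg (fun S => φ ⬝ᵥ S *ᵥ star φ) r.rel
  simp [add_mulVec, sub_mulVec, vecMulVec_mulVec, hp, h2, add_vecMulVec, neg_mulVec] at this ⊢
  congr 2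
  linear_combination this

theorem wt_dh (z : unitary F) {φ : ι → F} {m : M} (hm : m ∈ wt ψ ρ φ) :
    ρ (dh ι z) m ∈ wt ψ ρ φ := fun p hp => by
  have : qh p * dh ι z = dh ι z * qh (p.rot z⁻¹) := by
    rw [← inv_mul_eq_iff_eq_mul, ← mul_assoc, ← map_inv, dh_qh, map_inv, inv_mul_cancel_right]
  rw [rho_mul, this, ← rho_mul, hm _ (by simp [HQ.rot, hp]), map_smul]; rfl

theorem wt_skw {S : Matrix ι ι F} (hS : S + Sᴴ = 0) {φ : ι → F} {m : M} (hm : m ∈ wt ψ ρ φ) :
    ρ (qh (.skw S hS)) m = ψ (φ ⬝ᵥ S *ᵥ star φ) • m := hm _ (by simp [HQ.skw])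

theorem wt_tv (k : ι) {a : F} (ha : a + star a = 0) {φ : ι → F} {m : M} (hm : m ∈ wt ψ ρ φ) :
    ρ (HS.tv (ev_iso F k) ha) m = ψ (φ k * star (φ k) * a) • m := by
  rw [tv_ev, wt_skw _ hm, single_mulVec]
  congr 2
  exact (dotProduct_single _ _ _).trans (by rw [Pi.star_apply]; ring)

theorem wt_zero {m : M} (hm : m ∈ wt ψ ρ 0) (p : HQ F ι) : ρ (qh p) m = m := by
  simpa using hm p (by simp)

theorem tv_qh (k : ι) {a : F} (ha : a + star a = 0) (p : HQ F ι) :
    Commute (HS.tv (ev_iso F k) ha) (qh p) := by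
  rw [tv_ev, Commute, SemiconjBy, ← map_mul, ← map_mul]
  congr 1; ext <;> simp [HQ.skw, add_comm]

theorem tv_wv {k j : ι} (h : k ≠ j) {a : F} (ha : a + star a = 0) :
    Commute (HS.tv (ev_iso F k) ha) (wv F j) := HS.ext fun x => by
  simp [HS.tv_apply, wv_apply, mh_h, ev, h, Prod.ext_iff, funext_iff, Function.update_apply,
    Pi.single_apply, h.symm]
  intro i; split_ifs <;> simp_all

/-- the sum of a family over a set of weights -/
def sup (W : (ι → F) → Submodule ℂ M) (I : (ι → F) → Prop) : Submodule ℂ M := ⨆ φ, ⨆ _ : I φ, W φ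

section
omit [StarRing F] [Fintype ι] [DecidableEq ι] [Field F]
variable {W : (ι → F) → Submodule ℂ M} {I J : (ι → F) → Prop}

theorem mem_sup {φ : ι → F} (h : I φ) {m : M} (hm : m ∈ W φ) : m ∈ sup W I :=
  Submodule.mem_iSup_of_mem φ (Submodule.mem_iSup_of_mem h hm)

theorem sup_map (f : Module.End ℂ M) (N : Submodule ℂ M) (h : ∀ φ, I φ → ∀ m ∈ W φ, f m ∈ N) {m : M}
    (hm : m ∈ sup W I) : f m ∈ N := (iSup₂_le h : _ ≤ N.comap f) hm

theorem sup_le' (N : Submodule ℂ M) (h : ∀ φ, I φ → W φ ≤ N) : sup W I ≤ N := iSup₂_le h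

theorem sup_fix (f : Module.End ℂ M) (h : ∀ φ, I φ → ∀ m ∈ W φ, f m = m) {m : M}
    (hm : m ∈ sup W I) : f m = m := (iSup₂_le h : _ ≤ LinearMap.eqLocus f .id) hm

theorem sup_split (J : (ι → F) → Prop) {m : M} (hm : m ∈ sup W I) :
    ∃ a ∈ sup W fun φ => I φ ∧ J φ, ∃ b ∈ sup W fun φ => I φ ∧ ¬ J φ, a + b = m := by
  refine Submodule.mem_sup.1 (sup_le' _ (fun φ h m hm => ?_) hm)
  by_cases hJ : J φ
  · exact Submodule.mem_sup_left (mem_sup ⟨h, hJ⟩ hm)
  · exact Submodule.mem_sup_right (mem_sup ⟨h, hJ⟩ hm)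

end

theorem RankOne.mem (hR : RankOne ψ ρ) (m : M) : m ∈ sup (wt ψ ρ) fun _ => True := by
  simp only [sup, iSup_true]; rw [hR]; trivial

variable [Fintype F] (q : ℕ) [UF F q]

variable (ψ ρ) in
open Classical in
/-- `q` times the projection to an eigenspace of a transvection group -/
noncomputable def sg (k : ι) (t : F) : Module.End ℂ M :=
  ∑ a : {a : F // a + star a = 0}, ψ (-t * a) • ρ (HS.tv (ev_iso F k) a.2)

theorem sg_eig {k : ι} {t : F} {m : M}
    (hm : ∀ a ha, ρ (HS.tv (ev_iso F k) (a := a) ha) m = ψ (t * a) • m) : sg ψ ρ k t m = (q : ℂ) • m := by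
  classical
  simp [sg, LinearMap.sum_apply, hm, smul_smul, ← AddChar.map_add_eq_mul, ← Nat.card_eq_fintype_card,
    card_skew F q, Nat.cast_smul_eq_nsmul]

theorem sg_mem {k : ι} {t : F} {N : Submodule ℂ M} (hN : ∀ p, ∀ m ∈ N, ρ (qh p) m ∈ N) {m : M}
    (hm : m ∈ N) : sg ψ ρ k t m ∈ N := by
  simp only [sg, LinearMap.sum_apply, LinearMap.smul_apply, tv_ev]
  exact N.sum_mem fun a _ => N.smul_mem _ (hN _ _ hm)

theorem sg_comm {k : ι} {t : F} {g : Γ F ι} (h : ∀ a ha, Commute (HS.tv (ev_iso F k) (a := a) ha) g)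
    (m : M) : sg ψ ρ k t (ρ g m) = ρ g (sg ψ ρ k t m) := by
  simp only [sg, LinearMap.sum_apply, LinearMap.smul_apply, map_sum, map_smul, rho_mul, (h _ _).eq]

variable (hψ : Psi ψ)
include hψ

theorem sg_wt [DecidableEq F] (k : ι) {t : F} (ht : star t = t) {φ : ι → F} {m : M}
    (hm : m ∈ wt ψ ρ φ) : sg ψ ρ k t m = if φ k * star (φ k) = t then (q : ℂ) • m else 0 := by
  have := hψ.sum_skew q (t := φ k * star (φ k) - t) (by simp [ht, mul_comm])
  simp only [sg, LinearMap.sum_apply, LinearMap.smul_apply, wt_tv k _ hm, smul_smul,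
    ← AddChar.map_add_eq_mul, ← Finset.sum_smul, ← add_mul, neg_add_eq_sub]
  convert congrArg (· • m) this
  simp [sub_eq_zero]

variable {W : (ι → F) → Submodule ℂ M} (hW : ∀ φ, W φ ≤ wt ψ ρ φ) {I : (ι → F) → Prop}
include hW q

theorem sel {k : ι} {t : F} (ht : star t = t) {m : M} (hm : m ∈ sup W I)
    (h : ∀ a ha, ρ (HS.tv (ev_iso F k) (a := a) ha) m = ψ (t * a) • m) :
    m ∈ sup W fun φ => I φ ∧ φ k * star (φ k) = t := by
  classical
  have hq : (q : ℂ) ≠ 0 := by have := two_le_q F q; exact_mod_cast (by omega : q ≠ 0)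
  rw [← Submodule.smul_mem_iff _ hq, ← sg_eig q h]
  refine sup_map _ _ (fun φ hφ m hm => ?_) hm
  rw [sg_wt q hψ k ht (hW _ hm)]
  split_ifs with e
  exacts [Submodule.smul_mem _ _ (mem_sup ⟨hφ, e⟩ hm), zero_mem _]

theorem sel0 {k : ι} {m : M} (hm : m ∈ sup W I)
    (h : ∀ a ha, ρ (HS.tv (ev_iso F k) (a := a) ha) m = m) : m ∈ sup W fun φ => I φ ∧ φ k = 0 := by
  simpa using sel q hψ hW (star_zero F) hm (k := k) (by simpa using h)

theorem sel1 {k : ι} {m : M} (hm : m ∈ sup W I) (h : sg ψ ρ k 0 m = 0) :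
    m ∈ sup W fun φ => I φ ∧ φ k ≠ 0 := by
  classical
  have hq : (q : ℂ) ≠ 0 := by have := two_le_q F q; exact_mod_cast (by omega : q ≠ 0)
  rw [← Submodule.smul_mem_iff _ hq, ← sub_zero (_ • m), ← h]
  refine sup_map ((q : ℂ) • 1 - sg ψ ρ k 0) _ (fun φ hφ m hm => ?_) hm
  rw [LinearMap.sub_apply, sg_wt q hψ k (star_zero F) (hW _ hm)]
  split_ifs with e
  · simp
  · simpa using Submodule.smul_mem _ _ (mem_sup ⟨hφ, by simpa using e⟩ hm)

end Cfsg.Uni
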