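import Cfsg.Agent.Uni.Field

/-! The Weil character sum over the unitary elements of a uniserial algebra. -/

set_option autoImplicit false

namespace Cfsg.Uni.Zero

open Module Finset
open scoped Classical

universe u

variable {F : Type u} [Field F] [Fintype F] [StarRing F] (q : ℕ) [UF F q]
  {R : Type u} [CommRing R] [Algebra F R] [Fintype R] [StarRing R] [StarModule F R]

theorem card_sk (W : Submodule F R) (hW : ∀ w ∈ W, star w ∈ W) :
    (univ.filter fun a => a ∈ W ∧ star a = -a).card = q ^ finrank F W := by
  obtain ⟨c, hc⟩ := exists_trace q (star_one F)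
  obtain ⟨s, hs, hs0⟩ := exists_skew_ne F q
  have hs' : star s = -s := eq_neg_of_add_eq_zero_right hs
  have hc' : star c = 1 - c := eq_sub_of_add_eq' hc
  let S := {a // a ∈ W ∧ star a = -a}
  have h1 : Function.Bijective fun x : S × S =>
      (⟨c • x.1.1 + s • x.2.1, W.add_mem (W.smul_mem _ x.1.2.1) (W.smul_mem _ x.2.2.1)⟩ : W) := by
    refine ⟨fun x y h => ?_, fun w => ⟨(⟨w - star w.1, W.sub_mem w.2 (hW _ w.2), by simp⟩,
      ⟨s⁻¹ • (star c • w + c • star w.1), W.smul_mem _ (W.add_mem (W.smul_mem _ w.2)
        (W.smul_mem _ (hW _ w.2))), by simp [hs', add_comm]⟩), Subtype.ext ?_⟩⟩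
    · have h2 : c • x.1.1 + s • x.2.1 = c • y.1.1 + s • y.2.1 := congrArg Subtype.val h
      have h3 := congrArg star h2
      simp only [star_add, star_smul, x.1.2.2, x.2.2.2, y.1.2.2, y.2.2.2, hs', hc'] at h3
      have h4 : x.1.1 = y.1.1 := by linear_combination (norm := module) h2 - h3
      rw [h4, add_right_inj] at h2
      exact Prod.ext (Subtype.ext h4) (Subtype.ext (smul_right_injective R hs0 h2))
    · simp only [smul_inv_smul₀ hs0, hc']
      module
  have h5 := Nat.card_eq_of_bijective _ h1
  rw [Nat.card_prod, natCard_eq_pow_finrank (K := F) (V := W), Nat.card_eq_fintype_card (α := F),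
    UF.card (F := F) (q := q), ← pow_mul, mul_comm 2, pow_mul, ← sq, Nat.card_eq_fintype_card,
    Fintype.card_subtype] at h5
  exact Nat.pow_left_injective two_ne_zero h5

/-- the dimension of the annihilator -/
noncomputable def an (F : Type u) [Field F] {R : Type u} [CommRing R] [Algebra F R] (a : R) : ℕ :=
  finrank F (LinearMap.ker (LinearMap.mul F R a))

/-- uniserial algebras -/
structure Us (π : R) (m : ℕ) : Prop where
  dec : ∀ a : R, a ≠ 0 → ∃ (u : Rˣ) (j : ℕ), a = u * π ^ j
  zero : π ^ (m + 1) = 0
  ne : π ^ m ≠ 0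
  st : π ∣ star π

omit [Fintype F] [StarRing F] [Fintype R] [StarRing R] [StarModule F R] in
theorem an_mul {u : R} (hu : IsUnit u) (a : R) : an F (u * a) = an F a := by
  rw [an, an, show LinearMap.ker (LinearMap.mul F R (u * a)) = LinearMap.ker (LinearMap.mul F R a)
    from Submodule.ext fun x => by simp [mul_assoc, hu.mul_right_eq_zero]]

variable {π : R} {m : ℕ} (h : Us π m)
include h

omit [Fintype R] in
theorem Us.not_unit : ¬ IsUnit π := fun hu => h.ne (hu.mul_left_eq_zero.1 (pow_succ π m ▸ h.zero))

omit [Fintype R] in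
theorem Us.unit_iff (a : R) : IsUnit a ↔ ¬ π ∣ a := by
  refine ⟨fun ha hd => h.not_unit (isUnit_of_dvd_unit hd ha), fun hd => ?_⟩
  obtain ⟨u, j, rfl⟩ := h.dec a fun e => hd (e ▸ dvd_zero π)
  cases j with
  | zero => simp
  | succ j => exact absurd (dvd_mul_of_dvd_right (dvd_pow_self π j.succ_ne_zero) _) hd

omit [Fintype R] in
theorem Us.unit_add {a b : R} (ha : IsUnit a) (hb : π ∣ b) : IsUnit (a + b) :=
  (h.unit_iff _).2 fun hd => (h.unit_iff _).1 ha ((dvd_add_left hb).1 hd)

omit [Fintype R] in
theorem Us.dvd_star {j : ℕ} {a : R} (ha : π ^ j ∣ a) : π ^ j ∣ star a := by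
  obtain ⟨b, rfl⟩ := ha
  rw [star_mul', star_pow]
  exact (pow_dvd_pow_of_dvd h.st j).mul_right _

omit h in
/-- the powers of the maximal ideal -/
noncomputable def pw (F : Type u) [Field F] {R : Type u} [CommRing R] [Algebra F R] (π : R)
    (j : ℕ) : Submodule F R := LinearMap.range (LinearMap.mul F R (π ^ j))

omit h [Fintype F] [StarRing F] [Fintype R] [StarRing R] [StarModule F R] in
theorem mem_pw {j : ℕ} {a : R} : a ∈ pw F π j ↔ π ^ j ∣ a :=
  ⟨fun ⟨b, e⟩ => ⟨b, e.symm⟩, fun ⟨b, e⟩ => ⟨b, e.symm⟩⟩

omit [Fintype F] [StarRing F] [StarModule F R] in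
theorem Us.rank_pw {j : ℕ} (hj : j ≤ m + 1) : finrank F (pw F π j) + an F π * j = finrank F R := by
  induction j with
  | zero =>
    rw [show pw F π 0 = ⊤ from eq_top_iff.2 fun a _ => mem_pw.2 (by simp), finrank_top]; rfl
  | succ j ih =>
    have h1 := ((LinearMap.mul F R π).domRestrict (pw F π j)).finrank_range_add_finrank_ker
    have h2 : LinearMap.ker (LinearMap.mul F R π) ≤ pw F π j := fun a ha => mem_pw.2 (by
      by_cases h0 : a = 0
      · simp [h0]
      obtain ⟨u, i, rfl⟩ := h.dec a h0
      refine (pow_dvd_pow π (not_lt.1 fun hi => h.ne ?_)).mul_left _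
      have h3 : π ^ (i + 1) = 0 := by
        rw [← u.isUnit.mul_right_eq_zero, pow_succ', mul_left_comm]; exact ha
      exact pow_eq_zero_of_le (by omega) h3)
    rw [LinearMap.ker_domRestrict, (Submodule.comapSubtypeEquivOfLe h2).finrank_eq,
      show LinearMap.range ((LinearMap.mul F R π).domRestrict (pw F π j)) = pw F π (j + 1) from
        Submodule.ext fun a => ⟨fun ⟨⟨_, b, rfl⟩, e⟩ => ⟨b, by simpa [pow_succ', mul_assoc] using e⟩,
          fun ⟨b, e⟩ => ⟨⟨_, b, rfl⟩, by simpa [pow_succ', mul_assoc] using e⟩⟩] at h1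
    rw [← ih (by omega), ← h1, an]
    ring

omit [Fintype F] [StarRing F] [StarModule F R] in
theorem Us.an_pow {j : ℕ} (hj : j ≤ m + 1) : an F (π ^ j) = an F π * j := by
  have h1 := (LinearMap.mul F R (π ^ j)).finrank_range_add_finrank_ker
  have h2 := h.rank_pw (F := F) hj
  rw [pw] at h2
  rw [an]
  omega

omit [Fintype F] [StarRing F] [StarModule F R] in
theorem Us.rank_eq : an F π * (m + 1) = finrank F R := by
  rw [← h.an_pow le_rfl, h.zero, an, map_zero, LinearMap.ker_zero, finrank_top]

theorem Us.card_sk {i j : ℕ} (hj : i + j = m + 1) :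
    (univ.filter fun a : R => π ^ j ∣ a ∧ star a = -a).card = (q ^ an F π) ^ i := by
  have h1 := Zero.card_sk q (pw F π j) fun w hw => mem_pw.2 (h.dvd_star (mem_pw.1 hw))
  have h2 := h.rank_pw (F := F) (j := j) (by omega)
  rw [← h.rank_eq, ← hj, mul_add, add_left_inj] at h2
  simpa only [mem_pw, h2, pow_mul] using h1

theorem Us.sum_sk (ho : Odd (finrank F R)) {i j : ℕ} (hj : i + j = m + 1) :
    2 * ∑ a with π ^ j ∣ a ∧ star a = -a, (-(q : ℂ)) ^ an F a = -2 * ((q : ℂ) ^ an F π) ^ (m + 1) +
      (((q : ℂ) ^ an F π) ^ (m + 1) - ((q : ℂ) ^ an F π) ^ m) * ((-1) ^ j + 1) := by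
  rw [← h.rank_eq, Nat.odd_mul] at ho
  induction i generalizing j with
  | zero =>
    rw [zero_add] at hj
    rw [hj, h.zero, show (univ.filter fun a : R => 0 ∣ a ∧ star a = -a) = {0} from
      Finset.ext fun a => by simp +contextual, sum_singleton, ← h.zero, h.an_pow le_rfl, pow_mul,
      ho.1.neg_pow, ho.2.neg_pow, ho.2.neg_one_pow]
    ring
  | succ i ih =>
    have hs : (univ.filter fun a : R => π ^ (j + 1) ∣ a ∧ star a = -a) ⊆
        univ.filter fun a : R => π ^ j ∣ a ∧ star a = -a := fun a ha => by
      simp only [mem_filter, mem_univ, true_and] at ha ⊢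
      exact ⟨(pow_dvd_pow π j.le_succ).trans ha.1, ha.2⟩
    rw [← sum_sdiff hs, mul_add, ih (j := j + 1) (by omega), sum_congr rfl
      (g := fun _ => (-(q : ℂ) ^ an F π) ^ j) fun a ha => ?_, sum_const, card_sdiff_of_subset hs,
      nsmul_eq_mul, Nat.cast_sub (card_le_card hs), h.card_sk (F := F) q hj,
      h.card_sk (F := F) q (i := i) (by omega), show m = i + j by omega, neg_pow]
    · push_cast; ring
    simp only [mem_sdiff, mem_filter, mem_univ, true_and, not_and] at ha
    obtain ⟨⟨⟨b, rfl⟩, h1⟩, h2⟩ := ha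
    rw [mul_comm, an_mul ((h.unit_iff b).2 fun hb => h2 (by
      rw [pow_succ]; exact mul_dvd_mul_left _ hb) h1), h.an_pow (by omega), pow_mul, ho.1.neg_pow]

omit [Fintype F] in
theorem Us.cayley {c : F} (hc : c + star c = 1) (g : R → ℂ)
    (hg : ∀ u a, IsUnit u → g (u * a) = g a) :
    ∑ u : R with u * star u = 1 ∧ IsUnit (c • 1 + star c • u), g (u - 1) =
      ∑ a : R with star a = -a, g a := by
  have hc' : star c = 1 - c := eq_sub_of_add_eq' hc
  have h1 : ∀ a : R, star a = -a → IsUnit (1 - star c • a) := fun a ha => (h.unit_iff _).2 fun hd => by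
    have h2 := h.dvd_star (j := 1) (a := 1 - star c • a) (by rwa [pow_one])
    rw [pow_one, star_sub, star_one, star_smul, star_star, ha] at h2
    have h3 : π ∣ a := by convert dvd_sub h2 hd using 1; rw [hc']; module
    refine (h.unit_iff 1).1 isUnit_one ?_
    convert dvd_add hd (h3.mul_left (algebraMap F R (star c))) using 1
    rw [← Algebra.smul_def, sub_add_cancel]
  symm
  refine sum_nbij' (fun a => (1 + c • a) * Ring.inverse (1 - star c • a))
    (fun u => (u - 1) * Ring.inverse (c • 1 + star c • u)) (fun a ha => ?_) (fun u hu => ?_)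
    (fun a ha => ?_) (fun u hu => ?_) fun a ha => ?_
  all_goals simp only [coe_filter, mem_filter, mem_univ, true_and, Set.mem_setOf_eq] at *
  · have e := Ring.mul_inverse_cancel _ (h1 a ha)
    have e' := congrArg star e
    simp only [star_mul', star_sub, star_one, star_smul, star_star, ha, star_add] at e' ⊢
    generalize Ring.inverse (1 - star c • a) = y at *
    simp only [Algebra.smul_def, hc', map_sub, map_one] at *
    refine ⟨by linear_combination (1 + algebraMap F R c * a) * star y * e + e',
      IsUnit.of_mul_eq_one (1 - (1 - algebraMap F R c) * a) ?_⟩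
    linear_combination (1 - algebraMap F R c) * (1 + algebraMap F R c * a) * e
  · have e := Ring.mul_inverse_cancel _ hu.2
    have e' := congrArg star e
    have e1 := hu.1
    simp only [star_mul', star_sub, star_one, star_smul, star_star, star_add] at e' ⊢
    generalize Ring.inverse (c • 1 + star c • u) = y at *
    simp only [Algebra.smul_def, hc', map_sub, map_one] at *
    linear_combination (-(star u - 1) * star y) * e - (u - 1) * y * e' + y * star y * e1
  · have e := Ring.mul_inverse_cancel _ (h1 a ha)
    generalize Ring.inverse (1 - star c • a) = y at *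
    have e1 : c • 1 + star c • ((1 + c • a) * y) = y := by
      simp only [Algebra.smul_def, hc', map_sub, map_one] at *
      linear_combination (-algebraMap F R c) * e
    have e2 := Ring.mul_inverse_cancel y (IsUnit.of_mul_eq_one_right _ e)
    rw [e1]
    simp only [Algebra.smul_def, hc', map_sub, map_one] at *
    linear_combination Ring.inverse y * e + a * e2
  · have e := Ring.mul_inverse_cancel _ hu.2
    generalize Ring.inverse (c • 1 + star c • u) = y at *
    have e1 : 1 - star c • ((u - 1) * y) = y := by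
      simp only [Algebra.smul_def, hc', map_sub, map_one] at *
      linear_combination -e
    have e2 := Ring.mul_inverse_cancel y (IsUnit.of_mul_eq_one_right _ e)
    rw [e1]
    simp only [Algebra.smul_def, hc', map_sub, map_one] at *
    linear_combination -Ring.inverse y * e + u * e2
  · have e := Ring.mul_inverse_cancel _ (h1 a ha)
    rw [← hg _ a (IsUnit.of_mul_eq_one_right _ e)]
    congr 1
    simp only [Algebra.smul_def, hc', map_sub, map_one] at *
    linear_combination -e

theorem Us.sum_eq (ho : Odd (finrank F R)) :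
    ∑ u : R with u * star u = 1, (-(q : ℂ)) ^ an F (u - 1) = 0 := by
  obtain ⟨c, hc⟩ := exists_trace q (star_one F)
  have hc0 : c ≠ 0 := fun e => by simp [e] at hc
  have hc1 : star c ≠ 0 := star_ne_zero.2 hc0
  have hc' : star c = 1 - c := eq_sub_of_add_eq' hc
  have h1 := h.sum_sk (F := F) q ho (j := 0) rfl
  have h2 := h.cayley hc (fun a => (-(q : ℂ)) ^ an F a) fun u a hu => by rw [an_mul hu]
  have h3 := h.cayley hc (fun a => if π ∣ a then 1 else 0) fun u a hu => by
    simp only [hu.dvd_mul_left]
  have h4 := h.card_sk (F := F) q (i := m) (j := 1) rfl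
  simp only [pow_zero, one_dvd, true_and] at h1
  rw [← sum_filter_add_sum_filter_not _ fun u => IsUnit (c • 1 + star c • u), filter_filter, h2,
    filter_filter, add_eq_zero_iff_eq_neg, ← neg_eq_iff_eq_neg, eq_comm,
    sum_congr rfl (g := fun _ => 1) fun u hu => ?_]
  · simp only [sum_boole, filter_filter, pow_one, and_comm (b := π ∣ _)] at h3 h4
    rw [h4] at h3
    rw [sum_const, card_nbij' (t := univ.filter fun u : R =>
      π ∣ u - 1 ∧ u * star u = 1 ∧ IsUnit (c • 1 + star c • u)) (fun u => (-star c / c) • u)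
      (fun u => (-c / star c) • u) (fun u hu => ?_) (fun u hu => ?_) (fun u _ => ?_) fun u _ => ?_,
      nsmul_one, h3]
    · push_cast; linear_combination h1 / 2
    all_goals simp only [coe_filter, mem_univ, true_and, Set.mem_setOf_eq, smul_smul] at *
    · have h5 : π ∣ (-star c / c) • u - 1 := by
        convert (not_not.1 (mt (h.unit_iff _).2 hu.2)).mul_left (algebraMap F R (-c⁻¹)) using 1
        rw [← Algebra.smul_def]
        match_scalars <;> field_simp
      refine ⟨h5, ?_, ?_⟩
      · rw [star_smul, smul_mul_smul_comm, hu.1, star_div₀, star_neg, star_star, show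
          -star c / c * (-c / star c) = 1 by field_simp, one_smul]
      · convert h.unit_add isUnit_one (h5.mul_left (algebraMap F R (star c))) using 1
        rw [← Algebra.smul_def, hc']
        module
    · refine ⟨?_, fun hu' => (h.unit_iff _).1 hu' ?_⟩
      · rw [star_smul, smul_mul_smul_comm, hu.2.1, star_div₀, star_neg, star_star, show
          -c / star c * (-star c / c) = 1 by field_simp, one_smul]
      · convert hu.1.mul_left (algebraMap F R (-c)) using 1
        rw [← Algebra.smul_def]
        match_scalars <;> field_simp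
    · rw [show -c / star c * (-star c / c) = 1 by field_simp, one_smul]
    · rw [show -star c / c * (-c / star c) = 1 by field_simp, one_smul]
  have h5 := (not_not.1 (mt (h.unit_iff _).2 (mem_filter.1 hu).2.2)).mul_left
    (algebraMap F R (star c)⁻¹)
  have h6 := h.unit_add ((IsUnit.mk0 _ (neg_ne_zero.2 (inv_ne_zero hc1))).map (algebraMap F R)) h5
  rw [show u - 1 = (algebraMap F R (-(star c)⁻¹) + algebraMap F R (star c)⁻¹ *
    (c • 1 + star c • u)) * π ^ 0 by
      rw [← Algebra.smul_def, Algebra.algebraMap_eq_smul_one, pow_zero, mul_one]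
      match_scalars
      · field_simp
      · field_simp; linear_combination -hc, an_mul h6, h.an_pow (by omega), mul_zero, pow_zero]

end Cfsg.Uni.Zero
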